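import Cfsg.Agent.Lib.Involutions.Basic
import Cfsg.Agent.Lib.Cores.PCore

/-!
Groups whose automorphism group has few orbits on elements: elementary facts.
-/

set_option autoImplicit false
set_option linter.unusedSectionVars false

open Subgroup

namespace CfsgLib.FewAutOrbits

variable {G : Type*} [Group G]

/-- Elements of equal order are conjugate under the automorphism group. -/
def AutTrans (G : Type*) [Group G] : Prop :=
  ∀ x y : G, orderOf x = orderOf y → ∃ φ : MulAut G, φ x = y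

theorem orderOf_autApply (φ : MulAut G) (x : G) : orderOf (φ x) = orderOf x :=
  orderOf_injective φ.toMonoidHom φ.injective x

/-- At most as many element orders as orbits; in case of equality elements of equal order are conjugate. -/
theorem card_orders_le [Finite G] {k : ℕ}
    (h : Nat.card (MulAction.orbitRel.Quotient (MulAut G) G) ≤ k) :
    (Set.range (orderOf : G → ℕ)).ncard ≤ k ∧
      ((Set.range (orderOf : G → ℕ)).ncard = k → AutTrans G) := by
  classical
  set f : MulAction.orbitRel.Quotient (MulAut G) G → ℕ := Quotient.lift orderOf (fun a b hab => by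
    obtain ⟨φ, hφ⟩ := (MulAction.orbitRel_apply.1 hab : a ∈ MulAction.orbit (MulAut G) b)
    rw [← hφ]; exact orderOf_autApply φ b) with hf
  have hr : Set.range f = Set.range (orderOf : G → ℕ) := by
    ext n
    constructor
    · rintro ⟨q, rfl⟩
      induction q using Quotient.inductionOn with | _ a => exact ⟨a, rfl⟩
    · rintro ⟨a, rfl⟩; exact ⟨⟦a⟧, rfl⟩
  have h1 : (Set.range f).ncard ≤ Nat.card (MulAction.orbitRel.Quotient (MulAut G) G) := by
    rw [← Nat.card_coe_set_eq]
    exact Nat.card_le_card_of_surjective _ Set.rangeFactorization_surjective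
  refine ⟨hr ▸ h1.trans h, fun he x y hxy => ?_⟩
  have hb := (Set.rangeFactorization_surjective (f := f)).bijective_of_nat_card_le (by
    rw [Nat.card_coe_set_eq, hr, he]; exact h)
  have heq : (⟦x⟧ : MulAction.orbitRel.Quotient (MulAut G) G) = ⟦y⟧ := hb.1 (Subtype.ext hxy)
  obtain ⟨φ, hφ⟩ := (MulAction.orbitRel_apply.1 (Quotient.exact heq) : x ∈ MulAction.orbit (MulAut G) y)
  exact ⟨φ⁻¹, by rw [← hφ]; exact φ.symm_apply_apply y⟩

/-- An automorphism carries centralisers to centralisers. -/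
theorem mem_centralizer_autApply (φ : MulAut G) {x g : G} :
    φ g ∈ centralizer ({φ x} : Set G) ↔ g ∈ centralizer ({x} : Set G) := by
  rw [mem_centralizer_singleton_iff, mem_centralizer_singleton_iff, ← map_mul, ← map_mul,
    φ.injective.eq_iff]

theorem map_centralizer_autApply (φ : MulAut G) (x : G) :
    (centralizer ({x} : Set G)).map φ.toMonoidHom = centralizer ({φ x} : Set G) := by
  ext g
  constructor
  · rintro ⟨a, ha, rfl⟩; exact (mem_centralizer_autApply φ).2 ha
  · intro hg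
    refine ⟨φ.symm g, (mem_centralizer_autApply φ).1 ?_, φ.apply_symm_apply g⟩
    rwa [φ.apply_symm_apply]

theorem card_centralizer_autApply (φ : MulAut G) (x : G) :
    Nat.card (centralizer ({φ x} : Set G)) = Nat.card (centralizer ({x} : Set G)) := by
  rw [← map_centralizer_autApply]
  exact card_map_of_injective φ.injective

/-- The element orders of a group with exactly three primes `2`, `p`, `r` and elements of order `2p`. -/
structure TwoP (G : Type*) [Group G] (p r : ℕ) : Prop where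
  simple : IsSimpleGroup G
  nonab : ∃ a b : G, a * b ≠ b * a
  hp : p.Prime
  hp2 : p ≠ 2
  hr : r.Prime
  hr2 : r ≠ 2
  hrp : r ≠ p
  orders : ∀ g : G, orderOf g = 1 ∨ orderOf g = 2 ∨ orderOf g = p ∨ orderOf g = r ∨ orderOf g = 2 * p
  has2p : ∃ g : G, orderOf g = 2 * p
  trans : AutTrans G

namespace TwoP

variable {p r : ℕ} (h : TwoP G p r)
include h

theorem three_le : 3 ≤ p := lt_of_le_of_ne h.hp.two_le (Ne.symm h.hp2)

theorem not_four_dvd (g : G) : ¬ 4 ∣ orderOf g := by
  intro h4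
  have := h.three_le
  rcases h.orders g with e | e | e | e | e <;> rw [e] at h4
  · omega
  · omega
  · exact h.hp2 ((Nat.prime_dvd_prime_iff_eq Nat.prime_two h.hp).1 ((by norm_num : 2 ∣ 4).trans h4)).symm
  · exact h.hr2 ((Nat.prime_dvd_prime_iff_eq Nat.prime_two h.hr).1 ((by norm_num : 2 ∣ 4).trans h4)).symm
  · exact h.hp2 ((Nat.prime_dvd_prime_iff_eq Nat.prime_two h.hp).1
      (Nat.dvd_of_mul_dvd_mul_left two_pos (show 2 * 2 ∣ 2 * p from h4))).symm

theorem not_two_r_dvd (g : G) : ¬ 2 * r ∣ orderOf g := by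
  intro hd
  have h3 := h.three_le
  have hr3 : 3 ≤ r := lt_of_le_of_ne h.hr.two_le (Ne.symm h.hr2)
  have hrd : r ∣ orderOf g := dvd_trans (dvd_mul_left r 2) hd
  have h2d : 2 ∣ orderOf g := dvd_trans (dvd_mul_right 2 r) hd
  rcases h.orders g with e | e | e | e | e <;> rw [e] at hrd h2d
  · exact h.hr.not_dvd_one hrd
  · exact h.hr2 ((Nat.prime_dvd_prime_iff_eq h.hr Nat.prime_two).1 hrd)
  · exact h.hrp ((Nat.prime_dvd_prime_iff_eq h.hr h.hp).1 hrd)
  · exact h.hr2 ((Nat.prime_dvd_prime_iff_eq Nat.prime_two h.hr).1 h2d).symm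
  · rcases (h.hr.dvd_mul).1 hrd with h' | h'
    · exact h.hr2 ((Nat.prime_dvd_prime_iff_eq h.hr Nat.prime_two).1 h')
    · exact h.hrp ((Nat.prime_dvd_prime_iff_eq h.hr h.hp).1 h')

theorem not_p_r_dvd (g : G) : ¬ p * r ∣ orderOf g := by
  intro hd
  have hrd : r ∣ orderOf g := dvd_trans (dvd_mul_left r p) hd
  have hpd : p ∣ orderOf g := dvd_trans (dvd_mul_right p r) hd
  rcases h.orders g with e | e | e | e | e <;> rw [e] at hrd hpd
  · exact h.hr.not_dvd_one hrd
  · exact h.hr2 ((Nat.prime_dvd_prime_iff_eq h.hr Nat.prime_two).1 hrd)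
  · exact h.hrp ((Nat.prime_dvd_prime_iff_eq h.hr h.hp).1 hrd)
  · exact h.hrp ((Nat.prime_dvd_prime_iff_eq h.hp h.hr).1 hpd).symm
  · rcases (h.hr.dvd_mul).1 hrd with h' | h'
    · exact h.hr2 ((Nat.prime_dvd_prime_iff_eq h.hr Nat.prime_two).1 h')
    · exact h.hrp ((Nat.prime_dvd_prime_iff_eq h.hr h.hp).1 h')

/-- A non-trivial element commuting with one of order `2` or `p` has order prime to `r`. -/
theorem orders_centralizer {x g : G} (hx : orderOf x = 2 ∨ orderOf x = p) (hc : Commute x g) :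
    orderOf g = 1 ∨ orderOf g = 2 ∨ orderOf g = p ∨ orderOf g = 2 * p := by
  rcases h.orders g with e | e | e | e | e
  · exact Or.inl e
  · exact Or.inr (Or.inl e)
  · exact Or.inr (Or.inr (Or.inl e))
  · exfalso
    rcases hx with hx | hx
    · apply h.not_two_r_dvd (x * g)
      rw [hc.orderOf_mul_eq_mul_orderOf_of_coprime (by
        rw [hx, e]; exact (Nat.coprime_primes Nat.prime_two h.hr).2 (Ne.symm h.hr2)), hx, e]
    · apply h.not_p_r_dvd (x * g)
      rw [hc.orderOf_mul_eq_mul_orderOf_of_coprime (by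
        rw [hx, e]; exact (Nat.coprime_primes h.hp h.hr).2 (Ne.symm h.hrp)), hx, e]
  · exact Or.inr (Or.inr (Or.inr e))

theorem orderOf_mul_two_p {t y : G} (ht : orderOf t = 2) (hy : orderOf y = p) (hc : Commute t y) :
    orderOf (t * y) = 2 * p := by
  rw [hc.orderOf_mul_eq_mul_orderOf_of_coprime (by
    rw [ht, hy]; exact (Nat.coprime_primes Nat.prime_two h.hp).2 (Ne.symm h.hp2)), ht, hy]

theorem exists_pair : ∃ t y : G, orderOf t = 2 ∧ orderOf y = p ∧ Commute t y := by
  obtain ⟨g, hg⟩ := h.has2p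
  have := h.three_le
  refine ⟨g ^ p, g ^ 2, ?_, ?_, (Commute.refl g).pow_pow p 2⟩
  · rw [orderOf_pow' g h.hp.ne_zero, hg, Nat.gcd_mul_left_left, Nat.mul_div_cancel _ h.hp.pos]
  · rw [orderOf_pow' g two_ne_zero, hg, Nat.gcd_mul_right_left, Nat.mul_div_cancel_left _ two_pos]

/-- Every involution commutes with an element of order `p`. -/
theorem exists_p_of_two {t : G} (ht : orderOf t = 2) : ∃ y : G, orderOf y = p ∧ Commute t y := by
  obtain ⟨t₀, y₀, ht₀, hy₀, hc⟩ := h.exists_pair
  obtain ⟨φ, hφ⟩ := h.trans t₀ t (ht₀.trans ht.symm)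
  exact ⟨φ y₀, (orderOf_autApply φ y₀).trans hy₀, hφ ▸ hc.map φ.toMonoidHom⟩

/-- Every element of order `p` commutes with an involution. -/
theorem exists_two_of_p {y : G} (hy : orderOf y = p) : ∃ t : G, orderOf t = 2 ∧ Commute t y := by
  obtain ⟨t₀, y₀, ht₀, hy₀, hc⟩ := h.exists_pair
  obtain ⟨φ, hφ⟩ := h.trans y₀ y (hy₀.trans hy.symm)
  exact ⟨φ t₀, (orderOf_autApply φ t₀).trans ht₀, hφ ▸ hc.map φ.toMonoidHom⟩

theorem card_centralizer_eq {x y : G} (hxy : orderOf x = orderOf y) :
    Nat.card (centralizer ({x} : Set G)) = Nat.card (centralizer ({y} : Set G)) := by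
  obtain ⟨φ, hφ⟩ := h.trans x y hxy
  rw [← hφ, card_centralizer_autApply]

/-- An element of order `p` commuting with `t` is carried to any other by an automorphism fixing `t`. -/
theorem exists_aut_fixing {t u v : G} (ht : orderOf t = 2) (hu : orderOf u = p) (hv : orderOf v = p)
    (hcu : Commute t u) (hcv : Commute t v) : ∃ φ : MulAut G, φ t = t ∧ φ u = v := by
  obtain ⟨φ, hφ⟩ := h.trans (t * u) (t * v)
    ((h.orderOf_mul_two_p ht hu hcu).trans (h.orderOf_mul_two_p ht hv hcv).symm)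
  obtain ⟨k, hk⟩ : Odd p := h.hp.odd_of_ne_two h.hp2
  have key : ∀ u : G, orderOf u = p → Commute t u → (t * u) ^ p = t := by
    intro u hu hc
    have hup : u ^ p = 1 := hu ▸ pow_orderOf_eq_one u
    rw [hc.mul_pow, hup, mul_one, hk, pow_succ, pow_mul, pow_two,
      Involutions.mul_self_eq_one ht, one_pow, one_mul]
  have h1 : φ t = t := by
    have := congrArg (fun g : G => g ^ p) hφ
    simp only [← map_pow, key u hu hcu, key v hv hcv] at this
    exact this
  refine ⟨φ, h1, ?_⟩
  rw [map_mul, h1] at hφ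
  exact mul_left_cancel hφ

theorem orderOf_of_isPGroup_two {S : Subgroup G} (hS : IsPGroup 2 S) {g : G} (hg : g ∈ S) :
    orderOf g = 1 ∨ orderOf g = 2 := by
  obtain ⟨k, hk⟩ := IsPGroup.iff_orderOf.1 hS ⟨g, hg⟩
  rw [orderOf_mk] at hk
  match k with
  | 0 => exact Or.inl hk
  | 1 => exact Or.inr hk
  | k + 2 => exact absurd (hk ▸ (pow_dvd_pow 2 (show 2 ≤ k + 2 by omega) : 2 ^ 2 ∣ 2 ^ (k + 2))) (h.not_four_dvd g)

theorem sq_eq_one_of_two {S : Subgroup G} (hS : IsPGroup 2 S) {g : G} (hg : g ∈ S) : g * g = 1 := by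
  rcases h.orderOf_of_isPGroup_two hS hg with e | e
  · rw [orderOf_eq_one_iff.1 e, one_mul]
  · exact Involutions.mul_self_eq_one e

theorem commute_of_two {S : Subgroup G} (hS : IsPGroup 2 S) {a b : G} (ha : a ∈ S) (hb : b ∈ S) :
    a * b = b * a := by
  have h1 := h.sq_eq_one_of_two hS ha
  have h2 := h.sq_eq_one_of_two hS hb
  have h3 := h.sq_eq_one_of_two hS (S.mul_mem ha hb)
  calc a * b = (a * b)⁻¹ := (inv_eq_of_mul_eq_one_right h3).symm
    _ = b⁻¹ * a⁻¹ := mul_inv_rev a b
    _ = b * a := by rw [inv_eq_of_mul_eq_one_right h1, inv_eq_of_mul_eq_one_right h2]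

variable [Finite G]

theorem orderOf_of_isPGroup_p {P : Subgroup G} (hP : IsPGroup p P) {g : G} (hg : g ∈ P) (hg1 : g ≠ 1) :
    orderOf g = p := by
  have : Fact p.Prime := ⟨h.hp⟩
  obtain ⟨k, hk⟩ := IsPGroup.iff_orderOf.1 hP ⟨g, hg⟩
  rw [orderOf_mk] at hk
  have hp1 := h.three_le
  rcases k with _ | k
  · exact absurd (orderOf_eq_one_iff.1 (by simpa using hk)) hg1
  · have hpd : p ∣ orderOf g := hk ▸ dvd_pow_self p k.succ_ne_zero
    have hodd : Odd (orderOf g) := hk ▸ (h.hp.odd_of_ne_two h.hp2).pow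
    rcases h.orders g with e | e | e | e | e
    · rw [e] at hpd; exact absurd hpd h.hp.not_dvd_one
    · rw [e] at hodd; exact absurd hodd (by decide)
    · exact e
    · rw [e] at hpd; exact absurd ((Nat.prime_dvd_prime_iff_eq h.hp h.hr).1 hpd) (Ne.symm h.hrp)
    · rw [e] at hodd; exact absurd (Nat.odd_mul.1 hodd).1 (by decide)

/-- Every element of order `p` centralises a Sylow `p`-subgroup. -/
theorem exists_sylow_le_centralizer {y : G} (hy : orderOf y = p) :
    ∃ P : Sylow p G, (P : Subgroup G) ≤ centralizer ({y} : Set G) := by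
  classical
  have : Fact p.Prime := ⟨h.hp⟩
  obtain ⟨P₀⟩ : Nonempty (Sylow p G) := inferInstance
  have hdvd : p ∣ Nat.card G := hy ▸ orderOf_dvd_natCard y
  have : Nontrivial (P₀ : Subgroup G) := (nontrivial_iff_ne_bot _).2 (P₀.ne_bot_of_dvd_card hdvd)
  have := P₀.2.center_nontrivial
  obtain ⟨z, hz1⟩ := exists_ne (1 : center (P₀ : Subgroup G))
  have hz1' : ((z : (P₀ : Subgroup G)) : G) ≠ 1 := fun e => hz1 (Subtype.ext (Subtype.ext e))
  obtain ⟨φ, hφ⟩ := h.trans _ y ((h.orderOf_of_isPGroup_p P₀.2 (z : (P₀ : Subgroup G)).2 hz1').trans hy.symm)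
  refine ⟨Sylow.ofCard ((P₀ : Subgroup G).map φ.toMonoidHom)
    ((card_map_of_injective φ.injective).trans P₀.card_eq_multiplicity), ?_⟩
  rintro _ ⟨a, ha, rfl⟩
  rw [← hφ]
  exact (mem_centralizer_autApply φ).2 (mem_centralizer_singleton_iff.2
    (congrArg Subtype.val (mem_center_iff.1 z.2 ⟨a, ha⟩)))

end TwoP

end CfsgLib.FewAutOrbits
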