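import Cfsg.Agent.Lib.CIT.TISylow
import Cfsg.Agent.Lib.AbelianInvCent.Final
import Cfsg.Agent.Lib.FewAutOrbits.Basic
import Cfsg.Agent.S0205

/-!
Simple groups of 2-exponent two with abelian involution centralisers.
-/

set_option autoImplicit false
set_option linter.unusedSectionVars false

open Subgroup

namespace CfsgLib.FewAutOrbits

universe u

variable {G : Type u} [Group G] [Finite G] [IsSimpleGroup G]

theorem two_dvd_card (hna : ∃ a b : G, a * b ≠ b * a) : 2 ∣ Nat.card G := by
  by_contra hn
  have hsol : Group.IsSolvable G := Cfsg.Agent.S0205.result (Nat.odd_iff.2 (by omega))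
  obtain ⟨a, b, hab⟩ := hna
  exact hab (IsSimpleGroup.comm_iff_isSolvable.2 hsol a b)

/-- The Sylow `2`-subgroups of a non-abelian simple group are not cyclic of order two. -/
theorem four_le_card_sylow (hna : ∃ a b : G, a * b ≠ b * a) (S : Sylow 2 G) :
    4 ≤ Nat.card (S : Subgroup G) := by
  have : Fact (Nat.Prime 2) := ⟨Nat.prime_two⟩
  have h2 := two_dvd_card hna
  have hne : (S : Subgroup G) ≠ ⊥ := S.ne_bot_of_dvd_card h2
  obtain ⟨k, hk⟩ := IsPGroup.iff_card.1 S.2
  match k with
  | 0 => exact absurd (card_eq_one.1 hk) hne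
  | 1 =>
    exfalso
    have hcyc : IsCyclic (S : Subgroup G) := isCyclic_of_prime_card (p := 2) (by rw [hk]; rfl)
    have hmin : (Nat.card G).minFac = 2 := (Nat.minFac_eq_two_iff _).2 h2
    have hN : normalizer ((S : Subgroup G) : Set G) ≤ centralizer ((S : Subgroup G) : Set G) :=
      hcyc.normalizer_le_centralizer hmin
    have hcompl := MonoidHom.ker_transferSylow_isComplement' S hN
    rcases (inferInstance : (MonoidHom.transferSylow S hN).ker.Normal).eq_bot_or_eq_top with e | e
    · rw [e] at hcompl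
      have htop := isComplement'_bot_left.1 hcompl
      have hp : IsPGroup 2 G := by
        have := S.2
        rw [htop] at this
        exact this.of_equiv topEquiv
      obtain ⟨a, b, hab⟩ := hna
      exact hab (IsSimpleGroup.comm_iff_isSolvable.2 (by
        have := hp.isNilpotent
        infer_instance) a b)
    · rw [e] at hcompl
      exact hne (isComplement'_top_left.1 hcompl)
  | k + 2 =>
    rw [hk]
    exact le_trans (le_of_eq (by norm_num)) (Nat.pow_le_pow_right two_pos (show 2 ≤ k + 2 by omega))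

/-- `G ≅ SL₂(F)` with `F` of characteristic two. -/
theorem iso_sl2_of_abelian (hna : ∃ a b : G, a * b ≠ b * a) (h4 : ∀ g : G, ¬ 4 ∣ orderOf g)
    (habel : ∀ t : G, orderOf t = 2 → ∀ a b : G, a * t = t * a → b * t = t * b → a * b = b * a) :
    ∃ (F : Type) (_ : Field F) (_ : Fintype F), CharP F 2 ∧
      Nonempty (G ≃* Matrix.SpecialLinearGroup (Fin 2) F) := by
  classical
  have : Fact (Nat.Prime 2) := ⟨Nat.prime_two⟩
  have h2 := two_dvd_card hna
  have hS2 : ∀ (S : Sylow 2 G), ∀ g ∈ (S : Subgroup G), g ≠ 1 → orderOf g = 2 := by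
    intro S g hg hg1
    obtain ⟨k, hk⟩ := IsPGroup.iff_orderOf.1 S.2 ⟨g, hg⟩
    rw [orderOf_mk] at hk
    match k with
    | 0 => exact absurd (orderOf_eq_one_iff.1 (by simpa using hk)) hg1
    | 1 => simpa using hk
    | k + 2 =>
      exact absurd (hk ▸ (pow_dvd_pow 2 (show 2 ≤ k + 2 by omega) : 2 ^ 2 ∣ 2 ^ (k + 2))) (h4 g)
  have hcomm : ∀ (S : Sylow 2 G), ∀ a ∈ (S : Subgroup G), ∀ b ∈ (S : Subgroup G), a * b = b * a := by
    intro S a ha b hb
    rcases eq_or_ne a 1 with rfl | ha1
    · simp
    rcases eq_or_ne b 1 with rfl | hb1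
    · simp
    rcases eq_or_ne (a * b) 1 with he | he
    · rw [eq_inv_of_mul_eq_one_left he]; simp
    have h1 := Involutions.mul_self_eq_one (hS2 S a ha ha1)
    have h3 := Involutions.mul_self_eq_one (hS2 S b hb hb1)
    have h5 := Involutions.mul_self_eq_one (hS2 S _ ((S : Subgroup G).mul_mem ha hb) he)
    calc a * b = (a * b)⁻¹ := (inv_eq_of_mul_eq_one_right h5).symm
      _ = b⁻¹ * a⁻¹ := mul_inv_rev a b
      _ = b * a := by rw [inv_eq_of_mul_eq_one_right h1, inv_eq_of_mul_eq_one_right h3]
  have hfix : ∀ (S : Sylow 2 G) (t : G), orderOf t = 2 → (t • S = S ↔ t ∈ (S : Subgroup G)) := by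
    intro S t ht
    rw [Sylow.smul_eq_iff_mem_normalizer]
    exact ⟨fun hn => CIT.mem_sylow_of_mem_normalizer S hn (CIT.isPGroup_zpowers_of_orderOf ht),
      fun hm => le_normalizer hm⟩
  have hyp : AbelianInvCent.Hyp G (Sylow 2 G) :=
    { abel := habel
      fixed := by
        intro t ht
        obtain ⟨S, hS⟩ := (CIT.isPGroup_zpowers_of_orderOf ht).exists_le_sylow
        have htS := hS (mem_zpowers t)
        refine ⟨S, (hfix S t ht).2 htS, fun T hT => ?_⟩
        have htT := (hfix T t ht).1 hT
        refine Sylow.ext (T.3 S.2 fun x hx => ?_) |>.symm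
        have h1 : IsPGroup 2 ↥((S : Subgroup G) ⊔ (T : Subgroup G)) :=
          S.2.to_sup_of_normal_right' T.2 (fun y hy => mem_normalizer_iff.2 fun z => by
            constructor
            · intro hz
              rw [habel t ht y z (hcomm S y hy t htS) (hcomm T z hz t htT), mul_inv_cancel_right]
              exact hz
            · intro hz
              have e := habel t ht y _ (hcomm S y hy t htS) (hcomm T _ hz t htT)
              have e2 : y * z * y⁻¹ = z := by
                have h3 : y * (y * z * y⁻¹) = y * z := by rw [e]; group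
                exact mul_left_cancel h3
              rwa [e2] at hz)
        rw [← S.3 h1 le_sup_left]
        exact le_sup_right (a := (S : Subgroup G)) hx
      commInv := fun S s t hs ht hsS htS => hcomm S s ((hfix S s hs).1 hsS) t ((hfix S t ht).1 htS)
      two := by
        intro S
        have h4' := four_le_card_sylow hna S
        obtain ⟨a, b, hab, ha1, hb1⟩ : ∃ a b : (S : Subgroup G), a ≠ b ∧ a ≠ 1 ∧ b ≠ 1 := by
          have := Fintype.ofFinite (S : Subgroup G)
          rw [Nat.card_eq_fintype_card] at h4'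
          obtain ⟨a, ha, b, hb, hab⟩ := Finset.one_lt_card.1 (show 1 < (Finset.univ.erase (1 : (S : Subgroup G))).card by
            rw [Finset.card_erase_of_mem (Finset.mem_univ _), Finset.card_univ]; omega)
          exact ⟨a, b, hab, Finset.ne_of_mem_erase ha, Finset.ne_of_mem_erase hb⟩
        have ha := hS2 S a a.2 fun e => ha1 (Subtype.ext e)
        have hb := hS2 S b b.2 fun e => hb1 (Subtype.ext e)
        exact ⟨a, b, fun e => hab (Subtype.ext e), ha, hb, (hfix S _ ha).2 a.2, (hfix S _ hb).2 b.2⟩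
      nontriv := by
        obtain ⟨S⟩ : Nonempty (Sylow 2 G) := inferInstance
        by_contra! hone
        have hn : normalizer ((S : Subgroup G) : Set G) = ⊤ :=
          eq_top_iff.2 fun g _ => Sylow.smul_eq_iff_mem_normalizer.1 (hone (g • S) S)
        have hnor : (S : Subgroup G).Normal := normalizer_eq_top_iff.1 hn
        rcases hnor.eq_bot_or_eq_top with e | e
        · exact S.ne_bot_of_dvd_card h2 e
        · obtain ⟨a, b, hab⟩ := hna
          exact hab (hcomm S a (e ▸ mem_top a) b (e ▸ mem_top b)) }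
  obtain ⟨F, _, _, A, _, _, hchar, hodd, ⟨e⟩⟩ := AbelianInvCent.structure_of_hyp hyp
  refine ⟨F, inferInstance, inferInstance, hchar, ?_⟩
  set f := (MonoidHom.fst (Matrix.SpecialLinearGroup (Fin 2) F) A).comp e.toMonoidHom with hf
  rcases (inferInstance : f.ker.Normal).eq_bot_or_eq_top with hk | hk
  · exact ⟨MulEquiv.ofBijective f ⟨(MonoidHom.ker_eq_bot_iff f).1 hk,
      fun x => ⟨e.symm (x, 1), by simp [hf]⟩⟩⟩
  · exfalso
    obtain ⟨a, b, hab⟩ := hna
    refine hab (e.injective ?_)
    have h1 : ∀ x : G, (e x).1 = 1 := fun x => MonoidHom.mem_ker.1 (hk ▸ mem_top x : x ∈ f.ker)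
    rw [map_mul, map_mul]
    exact Prod.ext (by simp [h1]) (mul_comm _ _)

/-- In `SL₂` in characteristic two an element of odd order commuting with an involution is trivial. -/
theorem sl2_eq_one_of_commute {F : Type*} [Field F] [Fintype F] [CharP F 2]
    {t y : Matrix.SpecialLinearGroup (Fin 2) F} (ht : t ^ 2 = 1) (ht1 : t ≠ 1) (hc : Commute t y)
    (hy : Odd (orderOf y)) : y = 1 := by
  have h2 : (2 : F) = 0 := CharTwo.two_eq_zero
  have e1 : ∀ i j, ((t : Matrix (Fin 2) (Fin 2) F) * t) i j = (1 : Matrix (Fin 2) (Fin 2) F) i j := by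
    intro i j
    rw [← Matrix.SpecialLinearGroup.coe_mul, ← pow_two, ht, Matrix.SpecialLinearGroup.coe_one]
  have e2 : ∀ i j, ((t : Matrix (Fin 2) (Fin 2) F) * y) i j = ((y : Matrix (Fin 2) (Fin 2) F) * t) i j := by
    intro i j
    rw [← Matrix.SpecialLinearGroup.coe_mul, ← Matrix.SpecialLinearGroup.coe_mul, hc.eq]
  have a00 := e1 0 0
  have a01 := e1 0 1
  have a10 := e1 1 0
  have a11 := e1 1 1
  have b00 := e2 0 0
  have b01 := e2 0 1
  have b10 := e2 1 0
  simp [Matrix.mul_apply, Fin.sum_univ_two] at a00 a01 a10 a11 b00 b01 b10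
  have hdt : t.1 0 0 * t.1 1 1 - t.1 0 1 * t.1 1 0 = 1 := by rw [← Matrix.det_fin_two]; exact t.2
  have hdy : y.1 0 0 * y.1 1 1 - y.1 0 1 * y.1 1 0 = 1 := by rw [← Matrix.det_fin_two]; exact y.2
  -- the diagonal entries of `y` agree
  have hd : y.1 0 0 = y.1 1 1 := by
    rcases eq_or_ne (t.1 0 1) 0 with hb | hb
    · rcases eq_or_ne (t.1 1 0) 0 with hg | hg
      · exfalso
        apply ht1
        have hsq0 : t.1 0 0 * t.1 0 0 = 1 := by rw [hb] at a00; linear_combination a00
        have hsq1 : t.1 1 1 * t.1 1 1 = 1 := by rw [hg] at a11; linear_combination a11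
        have hone : ∀ x : F, x * x = 1 → x = 1 := fun x hx => by
          have : (x - 1) * (x - 1) = 0 := by linear_combination hx + (1 - x) * h2
          exact sub_eq_zero.1 (mul_self_eq_zero.1 this)
        refine Matrix.SpecialLinearGroup.ext _ _ fun i j => ?_
        fin_cases i <;> fin_cases j <;> simp [hb, hg, hone _ hsq0, hone _ hsq1]
      · refine mul_left_cancel₀ hg ?_
        rw [hb] at a00 a11
        have hone : ∀ x : F, x * x = 1 → x = 1 := fun x hx => by
          have : (x - 1) * (x - 1) = 0 := by linear_combination hx + (1 - x) * h2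
          exact sub_eq_zero.1 (mul_self_eq_zero.1 this)
        have h00 := hone (t.1 0 0) (by linear_combination a00)
        have h11 := hone (t.1 1 1) (by linear_combination a11)
        rw [h00, h11] at b10
        linear_combination b10
    · refine mul_left_cancel₀ hb ?_
      have hone : t.1 0 0 + t.1 1 1 = 0 := by
        rcases mul_eq_zero.1 (show t.1 0 1 * (t.1 0 0 + t.1 1 1) = 0 by linear_combination a01) with e | e
        · exact absurd e hb
        · exact e
      linear_combination -b01 - y.1 0 1 * hone + y.1 0 1 * t.1 0 0 * h2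
  have hy2 : y ^ 2 = 1 := by
    refine Matrix.SpecialLinearGroup.ext _ _ fun i j => ?_
    rw [pow_two, Matrix.SpecialLinearGroup.coe_mul, Matrix.SpecialLinearGroup.coe_one]
    fin_cases i <;> fin_cases j <;> simp [Matrix.mul_apply, Fin.sum_univ_two]
    · rw [← hd] at hdy; linear_combination hdy + y.1 0 1 * y.1 1 0 * h2
    · rw [← hd]; linear_combination y.1 0 0 * y.1 0 1 * h2
    · rw [← hd]; linear_combination y.1 0 0 * y.1 1 0 * h2
    · rw [← hd] at hdy ⊢; linear_combination hdy + y.1 0 1 * y.1 1 0 * h2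
  have hd2 : orderOf y ∣ 2 := orderOf_dvd_of_pow_eq_one hy2
  rcases (Nat.dvd_prime Nat.prime_two).1 hd2 with e | e
  · exact orderOf_eq_one_iff.1 e
  · rw [e] at hy; exact absurd hy (by decide)

end CfsgLib.FewAutOrbits
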