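import Cfsg.Agent.Lib.FewAutOrbits.Spectrum
import Cfsg.Agent.Lib.FewAutOrbits.InvCentral
import Cfsg.Agent.Lib.CIT.Main

/-!
CIT groups with at most five element orders.
-/

set_option autoImplicit false
set_option linter.unusedSectionVars false

open Subgroup Cfsg

namespace CfsgLib.FewAutOrbits

universe u

variable {G : Type u} [Group G] [Finite G] [IsSimpleGroup G]

/-- `SL₂` in characteristic two is `PSL₂`. -/
theorem psl_of_sl {F : Type} [Field F] [Fintype F] [CharP F 2]
    (e : G ≃* Matrix.SpecialLinearGroup (Fin 2) F) :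
    Nonempty (G ≃* Matrix.ProjectiveSpecialLinearGroup (Fin 2) F) := by
  obtain ⟨⟨n, hn0⟩, -, hqn⟩ := FiniteField.card F 2
  change Fintype.card F = 2 ^ n at hqn
  have hc : Nat.card (center (Matrix.SpecialLinearGroup (Fin 2) F)) = 1 := by
    rw [ClassicalLinear.card_center_SL, Fintype.card_fin, hqn, ← Nat.coprime_iff_gcd_eq_one, Nat.coprime_two_left,
      Nat.odd_iff]
    obtain ⟨n, rfl⟩ : ∃ k, n = k + 1 := ⟨n - 1, by omega⟩
    have := Nat.one_le_two_pow (n := n)
    rw [pow_succ]
    omega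
  exact ⟨e.trans (MulEquiv.ofBijective (QuotientGroup.mk' (center (Matrix.SpecialLinearGroup (Fin 2) F)))
    ⟨by rw [← MonoidHom.ker_eq_bot_iff, QuotientGroup.ker_mk']; exact card_eq_one.1 hc,
      QuotientGroup.mk'_surjective _⟩)⟩

/-- Three pairwise different odd primes are too many. -/
theorem false_of_three {p r : ℕ} (hprimes : ∀ l : ℕ, l.Prime → l ∣ Nat.card G → l = 2 ∨ l = p ∨ l = r)
    {a b c : ℕ} (ha : 1 < a) (hb : 1 < b) (hc : 1 < c) (hodd : Odd a ∧ Odd b ∧ Odd c)
    (hab : Nat.Coprime a b) (hac : Nat.Coprime a c) (hbc : Nat.Coprime b c)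
    (hd : a ∣ Nat.card G ∧ b ∣ Nat.card G ∧ c ∣ Nat.card G) : False := by
  have key : ∀ n, 1 < n → Odd n → n ∣ Nat.card G → p ∣ n ∨ r ∣ n := by
    intro n hn ho hdn
    obtain ⟨l, hl, hln⟩ := Nat.exists_prime_and_dvd hn.ne'
    rcases hprimes l hl (hln.trans hdn) with e | e | e <;> subst e
    · exact absurd hln (by
        rw [← even_iff_two_dvd]
        exact Nat.not_even_iff_odd.2 ho)
    · exact Or.inl hln
    · exact Or.inr hln
  have clash : ∀ {x y d : ℕ}, (d = p ∨ d = r) → 2 ≤ d → Nat.Coprime x y → d ∣ x → d ∣ y → False := by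
    intro x y d _ hd2 hxy hx hy
    have := Nat.eq_one_of_dvd_coprimes hxy hx hy
    omega
  have hge : ∀ {d n : ℕ}, Odd n → d ∣ n → d ≠ 1 → 2 ≤ d := by
    intro d n ho hdn h1
    rcases Nat.eq_zero_or_pos d with rfl | h0
    · rw [zero_dvd_iff] at hdn; subst hdn; exact absurd ho (by decide)
    · omega
  rcases eq_or_ne p 1 with hp1 | hp1
  · rcases eq_or_ne r 1 with hr1 | hr1
    · obtain ⟨l, hl, hln⟩ := Nat.exists_prime_and_dvd ha.ne'
      rcases hprimes l hl (hln.trans hd.1) with e | e | e <;> subst e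
      · exact (Nat.not_even_iff_odd.2 hodd.1) (even_iff_two_dvd.2 hln)
      · exact hl.one_lt.ne' hp1
      · exact hl.one_lt.ne' hr1
    · have hall : ∀ n, 1 < n → Odd n → n ∣ Nat.card G → r ∣ n := by
        intro n hn ho hdn
        obtain ⟨l, hl, hln⟩ := Nat.exists_prime_and_dvd hn.ne'
        rcases hprimes l hl (hln.trans hdn) with e | e | e <;> subst e
        · exact absurd (even_iff_two_dvd.2 hln) (Nat.not_even_iff_odd.2 ho)
        · exact absurd hp1 hl.one_lt.ne'
        · exact hln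
      exact clash (Or.inr rfl) (hge hodd.1 (hall a ha hodd.1 hd.1) hr1) hab (hall a ha hodd.1 hd.1)
        (hall b hb hodd.2.1 hd.2.1)
  · rcases eq_or_ne r 1 with hr1 | hr1
    · have hall : ∀ n, 1 < n → Odd n → n ∣ Nat.card G → p ∣ n := by
        intro n hn ho hdn
        obtain ⟨l, hl, hln⟩ := Nat.exists_prime_and_dvd hn.ne'
        rcases hprimes l hl (hln.trans hdn) with e | e | e <;> subst e
        · exact absurd (even_iff_two_dvd.2 hln) (Nat.not_even_iff_odd.2 ho)
        · exact hln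
        · exact absurd hr1 hl.one_lt.ne'
      exact clash (Or.inl rfl) (hge hodd.1 (hall a ha hodd.1 hd.1) hp1) hab (hall a ha hodd.1 hd.1)
        (hall b hb hodd.2.1 hd.2.1)
    · rcases key a ha hodd.1 hd.1 with h1 | h1 <;> rcases key b hb hodd.2.1 hd.2.1 with h2 | h2 <;>
        rcases key c hc hodd.2.2 hd.2.2 with h3 | h3
      · exact clash (Or.inl rfl) (hge hodd.1 h1 hp1) hab h1 h2
      · exact clash (Or.inl rfl) (hge hodd.1 h1 hp1) hab h1 h2
      · exact clash (Or.inl rfl) (hge hodd.1 h1 hp1) hac h1 h3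
      · exact clash (Or.inr rfl) (hge hodd.2.1 h2 hr1) hbc h2 h3
      · exact clash (Or.inl rfl) (hge hodd.2.1 h2 hp1) hbc h2 h3
      · exact clash (Or.inr rfl) (hge hodd.1 h1 hr1) hac h1 h3
      · exact clash (Or.inr rfl) (hge hodd.1 h1 hr1) hab h1 h2
      · exact clash (Or.inr rfl) (hge hodd.1 h1 hr1) hab h1 h2

theorem small_of_cit (hna : ∃ a b : G, a * b ≠ b * a) (hcit : CIT.IsCIT G)
    (hO : (Set.range (orderOf : G → ℕ)).ncard ≤ 5) : Small G := by
  classical
  have h2 := two_dvd_card hna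
  by_cases h4 : ∀ g : G, ¬ 4 ∣ orderOf g
  · -- abelian centralisers
    obtain ⟨F, _, _, _, ⟨e⟩⟩ := iso_sl2_of_abelian hna h4 fun t ht a b ha hb => by
      have hsq : ∀ c ∈ centralizer ({t} : Set G), c * c = 1 := by
        intro c hc
        obtain ⟨k, hk⟩ := hcit t ht ⟨c, hc⟩
        have hk' : orderOf c ∣ 2 ^ k := orderOf_dvd_of_pow_eq_one (congrArg Subtype.val hk)
        obtain ⟨j, -, hj⟩ := (Nat.dvd_prime_pow Nat.prime_two).1 hk'
        rcases j with _ | _ | j
        · rw [orderOf_eq_one_iff.1 (show orderOf c = 1 by simpa using hj), one_mul]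
        · exact Involutions.mul_self_eq_one (by simpa using hj)
        · exact absurd (hj ▸ (pow_dvd_pow 2 (show 2 ≤ j + 2 by omega) : 2 ^ 2 ∣ 2 ^ (j + 2))) (h4 c)
      have hA := mem_centralizer_singleton_iff.2 ha
      have hB := mem_centralizer_singleton_iff.2 hb
      have h1 := hsq a hA
      have h3 := hsq b hB
      have h5 := hsq _ (mul_mem hA hB)
      calc a * b = (a * b)⁻¹ := (inv_eq_of_mul_eq_one_right h5).symm
        _ = b⁻¹ * a⁻¹ := mul_inv_rev a b
        _ = b * a := by rw [inv_eq_of_mul_eq_one_right h1, inv_eq_of_mul_eq_one_right h3]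
    obtain ⟨e'⟩ := psl_of_sl e
    exact small_of_psl hna hO e'
  · push Not at h4
    obtain ⟨g, hg⟩ := h4
    obtain ⟨x, hx⟩ := exists_orderOf_dvd hg
    obtain ⟨p, r, hp, hr, hp2, hr2, hpr, hpd, hrd⟩ := two_odd_primes hna
    have hp4 : p ≠ 4 := fun e => absurd (e ▸ hp) (by decide)
    have hr4 : r ≠ 4 := fun e => absurd (e ▸ hr) (by decide)
    have hp1 := hp.one_lt
    have hr1 := hr.one_lt
    obtain ⟨-, hall⟩ := orders_of_five hO (s := {1, 2, 4, p, r}) (fun d hd => by
      simp only [Finset.mem_insert, Finset.mem_singleton] at hd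
      rcases hd with rfl | rfl | rfl | rfl | rfl
      · exact ⟨1, orderOf_one⟩
      · exact exists_orderOf_prime Nat.prime_two h2
      · exact ⟨x, hx⟩
      · exact exists_orderOf_prime hp hpd
      · exact exists_orderOf_prime hr hrd)
    obtain ⟨hord, -⟩ := hall (card_five (by omega) (by omega) (by omega) hpr)
    have hprimes : ∀ l : ℕ, l.Prime → l ∣ Nat.card G → l = 2 ∨ l = p ∨ l = r := by
      intro l hl hd
      obtain ⟨y, hy⟩ := exists_orderOf_prime hl hd
      have := hord y
      rw [hy] at this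
      simp only [Finset.mem_insert, Finset.mem_singleton] at this
      rcases this with e | e | e | e | e
      · exact absurd e hl.one_lt.ne'
      · exact Or.inl e
      · exact absurd (e ▸ hl) (by decide)
      · exact Or.inr (Or.inl e)
      · exact Or.inr (Or.inr e)
    rcases CIT.refined G hcit hna h2 with hTI | ⟨-, F, _, _, -, ⟨e⟩⟩ | ⟨-, F, _, _, hF, ⟨e⟩⟩
    · rcases CIT.psl_or_suzuki_of_tiSylow hcit hna h2 hTI with ⟨F, _, _, ⟨e⟩⟩ | ⟨-, m, hm, hcard⟩
      · exact small_of_psl hna hO e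
      · exfalso
        -- a Suzuki group has four primes
        obtain ⟨Q, hQdef⟩ : ∃ Q, Q = 2 ^ (2 * m + 1) := ⟨_, rfl⟩
        obtain ⟨R, hRdef⟩ : ∃ R, R = 2 ^ (m + 1) := ⟨_, rfl⟩
        rw [← hQdef] at hcard
        have hR2 : R * R = 2 * Q := by rw [hQdef, hRdef, ← pow_add, ← pow_succ']; congr 1; omega
        have hR4 : 4 ≤ R := hRdef ▸ le_trans (show 4 ≤ 2 ^ 2 by norm_num) (Nat.pow_le_pow_right two_pos (show 2 ≤ m + 1 by omega))
        have hQR : 2 * R ≤ Q := by
          rw [hQdef, hRdef, ← pow_succ']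
          exact Nat.pow_le_pow_right two_pos (by omega)
        obtain ⟨X, hX⟩ : ∃ X, Q = X + R := ⟨Q - R, by omega⟩
        have hAB : (X + 1) * (Q + R + 1) = Q ^ 2 + 1 := by rw [hX] at hR2 ⊢; nlinarith [hR2]
        have hQe : Q % 2 = 0 := by rw [hQdef, pow_succ]; omega
        have hRe : R % 2 = 0 := by rw [hRdef, pow_succ]; omega
        have hodd2 : ∀ {n d : ℕ}, n % 2 = 1 → d ∣ n → d ∣ 2 → d = 1 := by
          intro n d hn hdn hd2
          rcases (Nat.dvd_prime Nat.prime_two).1 hd2 with e | e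
          · exact e
          · rw [e] at hdn; omega
        have hc1 : Nat.Coprime (Q - 1) (Q ^ 2 + 1) := by
          refine Nat.eq_one_iff_not_exists_prime_dvd.2 fun d hd hdg => ?_
          have h1 := hdg.trans (Nat.gcd_dvd_left (Q - 1) (Q ^ 2 + 1))
          have h3 := hdg.trans (Nat.gcd_dvd_right (Q - 1) (Q ^ 2 + 1))
          have h4 : d ∣ (Q - 1) * (Q + 1) := h1.mul_right _
          have e : Q ^ 2 + 1 = (Q - 1) * (Q + 1) + 2 := by
            obtain ⟨Q', hQ'⟩ : ∃ Q', Q = Q' + 1 := ⟨Q - 1, by omega⟩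
            rw [hQ', Nat.add_sub_cancel]; ring
          rw [e] at h3
          exact hd.one_lt.ne' (hodd2 (by omega) h1 ((Nat.dvd_add_right h4).1 h3))
        have hc2 : Nat.Coprime (X + 1) (Q + R + 1) := by
          refine Nat.eq_one_iff_not_exists_prime_dvd.2 fun d hd hdg => ?_
          have h1 := hdg.trans (Nat.gcd_dvd_left (X + 1) (Q + R + 1))
          have h3 := hdg.trans (Nat.gcd_dvd_right (X + 1) (Q + R + 1))
          have h5 := Nat.dvd_sub h3 h1
          rw [show Q + R + 1 - (X + 1) = 2 ^ (m + 2) by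
            rw [show (2 : ℕ) ^ (m + 2) = 2 * R by rw [hRdef, ← pow_succ']]; omega] at h5
          have hd2 : d ∣ 2 := hd.dvd_of_dvd_pow h5
          exact hd.one_lt.ne' (hodd2 (n := X + 1) (by omega) h1 hd2)
        have hdvd : (Q - 1) * ((X + 1) * (Q + R + 1)) ∣ Nat.card G := by
          rw [hAB, hcard]; exact ⟨Q ^ 2, by ring⟩
        exact false_of_three hprimes (a := Q - 1) (b := X + 1) (c := Q + R + 1) (by omega) (by omega) (by omega)
          ⟨Nat.odd_iff.2 (by omega), Nat.odd_iff.2 (by omega), Nat.odd_iff.2 (by omega)⟩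
          (Nat.Coprime.coprime_dvd_right (hAB ▸ dvd_mul_right _ _) hc1)
          (Nat.Coprime.coprime_dvd_right (hAB ▸ dvd_mul_left _ _) hc1) hc2
          ⟨(dvd_mul_right _ _).trans hdvd, ((dvd_mul_right _ _).trans (dvd_mul_left _ _)).trans hdvd,
            ((dvd_mul_left _ _).trans (dvd_mul_left _ _)).trans hdvd⟩
    · exact small_of_psl hna hO e
    · exfalso
      have hc : Nat.card G = 20160 := by
        have := ClassicalLinear.card_PSL (ι := Fin 3) (F := F)
        rw [← Nat.card_congr e.toEquiv, hF, Fintype.card_fin] at this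
        simp only [Fin.prod_univ_three] at this
        norm_num at this
        omega
      exact false_of_three hprimes (a := 3) (b := 5) (c := 7) (by norm_num) (by norm_num) (by norm_num)
        ⟨by decide, by decide, by decide⟩ (by norm_num) (by norm_num) (by norm_num)
        ⟨hc ▸ by norm_num, hc ▸ by norm_num, hc ▸ by norm_num⟩

end CfsgLib.FewAutOrbits
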