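import Cfsg.Agent.Lib.FewAutOrbits.CoreSylow
import Cfsg.Agent.Lib.SectRank.BSW.Main

/-!
A non-trivial `p`-core in the centraliser of an involution: the group has order sixty.
-/

set_option autoImplicit false
set_option linter.unusedSectionVars false

open Subgroup Cfsg

namespace CfsgLib.FewAutOrbits.TwoP

universe u

variable {G : Type u} [Group G] [Finite G] {p r : ℕ} (h : TwoP G p r)
  (hK : ∀ t : G, orderOf t = 2 → Kc p t ≠ ⊥) (S : Sylow 2 G)
include h hK

/-- The abelian subgroup of index two in the centraliser of `t`. -/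
theorem mem_pair {t k g : G} (ht : orderOf t = 2) (htS : t ∈ (S : Subgroup G)) (hk : k ∈ Kc p t) (hk1 : k ≠ 1)
    (hg : g ∈ centralizer ({t} : Set G) ⊓ centralizer ({k} : Set G)) :
    g ∈ Kc p t ∨ ∃ a ∈ Kc p t, g = a * t := by
  obtain ⟨a, ha, v, hv, rfl⟩ := h.exists_decomp hK S ht htS hg.1
  have hvk : Commute v k := by
    have := (show Commute a k from h.Kc_comm hK ht ha hk).inv_left.mul_left
      (mem_centralizer_singleton_iff.1 hg.2 : Commute (a * v) k)
    rwa [inv_mul_cancel_left] at this
  have hall : ∀ l ∈ Kc p t, Commute v l := fun l hl => by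
    rcases eq_or_ne l 1 with rfl | hl1
    · exact Commute.one_right v
    · exact h.inf_centralizer_eq hK S ht htS hk hk1 hl hl1 hv hvk
  rcases h.eq_of_centralizes hK S ht htS hv hall with rfl | rfl
  · exact Or.inl (by simpa using ha)
  · exact Or.inr ⟨a, ha, rfl⟩

/-- The Brauer–Suzuki–Wall setting. -/
theorem bsw : SectRank.BSW.Conclusion G ∧ ∃ (t : G) (S : Sylow 2 G) (k : G), orderOf t = 2 ∧
    t ∈ (S : Subgroup G) ∧ k ∈ Kc p t ∧ k ≠ 1 ∧
    (Nat.card G).factorization p = (Nat.card (Kc p t)).factorization p ∧ Nat.card (S : Subgroup G) = 4 ∧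
    ∃ s ∈ (S : Subgroup G), s * k * s⁻¹ = k⁻¹ := by
  classical
  have := Fintype.ofFinite G
  have : Fact p.Prime := ⟨h.hp⟩
  have : Fact (Nat.Prime 2) := ⟨Nat.prime_two⟩
  have := h.simple
  obtain ⟨t, _, ht, -, -⟩ := h.exists_pair
  obtain ⟨S, hS⟩ := (CIT.isPGroup_zpowers_of_orderOf ht).exists_le_sylow
  have htS := hS (mem_zpowers t)
  obtain ⟨k, hk, hk1⟩ := ((Kc p t).bot_or_exists_ne_one).resolve_left (hK t ht)
  obtain ⟨s, hs, hns⟩ := h.exists_inverter hK S ht htS
  have hs1 : s ≠ 1 := fun e => hns k hk hk1 (e ▸ Commute.one_left k)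
  have hst : s ≠ t := fun e => hns k hk hk1 (e ▸ (mem_centralizer_singleton_iff.1 (Kc_le p t hk)).symm)
  have hs2 : orderOf s = 2 := (h.orderOf_of_isPGroup_two S.2 hs).resolve_left fun e => hs1 (orderOf_eq_one_iff.1 e)
  obtain ⟨P, hP⟩ := (Kc_isPGroup p t).exists_le_sylow
  have hPK : (P : Subgroup G) = Kc p t := by
    refine le_antisymm (fun x hx => ?_) hP
    rcases eq_or_ne x 1 with rfl | hx1
    · exact one_mem _
    exact h.mem_Kc hK ht (h.orderOf_of_isPGroup_p P.2 hx hx1) (h.commute_of_sylow hK S ht htS P hP hx)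
  have hinvk := fun {l : G} (hl : l ∈ Kc p t) => h.inverts hK S ht htS hs hk (hns k hk hk1) hl
  have htp : ∀ a ∈ Kc p t, (a * t) ^ p = t := by
    intro a ha
    have hc : Commute a t := mem_centralizer_singleton_iff.1 (Kc_le p t ha)
    obtain ⟨j, hj⟩ : Odd p := h.hp.odd_of_ne_two h.hp2
    rw [hc.mul_pow, h.pow_p_eq_one (Kc_isPGroup p t) ha, one_mul, hj, pow_succ, pow_mul, pow_two,
      Involutions.mul_self_eq_one ht, one_pow, one_mul]
  have hconj : ∀ x y : G, orderOf x = 2 → orderOf y = 2 → IsConj x y := by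
    -- an element of the normaliser permutes the three involutions cyclically
    obtain ⟨n, hn, hnC⟩ : ∃ n ∈ normalizer ((S : Subgroup G) : Set G),
        n ∉ centralizer ((S : Subgroup G) : Set G) := by
      by_contra! hN
      have hcompl := MonoidHom.ker_transferSylow_isComplement' S hN
      rcases (inferInstance : (MonoidHom.transferSylow S hN).ker.Normal).eq_bot_or_eq_top with e | e
      · rw [e] at hcompl
        have htop := isComplement'_bot_left.1 hcompl
        obtain ⟨a, b, hab⟩ := h.nonab
        exact hab (h.commute_of_two S.2 (htop ▸ mem_top a) (htop ▸ mem_top b))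
      · rw [e] at hcompl
        have := h.card_sylow_two hK S ht htS hs hst hs1
        rw [isComplement'_top_left.1 hcompl, card_bot] at this
        omega
    have hnS : n ∉ (S : Subgroup G) := fun hn' => hnC (mem_centralizer_iff.2 fun v hv => h.commute_of_two S.2 hv hn')
    obtain ⟨a, ha, hna⟩ : ∃ a ∈ (S : Subgroup G), n * a * n⁻¹ ≠ a := by
      by_contra! hall
      exact hnC (mem_centralizer_iff.2 fun v hv => (mul_inv_eq_iff_eq_mul.1 (hall v hv)).symm)
    have ha1 : a ≠ 1 := fun e => hna (by rw [e]; group)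
    have ha2 : orderOf a = 2 := (h.orderOf_of_isPGroup_two S.2 ha).resolve_left fun e => ha1 (orderOf_eq_one_iff.1 e)
    set b := n * a * n⁻¹ with hb
    have hbS : b ∈ (S : Subgroup G) := (mem_normalizer_iff.1 hn a).1 ha
    have hb2 : orderOf b = 2 := (Involutions.orderOf_conj n a).trans ha2
    have hnb : n * b * n⁻¹ ∈ (S : Subgroup G) := (mem_normalizer_iff.1 hn b).1 hbS
    have hall : ∀ v ∈ (S : Subgroup G), v ≠ 1 → IsConj a v := by
      intro v hv hv1
      rcases h.mem_cases hK S ha2 ha hbS hna (Involutions.ne_one hb2) hnb with e | e | e | e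
      · exact absurd (conj_eq_one_iff.1 e) (Involutions.ne_one hb2)
      · exfalso
        -- `n ^ 2` centralises the four-group
        have e1 : n * (n * a * n⁻¹) * n⁻¹ = a := e
        have c1 : Commute (n * n) a := by
          refine mul_inv_eq_iff_eq_mul.1 ?_
          calc n * n * a * (n * n)⁻¹ = n * (n * a * n⁻¹) * n⁻¹ := by group
            _ = a := e1
        have c2 : Commute (n * n) b := by
          refine mul_inv_eq_iff_eq_mul.1 ?_
          calc n * n * b * (n * n)⁻¹ = n * (n * (n * a * n⁻¹) * n⁻¹) * n⁻¹ := by rw [hb]; group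
            _ = b := by rw [e1]
        have hnn := h.mem_of_commute hK S ha2 ha hbS (Involutions.ne_one hb2) hna c1.symm c2.symm
        have h4 : n ^ 4 = 1 := by
          rw [show 4 = 2 * 2 from rfl, pow_mul, pow_two n, pow_two]
          exact h.sq_eq_one_of_two S.2 hnn
        exact hnS (CIT.mem_sylow_of_mem_normalizer S hn fun g => by
          obtain ⟨z, hz⟩ := g.2
          refine ⟨2, Subtype.ext ?_⟩
          have hz' : n ^ z = (g : G) := hz
          rw [coe_pow, coe_one, ← hz', ← zpow_natCast, ← zpow_mul, mul_comm, zpow_mul, zpow_natCast]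
          rw [show (2 : ℕ) ^ 2 = 4 from rfl, h4, one_zpow])
      · exfalso
        exact hna (mul_left_cancel (mul_right_cancel (show n * b * n⁻¹ = n * a * n⁻¹ from e.trans hb)))
      · rcases h.mem_cases hK S ha2 ha hbS hna (Involutions.ne_one hb2) hv with e' | e' | e' | e'
        · exact absurd e' hv1
        · exact e' ▸ IsConj.refl a
        · exact isConj_iff.2 ⟨n, e'.symm⟩
        · exact isConj_iff.2 ⟨n * n, by rw [e', ← e, hb]; group⟩
    have hto : ∀ x : G, orderOf x = 2 → IsConj a x := by
      intro x hx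
      obtain ⟨T, hT⟩ := (CIT.isPGroup_zpowers_of_orderOf hx).exists_le_sylow
      obtain ⟨g, hg⟩ := MulAction.exists_smul_eq G T S
      have hmem : g * x * g⁻¹ ∈ (S : Subgroup G) := by
        rw [← hg, Sylow.coe_subgroup_smul]
        exact ⟨x, hT (mem_zpowers x), rfl⟩
      have hne : g * x * g⁻¹ ≠ 1 := fun e => Involutions.ne_one hx (conj_eq_one_iff.1 e)
      exact (hall _ hmem hne).trans (isConj_iff.2 ⟨g⁻¹, by group⟩)
    exact fun x y hx hy => (hto x hx).symm.trans (hto y hy)
  let St : SectRank.BSW.Setting G :=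
    { t := t
      ht := ht
      K := centralizer ({t} : Set G) ⊓ centralizer ({k} : Set G)
      hKab := ⟨⟨fun x y => Subtype.ext (by
        show (x : G) * y = y * x
        have htc : ∀ a ∈ Kc p t, Commute a t := fun a ha => mem_centralizer_singleton_iff.1 (Kc_le p t ha)
        rcases h.mem_pair hK S ht htS hk hk1 x.2 with ha | ⟨a, ha, e⟩ <;>
        rcases h.mem_pair hK S ht htS hk hk1 y.2 with hb | ⟨b, hb, e'⟩
        · exact h.Kc_comm hK ht ha hb
        · rw [e']; exact ((show Commute (x : G) b from h.Kc_comm hK ht ha hb).mul_right (htc _ ha)).eq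
        · rw [e]; exact ((show Commute a (y : G) from h.Kc_comm hK ht ha hb).mul_left (htc _ hb).symm).eq
        · rw [e, e']
          exact (((show Commute a b from h.Kc_comm hK ht ha hb).mul_right (htc _ ha)).mul_left
            ((htc _ hb).symm.mul_right (Commute.refl t))).eq)⟩⟩
      hKH := inf_le_left
      htK := ⟨mem_centralizer_singleton_iff.2 rfl,
        mem_centralizer_singleton_iff.2 (mem_centralizer_singleton_iff.1 (Kc_le p t hk)).symm⟩
      s := s
      hs := hs2
      hsH := h.mem_centralizer_of_mem hK S htS hs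
      hsK := fun hh => hns k hk hk1 (mem_centralizer_singleton_iff.1 hh.2)
      hH := by
        refine le_antisymm (sup_le inf_le_left (zpowers_le.2 (h.mem_centralizer_of_mem hK S htS hs))) ?_
        refine (h.sup_eq hK S ht htS).symm.le.trans ?_
        refine sup_le (fun a ha => mem_sup_left ⟨Kc_le p t ha,
          mem_centralizer_singleton_iff.2 (h.Kc_comm hK ht ha hk)⟩) fun v hv => ?_
        have htm : t ∈ centralizer ({t} : Set G) ⊓ centralizer ({k} : Set G) :=
          ⟨mem_centralizer_singleton_iff.2 rfl,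
            mem_centralizer_singleton_iff.2 (mem_centralizer_singleton_iff.1 (Kc_le p t hk)).symm⟩
        rcases h.mem_cases hK S ht htS hs hst hs1 hv with e | e | e | e <;> rw [e]
        · exact one_mem _
        · exact mem_sup_left htm
        · exact mem_sup_right (mem_zpowers s)
        · exact mul_mem_sup htm (mem_zpowers s)
      hCK := by
        refine le_antisymm (fun x hx => ?_) (zpowers_le.2 ⟨⟨mem_centralizer_singleton_iff.2 rfl,
          mem_centralizer_singleton_iff.2 (mem_centralizer_singleton_iff.1 (Kc_le p t hk)).symm⟩,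
          mem_centralizer_singleton_iff.2 (h.commute_of_two S.2 htS hs)⟩)
        have key : ∀ a ∈ Kc p t, Commute a s → a = 1 := fun a ha hc => by
          by_contra ha1
          exact hns a ha ha1 hc.symm
        rcases h.mem_pair hK S ht htS hk hk1 hx.1 with ha | ⟨a, ha, rfl⟩
        · rw [key x ha (mem_centralizer_singleton_iff.1 hx.2)]; exact one_mem _
        · have hts : Commute t s := h.commute_of_two S.2 htS hs
          have hc : Commute (a * t * t⁻¹) s := (show Commute (a * t) s from mem_centralizer_singleton_iff.1 hx.2).mul_left hts.inv_left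
          rw [mul_inv_cancel_right] at hc
          rw [key a ha hc, one_mul]
          exact mem_zpowers t
      hinv := by
        intro x hx
        rcases h.mem_pair hK S ht htS hk hk1 hx with ha | ⟨a, ha, rfl⟩
        · exact hinvk ha
        · have hts : Commute s t := h.commute_of_two S.2 hs htS
          rw [conj_mul.symm, hinvk ha, mul_inv_eq_iff_eq_mul.2 hts.eq, mul_inv_rev, Involutions.inv_eq_self ht]
          exact (mem_centralizer_singleton_iff.1 (Kc_le p t ((Kc p t).inv_mem ha)))
      hTI := by
        intro g hg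
        refine eq_bot_iff.2 fun y hy => ?_
        rw [mem_bot]
        by_contra hy1
        obtain ⟨y', hy', hgy⟩ := hy.2
        have hgy' : g * y' * g⁻¹ = y := hgy
        apply hg
        refine mem_centralizer_singleton_iff.2 (mul_inv_eq_iff_eq_mul.1 ?_)
        rcases h.mem_pair hK S ht htS hk hk1 hy' with ha' | ⟨a', ha', e'⟩ <;>
        rcases h.mem_pair hK S ht htS hk hk1 hy.1 with ha | ⟨a, ha, e⟩
        · -- both in the core: the centraliser of `y` has a single involution
          have hc1 : Commute (g * t * g⁻¹) y := hgy' ▸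
            (show Commute t y' from (mem_centralizer_singleton_iff.1 (Kc_le p t ha')).symm).map (MulAut.conj g).toMonoidHom
          set u := g * t * g⁻¹ with hu
          have hu2 : orderOf u = 2 := (Involutions.orderOf_conj g t).trans ht
          have hty : Commute t y := (mem_centralizer_singleton_iff.1 (Kc_le p t ha)).symm
          have hyp := h.orderOf_of_isPGroup_p (Kc_isPGroup p t) ha hy1
          have hi := h.sylow_index_two hyp (fun T hT hTC => h.card_two_le hK hyp T hT hTC)
            (Kc_isPGroup p t) (fun q hq => mem_centralizer_singleton_iff.2 (h.Kc_comm hK ht hq ha))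
            (fun Q hQ hle _ => hPK ▸ P.3 hQ (hPK ▸ hle))
          have htm : t ∈ centralizer ({y} : Set G) := mem_centralizer_singleton_iff.2 hty.eq
          have hum : u ∈ centralizer ({y} : Set G) := mem_centralizer_singleton_iff.2 hc1.eq
          have hKnot : ∀ v : G, orderOf v = 2 → v ∉ Kc p t := fun v hv hvK => h.hp2
            ((h.orderOf_of_isPGroup_p (Kc_isPGroup p t) hvK (Involutions.ne_one hv)).symm.trans hv)
          have hmul := (mul_mem_iff_of_index_two hi (a := ⟨u, hum⟩) (b := ⟨t, htm⟩)).2
            ⟨fun e => absurd e (hKnot u hu2), fun e => absurd e (hKnot t ht)⟩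
          have hq : u * t ∈ Kc p t := hmul
          have hct : Commute (u * t) t := mem_centralizer_singleton_iff.1 (Kc_le p t hq)
          have hut : Commute u t := by
            have := hct.mul_left (Commute.refl t).inv_left
            rwa [mul_inv_cancel_right] at this
          have h1 : (u * t) ^ 2 = 1 := by
            rw [hut.mul_pow, pow_two, pow_two, Involutions.mul_self_eq_one hu2, Involutions.mul_self_eq_one ht, one_mul]
          have h2 : u * t = 1 := by
            by_contra hne
            have := h.orderOf_of_isPGroup_p (Kc_isPGroup p t) hq hne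
            have hd := orderOf_dvd_of_pow_eq_one h1
            rw [this] at hd
            exact h.hp2 ((Nat.prime_dvd_prime_iff_eq h.hp Nat.prime_two).1 hd)
          rw [eq_inv_of_mul_eq_one_left h2, Involutions.inv_eq_self ht]
        · exfalso
          have h1 : y ^ p = 1 := by
            rw [← hgy', conj_pow, h.pow_p_eq_one (Kc_isPGroup p t) ha', mul_one, mul_inv_cancel]
          rw [e, htp a ha] at h1
          exact Involutions.ne_one ht h1
        · exfalso
          have h1 : y ^ p = g * t * g⁻¹ := by rw [← hgy', e', conj_pow, htp a' ha']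
          rw [h.pow_p_eq_one (Kc_isPGroup p t) ha] at h1
          exact Involutions.ne_one ht (conj_eq_one_iff.1 h1.symm)
        · have h1 : y ^ p = g * t * g⁻¹ := by rw [← hgy', e', conj_pow, htp a' ha']
          rw [e, htp a ha] at h1
          exact h1.symm
      hconj := hconj }
  refine ⟨St.conclusion, t, S, k, ht, htS, hk, hk1, ?_, h.card_sylow_two hK S ht htS hs hst hs1, s, hs, hinvk hk⟩
  rw [← hPK, P.card_eq_multiplicity, h.hp.factorization_pow, Finsupp.single_eq_same]

theorem card_eq_sixty : Nat.card G = 60 := by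
  classical
  obtain ⟨⟨Q, D, hG, hQc, -, -, -, -, -⟩, t, S, k, ht, htS, hk, hk1, hfac, hS4, s, hs, hinv⟩ := h.bsw hK
  set q := Nat.card Q with hq
  have hp3 := h.three_le
  have hkp := h.orderOf_of_isPGroup_p (Kc_isPGroup p t) hk hk1
  have hQ2 : ∀ x ∈ Q, orderOf x ≠ 2 ∧ orderOf x ≠ p := by
    intro x hx
    refine ⟨fun e => ?_, fun e => ?_⟩
    · obtain ⟨φ, hφ⟩ := h.trans t x (ht.trans e.symm)
      have hC := hQc x hx (Involutions.ne_one e)
      have hmem : ∀ z ∈ centralizer ({t} : Set G), φ z ∈ Q := fun z hz => by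
        rw [← hC, ← hφ]; exact (mem_centralizer_autApply φ).2 hz
      have hk' := hmem k (Kc_le p t hk)
      have hs' := hmem s (h.mem_centralizer_of_mem hK S htS hs)
      have hc : φ s * φ k = φ k * φ s := by
        have := hQc (φ k) hk' (fun e' => hk1 (φ.injective (e'.trans (map_one φ).symm)))
        exact mem_centralizer_singleton_iff.1 (this ▸ hs')
      rw [← map_mul, ← map_mul] at hc
      have h2 : k * k = 1 := by
        rw [mul_inv_eq_iff_eq_mul, φ.injective hc] at hinv
        calc k * k = k * (k * s) * s⁻¹ := by group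
          _ = 1 := by rw [hinv]; group
      have hd := orderOf_dvd_of_pow_eq_one ((pow_two k).trans h2)
      rw [hkp] at hd
      exact h.hp2 ((Nat.prime_dvd_prime_iff_eq h.hp Nat.prime_two).1 hd)
    · obtain ⟨u, hu, hc⟩ := h.exists_two_of_p e
      have hx1 : x ≠ 1 := fun e' => by rw [e', orderOf_one] at e; exact h.hp.one_lt.ne e
      have huQ : u ∈ Q := hQc x hx hx1 ▸ mem_centralizer_singleton_iff.2 hc.eq
      have hC := hQc u huQ (Involutions.ne_one hu)
      obtain ⟨φ, hφ⟩ := h.trans t u (ht.trans hu.symm)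
      have hmem : ∀ z ∈ centralizer ({t} : Set G), φ z ∈ Q := fun z hz => by
        rw [← hC, ← hφ]; exact (mem_centralizer_autApply φ).2 hz
      have hk' := hmem k (Kc_le p t hk)
      have hs' := hmem s (h.mem_centralizer_of_mem hK S htS hs)
      have hc' : φ s * φ k = φ k * φ s := by
        have := hQc (φ k) hk' (fun e' => hk1 (φ.injective (e'.trans (map_one φ).symm)))
        exact mem_centralizer_singleton_iff.1 (this ▸ hs')
      rw [← map_mul, ← map_mul] at hc'
      have h2 : k * k = 1 := by
        rw [mul_inv_eq_iff_eq_mul, φ.injective hc'] at hinv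
        calc k * k = k * (k * s) * s⁻¹ := by group
          _ = 1 := by rw [hinv]; group
      have hd := orderOf_dvd_of_pow_eq_one ((pow_two k).trans h2)
      rw [hkp] at hd
      exact h.hp2 ((Nat.prime_dvd_prime_iff_eq h.hp Nat.prime_two).1 hd)
  have hq0 : 2 ≤ q := by
    by_contra hlt
    have : q = 1 := by
      have := Nat.card_pos (α := Q)
      omega
    rw [this, Nat.sub_self, Nat.mul_zero] at hG
    have := Nat.card_pos (α := G)
    omega
  have hqcop : Nat.Coprime q (2 * p) := by
    refine Nat.Coprime.mul_right (Nat.Coprime.symm (Nat.prime_two.coprime_iff_not_dvd.2 fun hd => ?_))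
      (Nat.Coprime.symm (h.hp.coprime_iff_not_dvd.2 fun hd => ?_))
    · have : Fact (Nat.Prime 2) := ⟨Nat.prime_two⟩
      obtain ⟨x, hx⟩ := exists_prime_orderOf_dvd_card' (G := Q) _ hd
      rw [← orderOf_coe] at hx
      exact (hQ2 x x.2).1 hx
    · have : Fact p.Prime := ⟨h.hp⟩
      obtain ⟨x, hx⟩ := exists_prime_orderOf_dvd_card' (G := Q) _ hd
      rw [← orderOf_coe] at hx
      exact (hQ2 x x.2).2 hx
  -- the `2`- and `p`-parts of the order
  have hGf2 : (Nat.card G).factorization 2 = 2 := by
    haveI : Fact (Nat.Prime 2) := ⟨Nat.prime_two⟩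
    have := S.card_eq_multiplicity
    rw [hS4] at this
    exact (Nat.pow_right_injective le_rfl (show 2 ^ 2 = 2 ^ (Nat.card G).factorization 2 from this)).symm
  obtain ⟨a, ha⟩ : ∃ a, (Nat.card G).factorization p = a := ⟨_, rfl⟩
  have hqfac : ∀ l : ℕ, l.Prime → l ∣ q → l = r := by
    intro l hl hd
    haveI : Fact l.Prime := ⟨hl⟩
    obtain ⟨x, hx⟩ := exists_prime_orderOf_dvd_card' (G := Q) _ hd
    rw [← orderOf_coe] at hx
    rcases h.orders (x : G) with e | e | e | e | e
    · exact absurd (hx.symm.trans e) hl.one_lt.ne'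
    · exact absurd e (hQ2 x x.2).1
    · exact absurd e (hQ2 x x.2).2
    · exact hx.symm.trans e
    · rw [hx] at e
      exact absurd (e ▸ hl) (Nat.not_prime_mul (by norm_num) h.hp.one_lt.ne')
  have hrq : r ∣ q := by
    obtain ⟨l, hl, hd⟩ := Nat.exists_prime_and_dvd (show q ≠ 1 by omega)
    exact hqfac l hl hd ▸ hd
  set m := (q + 1) * (q - 1) with hm
  have hG' : 2 * Nat.card G = q * m := by rw [hG, hm, mul_assoc]
  have hm0 : m ≠ 0 := Nat.mul_ne_zero (by omega) (by omega)
  have hmr : ¬ r ∣ m := by
    intro hd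
    have hr3 : 3 ≤ r := lt_of_le_of_ne h.hr.two_le (Ne.symm h.hr2)
    rcases (h.hr.dvd_mul).1 hd with hd | hd
    · exact h.hr.not_dvd_one ((Nat.dvd_add_right hrq).1 hd)
    · have h1 := Nat.dvd_sub hrq hd
      rw [show q - (q - 1) = 1 by omega] at h1
      exact h.hr.not_dvd_one h1
  have hmeq : m = 8 * p ^ a := by
    have hpr := h.hp.ne_zero
    refine Nat.eq_of_factorization_eq hm0 (Nat.mul_ne_zero (by norm_num) (pow_ne_zero _ hpr)) fun l => ?_
    rw [Nat.factorization_mul (by norm_num) (pow_ne_zero _ hpr), Finsupp.add_apply,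
      show (8 : ℕ) = 2 ^ 3 from rfl, Nat.prime_two.factorization_pow, h.hp.factorization_pow,
      Finsupp.single_apply, Finsupp.single_apply]
    have hqz : ∀ l, l ≠ r → q.factorization l = 0 := fun l hl => by
      by_cases hlp : l.Prime
      · exact Nat.factorization_eq_zero_of_not_dvd fun hd => hl (hqfac l hlp hd)
      · exact Nat.factorization_eq_zero_of_not_prime _ hlp
    have hsum : q.factorization l + m.factorization l = (2 : ℕ).factorization l + (Nat.card G).factorization l := by
      rw [← Finsupp.add_apply, ← Finsupp.add_apply, ← Nat.factorization_mul (by omega) hm0,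
        ← Nat.factorization_mul two_ne_zero Nat.card_pos.ne', hG']
    rw [Nat.prime_two.factorization, Finsupp.single_apply] at hsum
    rcases eq_or_ne l r with rfl | hlr
    · rw [Nat.factorization_eq_zero_of_not_dvd hmr, if_neg (Ne.symm h.hr2), if_neg (Ne.symm h.hrp), add_zero]
    rw [hqz l hlr, zero_add] at hsum
    rcases eq_or_ne l 2 with rfl | hl2
    · rw [if_pos rfl] at hsum ⊢
      rw [if_neg h.hp2, hsum, hGf2, add_zero]
    rw [if_neg (Ne.symm hl2)] at hsum ⊢
    rcases eq_or_ne l p with rfl | hlp
    · rw [if_pos rfl, hsum, ha]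
    rw [if_neg (Ne.symm hlp), hsum]
    by_cases hl : l.Prime
    · rw [Nat.factorization_eq_zero_of_not_dvd fun hd => ?_]
      haveI : Fact l.Prime := ⟨hl⟩
      obtain ⟨x, hx⟩ := exists_prime_orderOf_dvd_card' (G := G) _ hd
      rcases h.orders x with e | e | e | e | e <;> rw [hx] at e
      · exact hl.one_lt.ne' e
      · exact hl2 e
      · exact hlp e
      · exact hlr e
      · exact (Nat.not_prime_mul (by norm_num) h.hp.one_lt.ne') (e ▸ hl)
    · rw [Nat.factorization_eq_zero_of_not_prime _ hl]
  have ha1 : 1 ≤ a := ha ▸ (h.hp.dvd_iff_one_le_factorization Nat.card_pos.ne').1 (hkp ▸ orderOf_dvd_natCard k)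
  obtain ⟨i, hi⟩ : Odd q := Nat.coprime_two_right.1 (Nat.Coprime.coprime_mul_right_right hqcop)
  have h2 : i * (i + 1) = 2 * p ^ a := by
    have : 4 * (i * (i + 1)) = 4 * (2 * p ^ a) := by
      rw [← mul_assoc 4 2, show 4 * 2 = 8 from rfl, ← hmeq, hm, hi, show 2 * i + 1 - 1 = 2 * i by omega]
      ring
    omega
  have hpa : p ∣ p ^ a := dvd_pow_self p (by omega)
  have hcop : Nat.Coprime i (i + 1) := by simp
  have hpd : p ^ a ∣ i ∨ p ^ a ∣ i + 1 := by
    have hd : p ^ a ∣ i * (i + 1) := h2 ▸ dvd_mul_left _ 2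
    by_cases hpi : p ∣ i
    · refine Or.inl (Nat.Coprime.dvd_of_dvd_mul_right ?_ hd)
      refine (h.hp.coprime_iff_not_dvd.2 fun hh => ?_).pow_left a
      exact h.hp.not_dvd_one ((Nat.dvd_add_right hpi).1 hh)
    · exact Or.inr (Nat.Coprime.dvd_of_dvd_mul_left ((h.hp.coprime_iff_not_dvd.2 hpi).pow_left a) hd)
  have hi2 : i = 2 := by
    have hpa2 : 3 ≤ p ^ a := hp3.trans (Nat.le_self_pow (by omega) p)
    rcases hpd with ⟨c, hc⟩ | ⟨c, hc⟩
    · have hc0 : c * (i + 1) = 2 := Nat.eq_of_mul_eq_mul_left (show 0 < p ^ a by omega) (by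
        rw [← mul_assoc, ← hc, h2, mul_comm])
      have : c ≠ 0 := fun e => by rw [e, zero_mul] at hc0; omega
      have h3 : i + 1 ≤ 2 := hc0 ▸ Nat.le_mul_of_pos_left _ (Nat.pos_of_ne_zero this)
      have h4 : p ^ a ≤ i := hc ▸ Nat.le_mul_of_pos_right _ (Nat.pos_of_ne_zero this)
      omega
    · have hc0 : i * c = 2 := Nat.eq_of_mul_eq_mul_left (show 0 < p ^ a by omega) (by
        rw [mul_left_comm, ← hc, h2, mul_comm])
      have : c ≠ 0 := fun e => by rw [e, mul_zero] at hc0; omega
      have h3 : i ≤ 2 := hc0 ▸ Nat.le_mul_of_pos_right _ (Nat.pos_of_ne_zero this)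
      have h4 : p ^ a ≤ i + 1 := hc ▸ Nat.le_mul_of_pos_right _ (Nat.pos_of_ne_zero this)
      omega
  subst hi2
  rw [hm, show q = 5 by omega] at hG'
  omega

end CfsgLib.FewAutOrbits.TwoP
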