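import Cfsg.Agent.Lib.FewAutOrbits.Basic
import Cfsg.Agent.Lib.ThompsonJ.Basic
import Cfsg.Agent.Lib.PSolvable.FrattiniFacts
import Cfsg.Agent.S0118

/-!
In a group with element orders `1, 2, p, r, 2p` and `p`-closed centralisers of `p`-elements the Sylow
`p`-subgroups are abelian.
-/

set_option autoImplicit false
set_option linter.unusedSectionVars false

open Subgroup Cfsg

namespace CfsgLib.FewAutOrbits.TwoP

variable {G : Type*} [Group G] [Finite G] {p r : ℕ} (h : TwoP G p r)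
include h

theorem sl2_free :
    ¬ ∃ (H K : Subgroup G) (_ : (K.subgroupOf H).Normal),
      Nonempty ((H ⧸ K.subgroupOf H) ≃* Matrix.SpecialLinearGroup (Fin 2) (ZMod p)) := by
  have : Fact p.Prime := ⟨h.hp⟩
  rintro ⟨H, K, _, ⟨e⟩⟩
  let w : Matrix.SpecialLinearGroup (Fin 2) (ZMod p) := ⟨!![0, 1; -1, 0], by simp [Matrix.det_fin_two]⟩
  have hw2 : w ^ 2 ≠ 1 := by
    intro e1
    rw [pow_two] at e1
    have e2 : ((w * w : Matrix.SpecialLinearGroup (Fin 2) (ZMod p)) : Matrix (Fin 2) (Fin 2) (ZMod p)) 0 0 = 1 := by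
      rw [e1]; simp
    rw [Matrix.SpecialLinearGroup.coe_mul, Matrix.mul_apply, Fin.sum_univ_two] at e2
    simp [w] at e2
    have h3 : ((2 : ℕ) : ZMod p) = 0 := by push_cast; linear_combination -e2
    rw [ZMod.natCast_eq_zero_iff] at h3
    exact h.hp2 ((Nat.prime_dvd_prime_iff_eq h.hp Nat.prime_two).1 h3)
  have hw4 : w ^ (2 + 2) = 1 := by
    rw [show w ^ (2 + 2) = w * w * (w * w) by simp [pow_succ, mul_assoc]]
    refine Matrix.SpecialLinearGroup.ext _ _ fun i j => ?_
    rw [Matrix.SpecialLinearGroup.coe_mul, Matrix.SpecialLinearGroup.coe_mul, Matrix.SpecialLinearGroup.coe_one]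
    fin_cases i <;> fin_cases j <;> simp [w, Matrix.mul_apply, Fin.sum_univ_two]
  have hord : orderOf (e.symm w) = 2 ^ 2 := by
    rw [MulEquiv.orderOf_eq]
    exact orderOf_eq_prime_pow (p := 2) (n := 1) (by simpa using hw2) (by simpa using hw4)
  obtain ⟨g, hg⟩ := QuotientGroup.mk_surjective (e.symm w)
  have h4 := orderOf_map_dvd (QuotientGroup.mk' (K.subgroupOf H)) g
  rw [QuotientGroup.mk'_apply, hg, hord] at h4
  exact h.not_four_dvd (g : G) (by rw [orderOf_coe]; simpa using h4)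

/-- Abelian Sylow subgroups. -/
theorem sylow_comm
    (hcl : ∀ y a b : G, orderOf y = p → Commute a y → Commute b y → a ^ p = 1 → b ^ p = 1 → (a * b) ^ p = 1)
    (P : Sylow p G) {a b : G} (ha : a ∈ (P : Subgroup G)) (hb : b ∈ (P : Subgroup G)) : a * b = b * a := by
  classical
  have : Fact p.Prime := ⟨h.hp⟩
  rcases eq_or_ne a 1 with rfl | ha1
  · simp
  set Z0 := centerThompsonOf p (P : Subgroup G) with hZ0
  set M := normalizer (Z0 : Set G) with hM
  have hJP : thompsonSubgroupOf p (P : Subgroup G) ≤ P := ThompsonJ.thompsonSubgroupOf_le p _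
  have hPM : (P : Subgroup G) ≤ M := by
    intro x hx
    have hJ : x ∈ normalizer ((thompsonSubgroupOf p (P : Subgroup G) : Subgroup G) : Set G) :=
      ThompsonJ.normalizer_le_normalizer_thompsonSubgroupOf p _ (le_normalizer hx)
    have hiff := mem_normalizer_iff.1 hJ
    rw [hM, mem_normalizer_iff]
    intro y
    have aux : ∀ x : G, (∀ y, y ∈ thompsonSubgroupOf p (P : Subgroup G) ↔
        x * y * x⁻¹ ∈ thompsonSubgroupOf p (P : Subgroup G)) → ∀ y ∈ Z0, x * y * x⁻¹ ∈ Z0 := by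
      intro x hx y hy
      refine ⟨(hx y).1 hy.1, mem_centralizer_iff.2 fun j hj => ?_⟩
      have hj' : x⁻¹ * j * x ∈ thompsonSubgroupOf p (P : Subgroup G) := by
        rw [hx]; simpa [mul_assoc] using hj
      have e := mem_centralizer_iff.1 hy.2 _ hj'
      calc j * (x * y * x⁻¹) = x * (x⁻¹ * j * x * y) * x⁻¹ := by group
        _ = x * (y * (x⁻¹ * j * x)) * x⁻¹ := by rw [e]
        _ = x * y * x⁻¹ * j := by group
    refine ⟨aux x hiff y, fun hy => ?_⟩
    have := aux x⁻¹ (fun y => by rw [hiff (x⁻¹ * y * x⁻¹⁻¹)]; simp [mul_assoc]) _ hy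
    simpa [mul_assoc] using this
  have hZP : Z0 ≤ P := inf_le_left.trans hJP
  have hZne : Z0 ≠ ⊥ := by
    have hJne := ThompsonJ.thompsonSubgroupOf_ne_bot (p := p) (P := (P : Subgroup G))
      (by
        rw [P.card_eq_multiplicity]
        exact dvd_pow_self p (Nat.one_le_iff_ne_zero.1 ((h.hp.dvd_iff_one_le_factorization Nat.card_pos.ne').1
          (h.orderOf_of_isPGroup_p P.2 ha ha1 ▸ orderOf_dvd_natCard a))))
    have := (nontrivial_iff_ne_bot _).2 hJne
    have := (P.2.to_le hJP).center_nontrivial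
    obtain ⟨z, hz⟩ := exists_ne (1 : center (thompsonSubgroupOf p (P : Subgroup G)))
    refine fun e => hz (Subtype.ext (Subtype.ext ?_))
    have hmem : ((z : thompsonSubgroupOf p (P : Subgroup G)) : G) ∈ Z0 :=
      ⟨(z : thompsonSubgroupOf p (P : Subgroup G)).2, mem_centralizer_iff.2 fun j hj =>
        congrArg Subtype.val (mem_center_iff.1 z.2 ⟨j, hj⟩)⟩
    rwa [e, mem_bot] at hmem
  set Q := (pCore p M).map M.subtype with hQ
  have hQp : IsPGroup p Q := (Cores.isPGroup_pCore p M).map _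
  have hZQ : Z0 ≤ Q := by
    intro z hz
    refine ⟨⟨z, le_normalizer hz⟩, ?_, rfl⟩
    have : (Z0.subgroupOf M).Normal := normal_in_normalizer
    exact Cores.le_pCore (N := Z0.subgroupOf M) ((P.2.to_le hZP).comap_of_injective M.subtype M.subtype_injective) hz
  have hQP : Q ≤ P := by
    rintro _ ⟨q, hq, rfl⟩
    exact Cores.pCore_le_sylow (P.subtype hPM) hq
  have hQM : ∀ m ∈ M, ∀ q ∈ Q, m * q * m⁻¹ ∈ Q := by
    rintro m hm _ ⟨q, hq, rfl⟩
    exact ⟨⟨m, hm⟩ * q * ⟨m, hm⟩⁻¹, (inferInstance : (pCore p M).Normal).conj_mem q hq _, rfl⟩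
  obtain ⟨w, hwQ, hw1, hwc⟩ : ∃ w ∈ Q, w ≠ 1 ∧ ∀ x ∈ (P : Subgroup G), x * w = w * x := by
    have : Group.IsNilpotent (P : Subgroup G) := P.2.isNilpotent
    have : (Q.subgroupOf (P : Subgroup G)).Normal := ⟨fun q hq g => hQM g (hPM g.2) q hq⟩
    have hne : Q.subgroupOf (P : Subgroup G) ≠ ⊥ := by
      intro e
      rw [subgroupOf_eq_bot] at e
      exact hZne (le_bot_iff.1 fun z hz => e.le_bot ⟨hZQ hz, hZP hz⟩)
    have := (nontrivial_iff_ne_bot _).2 (PSolvable.inf_center_ne_bot hne)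
    obtain ⟨⟨w, hw⟩, hw1⟩ := exists_ne (1 : ↥(Q.subgroupOf (P : Subgroup G) ⊓ center (P : Subgroup G)))
    refine ⟨w.1, hw.1, fun e => hw1 (Subtype.ext (Subtype.ext e)), fun x hx => ?_⟩
    exact congrArg Subtype.val (mem_center_iff.1 hw.2 ⟨x, hx⟩)
  have hwp : orderOf w = p := h.orderOf_of_isPGroup_p P.2 (hQP hwQ) hw1
  have hPC : ∀ x ∈ (P : Subgroup G), ∀ q ∈ Q, q * x = x * q := by
    intro x hx q hq
    rcases eq_or_ne x 1 with rfl | hx1
    · simp
    obtain ⟨P', hP'⟩ := h.exists_sylow_le_centralizer (h.orderOf_of_isPGroup_p P.2 hx hx1)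
    have hxP' : x ∈ (P' : Subgroup G) := by
      have hn : zpowers x ≤ normalizer ((P' : Subgroup G) : Set G) := by
        rw [zpowers_le, mem_normalizer_iff]
        intro y
        constructor
        · intro hy
          rwa [← mem_centralizer_singleton_iff.1 (hP' hy), mul_inv_cancel_right]
        · intro hy
          have e := mem_centralizer_singleton_iff.1 (hP' hy)
          have e2 : x * y * x⁻¹ = y := by
            have h3 : x * y = x * (x * y * x⁻¹) := by rw [← e]; group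
            exact (mul_left_cancel h3).symm
          rwa [e2] at hy
      have h1 : IsPGroup p ↥(zpowers x ⊔ (P' : Subgroup G)) :=
        (P.2.to_le (zpowers_le.2 hx)).to_sup_of_normal_right' P'.2 hn
      rw [← P'.3 h1 le_sup_right]
      exact le_sup_left (b := (P' : Subgroup G)) (mem_zpowers x)
    obtain ⟨g, hg⟩ := MulAction.exists_smul_eq G P' P
    have hzP : g * x * g⁻¹ ∈ (P : Subgroup G) := by
      rw [← hg, Sylow.coe_subgroup_smul]
      exact ⟨x, hxP', rfl⟩
    have hzc : ∀ y ∈ (P : Subgroup G), y * (g * x * g⁻¹) = g * x * g⁻¹ * y := by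
      intro y hy
      rw [← hg, Sylow.coe_subgroup_smul] at hy
      obtain ⟨y, hy, rfl⟩ := hy
      show g * y * g⁻¹ * (g * x * g⁻¹) = g * x * g⁻¹ * (g * y * g⁻¹)
      calc g * y * g⁻¹ * (g * x * g⁻¹) = g * (y * x) * g⁻¹ := by group
        _ = g * (x * y) * g⁻¹ := by rw [mem_centralizer_singleton_iff.1 (hP' hy)]
        _ = g * x * g⁻¹ * (g * y * g⁻¹) := by group
    obtain ⟨n, hn, hne⟩ := Cfsg.Agent.S0118.result h.hp2 h.sl2_free P {x} (Set.singleton_subset_iff.2 hx) g⁻¹ (by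
      rintro _ ⟨a, rfl, rfl⟩
      show g⁻¹⁻¹ * _ * g⁻¹ ∈ (P : Subgroup G)
      rw [inv_inv]
      exact hzP)
    have hnx : n⁻¹ * x * n = g * x * g⁻¹ := by simpa using hne x rfl
    have hq' : n⁻¹ * q * n ∈ (P : Subgroup G) := hQP (by
      have := hQM n⁻¹ (M.inv_mem hn) q hq
      rwa [inv_inv] at this)
    have e := hzc _ hq'
    rw [← hnx] at e
    calc q * x = n * ((n⁻¹ * q * n) * (n⁻¹ * x * n)) * n⁻¹ := by group
      _ = n * ((n⁻¹ * x * n) * (n⁻¹ * q * n)) * n⁻¹ := by rw [e]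
      _ = x * q := by group
  -- the elements of order `p` centralising `Q` form a normal subgroup of `M`
  let W : Subgroup M :=
    { carrier := {m | (∀ q ∈ Q, q * (m : G) = m * q) ∧ (m : G) ^ p = 1}
      one_mem' := ⟨fun q _ => by simp, by simp⟩
      mul_mem' := fun {m m'} hm hm' => ⟨fun q hq => by
          rw [coe_mul, ← mul_assoc, hm.1 q hq, mul_assoc, hm'.1 q hq, mul_assoc],
        hcl w m m' hwp (hm.1 w hwQ).symm (hm'.1 w hwQ).symm hm.2 hm'.2⟩
      inv_mem' := fun {m} hm => ⟨fun q hq => by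
          rw [coe_inv]; exact ((show Commute q (m : G) from hm.1 q hq).inv_right).eq,
        by rw [coe_inv, inv_pow, hm.2, inv_one]⟩ }
  have hWn : W.Normal := ⟨fun m hm g => ⟨fun q hq => by
      have e := hm.1 _ (hQM (g : G)⁻¹ (M.inv_mem g.2) q hq)
      rw [inv_inv] at e
      simp only [coe_mul, coe_inv]
      calc q * ((g : G) * m * (g : G)⁻¹) = g * (((g : G)⁻¹ * q * g) * m) * (g : G)⁻¹ := by group
        _ = g * ((m : G) * ((g : G)⁻¹ * q * g)) * (g : G)⁻¹ := by rw [e]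
        _ = (g : G) * m * (g : G)⁻¹ * q := by group,
    by simp only [coe_mul, coe_inv]; rw [conj_pow, hm.2, mul_one, mul_inv_cancel]⟩⟩
  have hWp : IsPGroup p W := fun m => ⟨1, by
    rw [pow_one]
    exact Subtype.ext (Subtype.ext (by push_cast; exact m.2.2))⟩
  have haQ : a ∈ Q := by
    refine ⟨⟨a, hPM ha⟩, Cores.le_pCore hWp ⟨fun q hq => hPC a ha q hq, ?_⟩, rfl⟩
    have := h.orderOf_of_isPGroup_p P.2 ha ha1
    exact this ▸ pow_orderOf_eq_one a
  exact hPC b hb a haQ

end CfsgLib.FewAutOrbits.TwoP
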