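import Cfsg.Agent.Lib.FewAutOrbits.TIAction
import Cfsg.Agent.Lib.FewAutOrbits.PSylow

/-!
The trivial intersection case is impossible.
-/

set_option autoImplicit false
set_option linter.unusedSectionVars false

open Subgroup Cfsg

namespace CfsgLib.FewAutOrbits.TwoP

universe u

variable {G : Type u} [Group G] [Finite G] {p r : ℕ} (h : TwoP G p r)
  (hK : ∀ t : G, orderOf t = 2 → Kc p t = ⊥)
include h hK

theorem false_of_ti : False := by
  classical
  have : Fact p.Prime := ⟨h.hp⟩
  have := h.simple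
  obtain ⟨t₀, y₀, ht₀, hy₀, -⟩ := h.exists_pair
  obtain ⟨P⟩ : Nonempty (Sylow p G) := inferInstance
  have hpdvd : p ∣ Nat.card G := hy₀ ▸ orderOf_dvd_natCard y₀
  have hcomm : ∀ {a b : G}, a ∈ (P : Subgroup G) → b ∈ (P : Subgroup G) → a * b = b * a := fun ha hb =>
    h.sylow_comm (h.closed_of_cent fun y hy T hT hTC => h.card_two_le_of_ti hK hy T hT hTC) P ha hb
  obtain ⟨y, hy⟩ := exists_prime_orderOf_dvd_card' (G := (P : Subgroup G)) p (by
    rw [P.card_eq_multiplicity]
    exact dvd_pow_self p (Nat.one_le_iff_ne_zero.1 ((h.hp.dvd_iff_one_le_factorization Nat.card_pos.ne').1 hpdvd)))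
  rw [← orderOf_coe] at hy
  set C := centralizer ({(y : G)} : Set G) with hC
  have hPC : (P : Subgroup G) ≤ C := fun a ha => mem_centralizer_singleton_iff.2 (hcomm ha y.2)
  have hi := h.sylow_index_two hy (fun T hT hTC => h.card_two_le_of_ti hK hy T hT hTC) P.2 hPC
    (fun Q hQ hle _ => P.3 hQ hle)
  -- an involution normalising the Sylow subgroup centralises it
  have hinv : ∀ w : G, orderOf w = 2 → (∀ a ∈ (P : Subgroup G), w * a * w⁻¹ ∈ (P : Subgroup G)) →
      ∀ a ∈ (P : Subgroup G), Commute w a := by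
    intro w hw hn a ha
    have hz : a⁻¹ * (w * a * w⁻¹) ∈ (P : Subgroup G) :=
      (P : Subgroup G).mul_mem ((P : Subgroup G).inv_mem ha) (hn a ha)
    rcases eq_or_ne (a⁻¹ * (w * a * w⁻¹)) 1 with e | e
    · exact mul_inv_eq_iff_eq_mul.1 (inv_mul_eq_one.1 e).symm
    · refine absurd ?_ (h.not_inverted hK hw (h.orderOf_of_isPGroup_p P.2 hz e))
      have hcc : w * (w * a * w⁻¹) * w⁻¹ = a := by
        rw [show w * (w * a * w⁻¹) * w⁻¹ = w * w * a * (w * w)⁻¹ by group, Involutions.mul_self_eq_one hw]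
        group
      rw [show w * (a⁻¹ * (w * a * w⁻¹)) * w⁻¹ = w * a⁻¹ * w⁻¹ * (w * (w * a * w⁻¹) * w⁻¹) by group, hcc,
        mul_inv_rev, inv_inv, conj_inv]
  obtain ⟨w, hw, hwy⟩ := h.exists_two_of_p hy
  have hwC : w ∈ C := mem_centralizer_singleton_iff.2 hwy.eq
  have hwc : ∀ a ∈ (P : Subgroup G), Commute w a := by
    refine hinv w hw fun a ha => h.mem_of_index_two hi ?_ ?_
    · exact C.mul_mem (C.mul_mem hwC (hPC ha)) (C.inv_mem hwC)
    · rw [conj_pow, h.pow_p_eq_one P.2 ha, mul_one, mul_inv_cancel]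
  have hPdvd : Nat.card (P : Subgroup G) ∣ p :=
    h.card_dvd_of_centralizes hK hw P P.2 fun a ha => mem_centralizer_singleton_iff.2 (hwc a ha).eq.symm
  have hPy : (P : Subgroup G) = zpowers (y : G) := by
    refine (eq_of_le_of_card_ge (zpowers_le.2 y.2) ?_).symm
    rw [Nat.card_zpowers, hy]
    exact Nat.le_of_dvd h.hp.pos hPdvd
  -- the involution of `C`
  have huniq : ∀ v : G, orderOf v = 2 → v ∈ C → v = w := by
    intro v hv hvC
    have hnot : ∀ x : G, orderOf x = 2 → x ∉ (P : Subgroup G) := fun x hx hxP => by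
      rcases eq_or_ne x 1 with rfl | hx1
      · simp at hx
      · exact h.hp2 ((h.orderOf_of_isPGroup_p P.2 hxP hx1).symm.trans hx)
    have hmem : v * w ∈ (P : Subgroup G) :=
      (Subgroup.mul_mem_iff_of_index_two hi (a := ⟨v, hvC⟩) (b := ⟨w, hwC⟩)).2
        (iff_of_false (hnot v hv) (hnot w hw))
    have hc : Commute w (v * w) := hwc _ hmem
    have hvw : Commute v w := by
      have := hc.eq
      rw [← mul_assoc] at this
      exact (mul_right_cancel this).symm
    by_contra hne
    have h1 : v * w ≠ 1 := fun e => hne (by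
      rw [eq_inv_of_mul_eq_one_left e, inv_eq_of_mul_eq_one_right (Involutions.mul_self_eq_one hw)])
    have h2 : (v * w) ^ 2 = 1 := by
      rw [hvw.mul_pow, pow_two, pow_two, Involutions.mul_self_eq_one hv, Involutions.mul_self_eq_one hw, one_mul]
    have h3 := orderOf_dvd_of_pow_eq_one h2
    rw [h.orderOf_of_isPGroup_p P.2 hmem h1] at h3
    exact h.hp2 ((Nat.prime_dvd_prime_iff_eq h.hp Nat.prime_two).1 h3)
  have hN : normalizer ((P : Subgroup G) : Set G) ≤ centralizer ((P : Subgroup G) : Set G) := by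
    intro g hg
    have hconj : ∀ a ∈ (P : Subgroup G), g * a * g⁻¹ ∈ (P : Subgroup G) := fun a ha =>
      (mem_normalizer_iff.1 hg a).1 ha
    have hcent : ∀ x : G, Commute x (y : G) → ∀ a ∈ (P : Subgroup G), Commute x a := by
      intro x hx a ha
      rw [hPy] at ha
      obtain ⟨k, rfl⟩ := ha
      exact hx.zpow_right k
    have h2c : ∀ x : G, x ∈ normalizer ((P : Subgroup G) : Set G) → orderOf x = 2 → Commute x (y : G) :=
      fun x hx hx2 => hinv x hx2 (fun a ha => (mem_normalizer_iff.1 hx a).1 ha) y y.2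
    have hpc : ∀ x : G, x ∈ normalizer ((P : Subgroup G) : Set G) → orderOf x = p → Commute x (y : G) := by
      intro x hx hxp
      have h1 : IsPGroup p ↥(zpowers x ⊔ (P : Subgroup G)) :=
        (IsPGroup.of_card (n := 1) (by rw [Nat.card_zpowers, hxp, pow_one])).to_sup_of_normal_right' P.2
          (zpowers_le.2 hx)
      exact hcomm (P.3 h1 le_sup_right ▸ mem_sup_left (mem_zpowers x)) y.2
    have hgy : Commute g (y : G) := by
      rcases h.orders g with e | e | e | e | e
      · rw [orderOf_eq_one_iff.1 e]; exact Commute.one_left _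
      · exact h2c g hg e
      · exact hpc g hg e
      · exfalso
        have hne : g * (y : G) * g⁻¹ ∈ (P : Subgroup G) := hconj y y.2
        have hgw : g * w * g⁻¹ ∈ C := by
          -- the conjugate centralises a generator
          have hc1 : Commute (g * w * g⁻¹) (g * (y : G) * g⁻¹) := hwy.map (MulAut.conj g).toMonoidHom
          obtain ⟨k, hk⟩ := hPy.le hne
          have htop : zpowers (g * (y : G) * g⁻¹) = zpowers (y : G) :=
            eq_of_le_of_card_ge (zpowers_le.2 ⟨k, hk⟩) (by
              rw [Nat.card_zpowers, Nat.card_zpowers, Involutions.orderOf_conj])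
          obtain ⟨l, hl⟩ := (htop ▸ mem_zpowers (y : G) : (y : G) ∈ zpowers (g * (y : G) * g⁻¹))
          exact mem_centralizer_singleton_iff.2 ((show (g * (y : G) * g⁻¹) ^ l = y from hl) ▸ (hc1.zpow_right l).eq)
        have hcg : Commute w g :=
          (mul_inv_eq_iff_eq_mul.1 (huniq _ ((Involutions.orderOf_conj g w).trans hw) hgw)).symm
        have h1 := h.eq_one_of_r (Q := zpowers g)
          (IsPGroup.of_card (p := r) (n := 1) (by rw [Nat.card_zpowers, e, pow_one])) (mem_zpowers g) hw hcg
        rw [h1, orderOf_one] at e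
        exact h.hr.one_lt.ne e
      · obtain ⟨k, hk⟩ : Odd p := h.hp.odd_of_ne_two h.hp2
        have ea : orderOf (g ^ p) = 2 := by
          rw [orderOf_pow' g h.hp.ne_zero, e, Nat.gcd_mul_left_left, Nat.mul_div_cancel _ h.hp.pos]
        have eb : orderOf (g ^ 2) = p := by
          rw [orderOf_pow' g two_ne_zero, e, Nat.gcd_mul_right_left, Nat.mul_div_cancel_left _ two_pos]
        have h1 := h2c _ (pow_mem hg p) ea
        have h2 := ((hpc _ (pow_mem hg 2) eb).pow_left k).inv_left
        have h3 := h1.mul_left h2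
        have hgk : g ^ p * ((g ^ 2) ^ k)⁻¹ = g := by
          rw [← pow_mul, show g ^ p = g * g ^ (2 * k) by rw [← pow_succ', ← hk], mul_inv_cancel_right]
        rwa [hgk] at h3
    exact mem_centralizer_iff.2 fun a ha => (hcent g hgy a ha).eq.symm
  have hcompl := MonoidHom.ker_transferSylow_isComplement' P hN
  rcases (inferInstance : (MonoidHom.transferSylow P hN).ker.Normal).eq_bot_or_eq_top with e | e
  · rw [e] at hcompl
    have htop := isComplement'_bot_left.1 hcompl
    obtain ⟨a, b, hab⟩ := h.nonab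
    exact hab (hcomm (htop ▸ mem_top a) (htop ▸ mem_top b))
  · rw [e] at hcompl
    exact P.ne_bot_of_dvd_card hpdvd (isComplement'_top_left.1 hcompl)

end CfsgLib.FewAutOrbits.TwoP
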