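import Cfsg.Agent.Lib.FewAutOrbits.Local

/-!
The centraliser of an involution with a non-trivial `p`-core: a normal abelian Sylow `p`-subgroup on
which the elementary abelian Sylow `2`-subgroup acts by inversion.
-/

set_option autoImplicit false
set_option linter.unusedSectionVars false

open Subgroup Cfsg
open scoped Pointwise

namespace CfsgLib.FewAutOrbits.TwoP

variable {G : Type*} [Group G] [Finite G] {p r : ℕ} (h : TwoP G p r)
include h

/-- A non-trivial `p`-core for one involution gives one for all. -/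
theorem Kc_ne_bot {t u : G} (ht : orderOf t = 2) (hu : orderOf u = 2) (hK : Kc p t ≠ ⊥) : Kc p u ≠ ⊥ := by
  obtain ⟨φ, rfl⟩ := h.trans t u (ht.trans hu.symm)
  rw [← map_Kc]
  exact fun e => hK ((map_eq_bot_iff_of_injective _ φ.injective).1 e)

variable (hK : ∀ t : G, orderOf t = 2 → Kc p t ≠ ⊥)
include hK

theorem mem_Kc {t u : G} (ht : orderOf t = 2) (hu : orderOf u = p) (hc : Commute t u) : u ∈ Kc p t := by
  obtain ⟨k, hk, hk1⟩ := ((Kc p t).bot_or_exists_ne_one).resolve_left (hK t ht)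
  obtain ⟨φ, h1, h2⟩ := h.exists_aut_fixing ht (h.orderOf_of_isPGroup_p (Kc_isPGroup p t) hk hk1) hu
    (mem_centralizer_singleton_iff.1 (Kc_le p t hk)).symm hc
  have := map_Kc p φ t
  rw [h1] at this
  rw [← this, ← h2]
  exact ⟨k, hk, rfl⟩

theorem Kc_comm {t a b : G} (ht : orderOf t = 2) (ha : a ∈ Kc p t) (hb : b ∈ Kc p t) : a * b = b * a := by
  classical
  have : Fact p.Prime := ⟨h.hp⟩
  rcases eq_or_ne a 1 with rfl | ha1
  · simp
  have : Nontrivial (Kc p t) := (nontrivial_iff_ne_bot _).2 (hK t ht)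
  have := (Kc_isPGroup p t).center_nontrivial
  obtain ⟨z, hz⟩ := exists_ne (1 : center (Kc p t))
  have hz1 : ((z : Kc p t) : G) ≠ 1 := fun e => hz (Subtype.ext (Subtype.ext e))
  obtain ⟨φ, h1, h2⟩ := h.exists_aut_fixing ht (h.orderOf_of_isPGroup_p (Kc_isPGroup p t) (z : Kc p t).2 hz1)
    (h.orderOf_of_isPGroup_p (Kc_isPGroup p t) ha ha1)
    (mem_centralizer_singleton_iff.1 (Kc_le p t (z : Kc p t).2)).symm
    (mem_centralizer_singleton_iff.1 (Kc_le p t ha)).symm
  have hmap := map_Kc p φ t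
  rw [h1] at hmap
  obtain ⟨b', hb', rfl⟩ := hmap ▸ hb
  rw [← h2]
  show φ ((z : Kc p t) : G) * φ b' = φ b' * φ ((z : Kc p t) : G)
  rw [← map_mul, ← map_mul]
  exact congrArg φ (congrArg Subtype.val (mem_center_iff.1 z.2 ⟨b', hb'⟩)).symm

variable (S : Sylow 2 G)

theorem mem_centralizer_of_mem {t v : G} (htS : t ∈ (S : Subgroup G)) (hv : v ∈ (S : Subgroup G)) :
    v ∈ centralizer ({t} : Set G) :=
  mem_centralizer_singleton_iff.2 (h.commute_of_two S.2 hv htS)

theorem sup_eq {t : G} (ht : orderOf t = 2) (htS : t ∈ (S : Subgroup G)) :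
    Kc p t ⊔ (S : Subgroup G) = centralizer ({t} : Set G) := by
  classical
  have : Fact p.Prime := ⟨h.hp⟩
  have : Fact (Nat.Prime 2) := ⟨Nat.prime_two⟩
  set C := centralizer ({t} : Set G)
  set X := Kc p t ⊔ (S : Subgroup G)
  have hle : X ≤ C := sup_le (Kc_le p t) fun v hv => h.mem_centralizer_of_mem hK S htS hv
  refine eq_of_le_of_card_ge hle (Nat.le_of_dvd Nat.card_pos ?_)
  refine (Nat.factorization_le_iff_dvd Nat.card_pos.ne' Nat.card_pos.ne').1 fun q => ?_
  by_cases hq : q.Prime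
  swap
  · rw [Nat.factorization_eq_zero_of_not_prime _ hq]; exact Nat.zero_le _
  rcases eq_or_ne ((Nat.card C).factorization q) 0 with e | e
  · rw [e]; exact Nat.zero_le _
  rcases h.cent_primes (Or.inl ht) le_rfl hq (Nat.dvd_of_factorization_pos e) with rfl | rfl
  · calc (Nat.card C).factorization 2 ≤ (Nat.card G).factorization 2 :=
        (Nat.factorization_le_iff_dvd Nat.card_pos.ne' Nat.card_pos.ne').2 C.card_subgroup_dvd_card 2
      _ = (Nat.card (S : Subgroup G)).factorization 2 := by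
        rw [S.card_eq_multiplicity, Nat.prime_two.factorization_pow, Finsupp.single_eq_same]
      _ ≤ _ := (Nat.factorization_le_iff_dvd Nat.card_pos.ne' Nat.card_pos.ne').2
          (card_dvd_of_le le_sup_right) 2
  · obtain ⟨Ps⟩ : Nonempty (Sylow q C) := inferInstance
    have hle' : (Ps : Subgroup C).map C.subtype ≤ Kc q t := by
      intro a ha
      rcases eq_or_ne a 1 with rfl | ha1
      · exact one_mem _
      exact h.mem_Kc hK ht (h.orderOf_of_isPGroup_p (Ps.2.map _) ha ha1)
        (mem_centralizer_singleton_iff.1 (map_subtype_le _ ha)).symm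
    calc (Nat.card C).factorization q = (Nat.card (Ps : Subgroup C)).factorization q := by
          rw [Ps.card_eq_multiplicity, h.hp.factorization_pow, Finsupp.single_eq_same]
      _ = (Nat.card ((Ps : Subgroup C).map C.subtype)).factorization q := by
          rw [card_map_of_injective C.subtype_injective]
      _ ≤ _ := (Nat.factorization_le_iff_dvd Nat.card_pos.ne' Nat.card_pos.ne').2
          (card_dvd_of_le (hle'.trans le_sup_left)) q

theorem inf_eq_bot (t : G) : Kc p t ⊓ (S : Subgroup G) = ⊥ := by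
  refine eq_bot_iff.2 fun x hx => ?_
  rw [mem_bot]
  by_contra hx1
  have e1 := h.orderOf_of_isPGroup_p (Kc_isPGroup p t) hx.1 hx1
  have := h.three_le
  rcases h.orderOf_of_isPGroup_two S.2 hx.2 with e | e <;> omega

theorem exists_decomp {t g : G} (ht : orderOf t = 2) (htS : t ∈ (S : Subgroup G))
    (hg : g ∈ centralizer ({t} : Set G)) : ∃ k ∈ Kc p t, ∃ v ∈ (S : Subgroup G), k * v = g := by
  set C := centralizer ({t} : Set G)
  have hN : (S : Subgroup G) ≤ normalizer ((Kc p t : Subgroup G) : Set G) := fun v hv => by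
    have hvC := h.mem_centralizer_of_mem hK S htS hv
    refine mem_normalizer_iff.2 fun a => ⟨fun ha => Kc_conj hvC ha, fun ha => ?_⟩
    have := Kc_conj (C.inv_mem hvC) ha
    simpa [mul_assoc] using this
  change g ∈ centralizer ({t} : Set G) at hg
  rw [← h.sup_eq hK S ht htS] at hg
  obtain ⟨k, hk, v, hv, rfl⟩ := Set.mem_mul.1 ((coe_mul_of_right_le_normalizer_left _ _ hN).symm ▸ hg :
    g ∈ ((Kc p t : Set G) * (S : Subgroup G) : Set G))
  exact ⟨k, hk, v, hv, rfl⟩

theorem card_centralizer_pair {t k : G} (ht : orderOf t = 2) (htS : t ∈ (S : Subgroup G)) (hk : k ∈ Kc p t) :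
    Nat.card ↥(centralizer ({t} : Set G) ⊓ centralizer ({k} : Set G)) =
      Nat.card (Kc p t) * Nat.card ↥((S : Subgroup G) ⊓ centralizer ({k} : Set G)) := by
  rw [← Nat.card_prod]
  symm
  refine Nat.card_eq_of_bijective (fun x : Kc p t × ↥((S : Subgroup G) ⊓ centralizer ({k} : Set G)) =>
    (⟨(x.1 : G) * x.2, mul_mem ⟨Kc_le p t x.1.2, mem_centralizer_singleton_iff.2 (h.Kc_comm hK ht x.1.2 hk)⟩
      ⟨h.mem_centralizer_of_mem hK S htS x.2.2.1, x.2.2.2⟩⟩ :
      ↥(centralizer ({t} : Set G) ⊓ centralizer ({k} : Set G)))) ⟨?_, ?_⟩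
  · rintro ⟨a, b⟩ ⟨a', b'⟩ e
    have e' : (a : G) * b = a' * b' := congrArg Subtype.val e
    have hmem : (a' : G)⁻¹ * a ∈ Kc p t ⊓ (S : Subgroup G) :=
      ⟨Subgroup.mul_mem _ (Subgroup.inv_mem _ a'.2) a.2, by
        rw [show (a' : G)⁻¹ * a = b' * (b : G)⁻¹ by
          calc (a' : G)⁻¹ * a = (a' : G)⁻¹ * (a * b) * (b : G)⁻¹ := by group
            _ = _ := by rw [e']; group]
        exact Subgroup.mul_mem _ b'.2.1 (Subgroup.inv_mem _ b.2.1)⟩
    rw [h.inf_eq_bot hK S, mem_bot, inv_mul_eq_one] at hmem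
    rw [← hmem] at e'
    exact Prod.ext (Subtype.ext hmem.symm) (Subtype.ext (mul_left_cancel e'))
  · rintro ⟨g, hgt, hgk⟩
    obtain ⟨a, ha, v, hv, rfl⟩ := h.exists_decomp hK S ht htS hgt
    have hak : a ∈ centralizer ({k} : Set G) := mem_centralizer_singleton_iff.2 (h.Kc_comm hK ht ha hk)
    refine ⟨(⟨a, ha⟩, ⟨v, hv, ?_⟩), rfl⟩
    have := (centralizer ({k} : Set G)).mul_mem ((centralizer ({k} : Set G)).inv_mem hak) hgk
    simpa using this

/-- All non-trivial elements of the `p`-core have the same centraliser in the Sylow `2`-subgroup. -/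
theorem inf_centralizer_eq {t k l : G} (ht : orderOf t = 2) (htS : t ∈ (S : Subgroup G)) (hk : k ∈ Kc p t)
    (hk1 : k ≠ 1) (hl : l ∈ Kc p t) (hl1 : l ≠ 1) {u : G} (hu : u ∈ (S : Subgroup G)) (hck : Commute u k) :
    Commute u l := by
  classical
  set f : G → Subgroup G := fun k => (S : Subgroup G) ⊓ centralizer ({k} : Set G) with hf
  have hcard : ∀ k ∈ Kc p t, k ≠ 1 → ∀ l ∈ Kc p t, l ≠ 1 → Nat.card (f k) = Nat.card (f l) := by
    intro k hk hk1 l hl hl1
    obtain ⟨φ, h1, h2⟩ := h.exists_aut_fixing ht (h.orderOf_of_isPGroup_p (Kc_isPGroup p t) hk hk1)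
      (h.orderOf_of_isPGroup_p (Kc_isPGroup p t) hl hl1) (mem_centralizer_singleton_iff.1 (Kc_le p t hk)).symm
      (mem_centralizer_singleton_iff.1 (Kc_le p t hl)).symm
    have hm : (centralizer ({t} : Set G) ⊓ centralizer ({k} : Set G)).map φ.toMonoidHom =
        centralizer ({t} : Set G) ⊓ centralizer ({l} : Set G) := by
      rw [map_inf _ _ _ φ.injective, map_centralizer_autApply, map_centralizer_autApply, h1, h2]
    have e : Nat.card ↥(centralizer ({t} : Set G) ⊓ centralizer ({k} : Set G)) =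
        Nat.card ↥(centralizer ({t} : Set G) ⊓ centralizer ({l} : Set G)) := by
      rw [← hm]
      exact (card_map_of_injective (show Function.Injective φ.toMonoidHom from φ.injective)).symm
    rw [h.card_centralizer_pair hK S ht htS hk, h.card_centralizer_pair hK S ht htS hl] at e
    exact Nat.eq_of_mul_eq_mul_left Nat.card_pos e
  by_contra hcl
  have hu2 : u * u = 1 := h.sq_eq_one_of_two S.2 hu
  have huinv : u⁻¹ = u := inv_eq_of_mul_eq_one_right hu2
  have huC := h.mem_centralizer_of_mem hK S htS hu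
  have hul : u * l * u ∈ Kc p t := by
    have := Kc_conj huC hl
    rwa [huinv] at this
  have hinv : ∀ x : G, u * x * u = u * x * u⁻¹ := fun x => by rw [huinv]
  set b := l * (u * l * u)⁻¹ with hb
  have hbK : b ∈ Kc p t := mul_mem hl (inv_mem hul)
  have hb1 : b ≠ 1 := by
    intro e
    apply hcl
    have e2 : l = u * l * u := mul_inv_eq_one.1 e
    calc u * l = u * (u * l * u) := by rw [← e2]
      _ = (u * u) * (l * u) := by group
      _ = l * u := by rw [hu2, one_mul]
  have hubu : u * b * u = b⁻¹ := by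
    rw [hb, show u * (l * (u * l * u)⁻¹) * u = u * l * u⁻¹ * l⁻¹ by group, huinv]
    group
  have hfb : f l = f b := by
    refine eq_of_le_of_card_ge (fun v hv => ⟨hv.1, mem_centralizer_singleton_iff.2 ?_⟩)
      (hcard b hbK hb1 l hl hl1).le
    have hvl : Commute v l := mem_centralizer_singleton_iff.1 hv.2
    have hvu : Commute v u := h.commute_of_two S.2 hv.1 hu
    exact (hvl.mul_right (((hvu.mul_right hvl).mul_right hvu).inv_right)).eq
  have hk1' : k * b ≠ 1 := by
    intro e
    have e2 : k = b⁻¹ := eq_inv_of_mul_eq_one_left e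
    have e3 : u * k * u = k := by rw [hck.eq, mul_assoc, hu2, mul_one]
    have e4 : u * k * u = b := by
      rw [e2, hinv, ← conj_inv, ← hinv, hubu, inv_inv]
    have hsq : b * b = 1 := by
      rw [e3, e2] at e4
      calc b * b = b⁻¹ * b := by rw [e4]
        _ = 1 := inv_mul_cancel b
    have hd := orderOf_dvd_of_pow_eq_one ((pow_two b).trans hsq)
    rw [h.orderOf_of_isPGroup_p (Kc_isPGroup p t) hbK hb1] at hd
    have := Nat.le_of_dvd two_pos hd
    have := h.three_le
    omega
  have hkbK : k * b ∈ Kc p t := mul_mem hk hbK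
  have hfkb : f (k * b) ≤ f k ⊓ f b := by
    intro v hv
    have hvu : Commute v u := h.commute_of_two S.2 hv.1 hu
    have hvkb : Commute v (k * b) := mem_centralizer_singleton_iff.1 hv.2
    have hvkb' : Commute v (k * b⁻¹) := by
      have e : u * (k * b) * u = k * b⁻¹ := by
        rw [← hubu, ← mul_assoc u k b, hck.eq]; group
      rw [← e]
      exact (hvu.mul_right hvkb).mul_right hvu
    have hvk : Commute v k := by
      have e : k * b * (k * b⁻¹) = k ^ 2 := by
        have hc : b * k = k * b := h.Kc_comm hK ht hbK hk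
        calc k * b * (k * b⁻¹) = k * (b * k) * b⁻¹ := by group
          _ = k ^ 2 := by rw [hc]; simp [pow_two, mul_assoc]
      have h2 : Commute v (k ^ 2) := e ▸ hvkb.mul_right hvkb'
      obtain ⟨j, hj⟩ : Odd p := h.hp.odd_of_ne_two h.hp2
      have h3 := h2.pow_right (j + 1)
      rwa [← pow_mul, show 2 * (j + 1) = p + 1 by omega, pow_succ, h.pow_p_eq_one (Kc_isPGroup p t) hk,
        one_mul] at h3
    refine ⟨⟨hv.1, mem_centralizer_singleton_iff.2 hvk.eq⟩, hv.1, mem_centralizer_singleton_iff.2 ?_⟩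
    have := hvk.inv_right.mul_right hvkb
    rw [inv_mul_cancel_left] at this
    exact this.eq
  have h1 : f (k * b) = f k :=
    eq_of_le_of_card_ge (hfkb.trans inf_le_left) (hcard k hk hk1 _ hkbK hk1').le
  have huk : u ∈ f k := ⟨hu, mem_centralizer_singleton_iff.2 hck.eq⟩
  have hub : u ∈ f b := (hfkb (h1 ▸ huk)).2
  rw [← hfb] at hub
  exact hcl (mem_centralizer_singleton_iff.1 hub.2)

/-- An element of the Sylow `2`-subgroup centralising no non-trivial element of the core inverts it. -/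
theorem inverts {t v : G} (ht : orderOf t = 2) (htS : t ∈ (S : Subgroup G)) (hv : v ∈ (S : Subgroup G))
    {k₀ : G} (hk₀ : k₀ ∈ Kc p t) (hnc : ¬ Commute v k₀) {k : G} (hk : k ∈ Kc p t) :
    v * k * v⁻¹ = k⁻¹ := by
  have hvv : v * v = 1 := h.sq_eq_one_of_two S.2 hv
  have hvC := h.mem_centralizer_of_mem hK S htS hv
  have hconj := Kc_conj hvC hk
  set m := v * k * v⁻¹ * k with hm
  have hmv : Commute v m := by
    have hvvi : v⁻¹ = v := inv_eq_of_mul_eq_one_right hvv
    show v * m = m * v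
    refine mul_inv_eq_iff_eq_mul.1 ?_
    calc v * m * v⁻¹ = (v * v) * k * (v⁻¹ * k * v⁻¹) := by rw [hm]; group
      _ = k * (v * k * v⁻¹) := by rw [hvv, hvvi, one_mul]
      _ = m := h.Kc_comm hK ht hk hconj
  by_contra hne
  have hm1 : m ≠ 1 := fun e => hne (eq_inv_of_mul_eq_one_left e)
  have hk₀1 : k₀ ≠ 1 := fun e => hnc (e ▸ Commute.one_right v)
  exact hnc (h.inf_centralizer_eq hK S ht htS (mul_mem hconj hk) hm1 hk₀ hk₀1 hv hmv)

end CfsgLib.FewAutOrbits.TwoP
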