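import Cfsg.Agent.Lib.FewAutOrbits.Klein
import Cfsg.Agent.Lib.Cores.Fitting
import Cfsg.Agent.Lib.CharTheory.Burnside

/-!
The core of an involution centraliser is a Sylow `p`-subgroup of the whole group.
-/

set_option autoImplicit false
set_option linter.unusedSectionVars false

open Subgroup Cfsg

namespace CfsgLib.FewAutOrbits

universe u

/-- A group with element orders `1, 2, r`, no element of order `2r` and Sylow `2`-subgroups `T` of order
four that are self-centralising has `T` normal. -/
theorem normal_of_two_r {L : Type u} [Group L] [Finite L] {r : ℕ} (hr : r.Prime) (hr2 : r ≠ 2)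
    (hord : ∀ g : L, orderOf g = 1 ∨ orderOf g = 2 ∨ orderOf g = r) (T : Sylow 2 L)
    (hT : Nat.card (T : Subgroup L) = 4) : (T : Subgroup L).Normal := by
  classical
  have : Fact r.Prime := ⟨hr⟩
  have : Fact (Nat.Prime 2) := ⟨Nat.prime_two⟩
  have hsq : ∀ v ∈ (T : Subgroup L), v * v = 1 := by
    intro v hv
    obtain ⟨k, hk⟩ := IsPGroup.iff_orderOf.1 T.2 ⟨v, hv⟩
    rw [orderOf_mk] at hk
    rcases hord v with e | e | e
    · rw [orderOf_eq_one_iff.1 e, one_mul]
    · exact Involutions.mul_self_eq_one e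
    · exfalso
      rw [e] at hk
      exact hr2 ((Nat.prime_dvd_prime_iff_eq hr Nat.prime_two).1 (hr.dvd_of_dvd_pow (hk ▸ dvd_rfl : r ∣ 2 ^ k)))
  have hcomm : ∀ a ∈ (T : Subgroup L), ∀ b ∈ (T : Subgroup L), a * b = b * a := fun a ha b hb => by
    calc a * b = (a * b)⁻¹ := (inv_eq_of_mul_eq_one_right (hsq _ ((T : Subgroup L).mul_mem ha hb))).symm
      _ = b⁻¹ * a⁻¹ := mul_inv_rev a b
      _ = b * a := by rw [inv_eq_of_mul_eq_one_right (hsq a ha), inv_eq_of_mul_eq_one_right (hsq b hb)]
  have hfpf : ∀ v x : L, orderOf v = 2 → orderOf x = r → ¬ Commute v x := by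
    intro v x hv hx hc
    have h := hc.orderOf_mul_eq_mul_orderOf_of_coprime
      (by rw [hv, hx]; exact (Nat.coprime_primes Nat.prime_two hr).2 (Ne.symm hr2))
    rw [hv, hx] at h
    have := hr.two_le
    rcases hord (v * x) with e | e | e <;> rw [h] at e <;> omega
  have hsol : Group.IsSolvable L := CharTheory.isSolvable_of_card_dvd_pow_mul_pow 2 r
    ((Nat.card L).factorization 2) ((Nat.card L).factorization r) Nat.prime_two hr (by
    refine (Nat.factorization_le_iff_dvd Nat.card_pos.ne' (mul_ne_zero (pow_ne_zero _ two_ne_zero)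
      (pow_ne_zero _ hr.ne_zero))).1 fun q => ?_
    rw [Nat.factorization_mul (pow_ne_zero _ two_ne_zero) (pow_ne_zero _ hr.ne_zero), Finsupp.add_apply,
      Nat.prime_two.factorization_pow, hr.factorization_pow, Finsupp.single_apply, Finsupp.single_apply]
    rcases eq_or_ne ((Nat.card L).factorization q) 0 with e | e
    · rw [e]; exact Nat.zero_le _
    · have hq : q.Prime := by
        by_contra hnp
        exact e (Nat.factorization_eq_zero_of_not_prime _ hnp)
      have : Fact q.Prime := ⟨hq⟩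
      obtain ⟨g, hg⟩ := exists_prime_orderOf_dvd_card' (G := L) q (Nat.dvd_of_factorization_pos e)
      rcases hord g with e' | e' | e' <;> rw [hg] at e'
      · exact absurd e' hq.one_lt.ne'
      · subst e'; simp
      · subst e'; simp)
  obtain ⟨q, hq, hqne⟩ : ∃ q : ℕ, q.Prime ∧ pCore q L ≠ ⊥ := by
    by_contra! hall
    have : Nontrivial L := by
      by_contra hn
      rw [not_nontrivial_iff_subsingleton] at hn
      have := card_subgroup_dvd_card (T : Subgroup L)
      rw [hT, Nat.card_eq_one_iff_unique.2 ⟨hn, inferInstance⟩] at this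
      omega
    apply Cores.fittingSubgroup_ne_bot (G := L)
    rw [Cores.fittingSubgroup_eq_iSup_pCore, iSup_eq_bot]
    exact fun q => hall q (Nat.prime_of_mem_primeFactors q.2)
  have : Fact q.Prime := ⟨hq⟩
  have hqord : ∀ g ∈ pCore q L, g ≠ 1 → orderOf g = q := by
    intro g hg hg1
    obtain ⟨k, hk⟩ := IsPGroup.iff_orderOf.1 (Cores.isPGroup_pCore q L) ⟨g, hg⟩
    rw [orderOf_mk] at hk
    rcases hord g with e | e | e
    · exact absurd (orderOf_eq_one_iff.1 e) hg1
    all_goals
      rw [e] at hk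
      rw [e]
      have hqd : q ∣ q ^ k := dvd_pow_self q fun e0 => by
        rw [e0, pow_zero] at hk
        have := hr.two_le
        omega
      first
        | exact ((Nat.prime_dvd_prime_iff_eq hq Nat.prime_two).1 (hk ▸ hqd)).symm
        | exact ((Nat.prime_dvd_prime_iff_eq hq hr).1 (hk ▸ hqd)).symm
  obtain ⟨g, hg, hg1⟩ := ((pCore q L).bot_or_exists_ne_one).resolve_left hqne
  have hgq := hqord g hg hg1
  rcases hord g with e | e | e
  · exact absurd (orderOf_eq_one_iff.1 e) hg1
  · -- the centraliser of the `2`-core is the Sylow subgroup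
    obtain rfl : q = 2 := hgq.symm.trans e
    set C := centralizer ((pCore 2 L : Subgroup L) : Set L)
    have hET : pCore 2 L ≤ T := Cores.pCore_le_sylow T
    have hTC : (T : Subgroup L) ≤ C := fun v hv => mem_centralizer_iff.2 fun a ha => hcomm a (hET ha) v hv
    have hC2 : IsPGroup 2 C := fun c => by
      rcases hord (c : L) with e' | e' | e'
      · exact ⟨0, Subtype.ext (by simpa using orderOf_eq_one_iff.1 e')⟩
      · exact ⟨1, Subtype.ext (by rw [pow_one, coe_pow, coe_one, pow_two, Involutions.mul_self_eq_one e'])⟩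
      · exact absurd (mem_centralizer_iff.1 c.2 g hg) (hfpf g c hgq e')
    rw [← T.3 hC2 hTC]
    have : (pCore 2 L).Normal := inferInstance
    exact Subgroup.normal_centralizer
  · -- an odd core would be inverted by every involution of `T`
    exfalso
    obtain rfl : q = r := hgq.symm.trans e
    have hinv : ∀ v ∈ (T : Subgroup L), v ≠ 1 → ∀ y ∈ pCore q L, v * y * v = y⁻¹ := by
      intro v hv hv1
      have hvv := hsq v hv
      have hvi : v⁻¹ = v := inv_eq_of_mul_eq_one_right hvv
      have hv2 : orderOf v = 2 := Involutions.orderOf_eq_two_iff.2 ⟨hvv, hv1⟩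
      have hN : ∀ x ∈ pCore q L, v * x * v ∈ pCore q L := fun x hx => by
        have := (inferInstance : (pCore q L).Normal).conj_mem x hx v
        rwa [hvi] at this
      have hinj : Function.Injective (fun x : pCore q L => (⟨(x : L)⁻¹ * (v * x * v),
          (pCore q L).mul_mem ((pCore q L).inv_mem x.2) (hN x x.2)⟩ : pCore q L)) := by
        intro a b hab
        have h' : (a : L)⁻¹ * (v * a * v) = (b : L)⁻¹ * (v * b * v) := congrArg Subtype.val hab
        by_contra hne
        have hd1 : (b : L) * (a : L)⁻¹ ≠ 1 := fun e' => hne (Subtype.ext (mul_inv_eq_one.1 e').symm)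
        apply hfpf v _ hv2 (hqord _ ((pCore q L).mul_mem b.2 ((pCore q L).inv_mem a.2)) hd1)
        show v * ((b : L) * (a : L)⁻¹) = (b : L) * (a : L)⁻¹ * v
        calc v * ((b : L) * (a : L)⁻¹) = v * b * v * (v * a * v)⁻¹ * v := by group
          _ = v * b * v * ((a : L) * ((a : L)⁻¹ * (v * a * v)))⁻¹ * v := by rw [mul_inv_cancel_left]
          _ = v * b * v * ((a : L) * ((b : L)⁻¹ * (v * b * v)))⁻¹ * v := by rw [h']
          _ = (b : L) * (a : L)⁻¹ * v := by group
      intro y hy
      obtain ⟨x, hx⟩ := (Finite.injective_iff_surjective.1 hinj) ⟨y, hy⟩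
      have hx' : (x : L)⁻¹ * (v * x * v) = y := congrArg Subtype.val hx
      rw [← hx']
      calc v * ((x : L)⁻¹ * (v * x * v)) * v = v * (x : L)⁻¹ * v * x * (v * v) := by group
        _ = ((x : L)⁻¹ * (v * x * v))⁻¹ := by rw [hvv, mul_one, mul_inv_rev, mul_inv_rev, mul_inv_rev, inv_inv, hvi]; group
    have := Fintype.ofFinite (T : Subgroup L)
    rw [Nat.card_eq_fintype_card] at hT
    obtain ⟨a, ha, b, hb, hab⟩ := Finset.one_lt_card.1 (show 1 < (Finset.univ.erase (1 : (T : Subgroup L))).card by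
      rw [Finset.card_erase_of_mem (Finset.mem_univ _), Finset.card_univ]; omega)
    have ha1 : (a : L) ≠ 1 := fun e => Finset.ne_of_mem_erase ha (Subtype.ext e)
    have hb1 : (b : L) ≠ 1 := fun e => Finset.ne_of_mem_erase hb (Subtype.ext e)
    have hab1 : (a : L) * b ≠ 1 := fun e => hab (Subtype.ext ((eq_inv_of_mul_eq_one_left e).trans
      (inv_eq_of_mul_eq_one_right (hsq b b.2))))
    have e3 := hinv _ ((T : Subgroup L).mul_mem a.2 b.2) hab1 g hg
    have e1 := hinv a a.2 ha1 g hg
    have e2 := hinv b b.2 hb1 g⁻¹ ((pCore q L).inv_mem hg)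
    rw [inv_inv] at e2
    have e4 : (a : L) * b * g * (a * b) = g := by
      calc (a : L) * b * g * (a * b) = (b * a) * g * (a * b) := by rw [hcomm a a.2 b b.2]
        _ = b * (a * g * a) * b := by group
        _ = g := by rw [e1, e2]
    rw [e4] at e3
    have hd := orderOf_dvd_of_pow_eq_one (x := g) (n := 2) (by rw [pow_two]; nth_rw 2 [e3]; exact mul_inv_cancel g)
    rw [hgq] at hd
    exact hr2 ((Nat.prime_dvd_prime_iff_eq hq Nat.prime_two).1 hd)

namespace TwoP

variable {G : Type u} [Group G] [Finite G] {p r : ℕ} (h : TwoP G p r)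
  (hK : ∀ t : G, orderOf t = 2 → Kc p t ≠ ⊥) (S : Sylow 2 G)
include h hK

theorem card_sylow_two {t s : G} (ht : orderOf t = 2) (htS : t ∈ (S : Subgroup G)) (hs : s ∈ (S : Subgroup G))
    (hst : s ≠ t) (hs1 : s ≠ 1) : Nat.card (S : Subgroup G) = 4 := by
  classical
  have := h.simple
  refine le_antisymm ?_ (four_le_card_sylow h.nonab S)
  have := Fintype.ofFinite (S : Subgroup G)
  rw [Nat.card_eq_fintype_card]
  let l : Finset (S : Subgroup G) := {1, ⟨t, htS⟩, ⟨s, hs⟩, ⟨t * s, (S : Subgroup G).mul_mem htS hs⟩}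
  refine le_trans (Finset.card_le_card (s := Finset.univ) (t := l) fun v _ => ?_) Finset.card_le_four
  rcases h.mem_cases hK S ht htS hs hst hs1 v.2 with e | e | e | e
  · simp [l, Subtype.ext_iff, e]
  · simp [l, Subtype.ext_iff, e]
  · simp [l, Subtype.ext_iff, e]
  · simp [l, Subtype.ext_iff, e]

theorem sylow_p_comm (P : Sylow p G) {a b : G} (ha : a ∈ (P : Subgroup G)) (hb : b ∈ (P : Subgroup G)) :
    a * b = b * a :=
  h.sylow_comm (h.closed_of_cent fun _ hy T hT hTC => h.card_two_le hK hy T hT hTC) P ha hb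

/-- Elements of `p`-power order centralising an element of a Sylow subgroup lie in it. -/
theorem mem_sylow_of_commute (P : Sylow p G) {z a : G} (hz : z ∈ (P : Subgroup G)) (hz1 : z ≠ 1)
    (ha : Commute a z) (hap : a ^ p = 1) : a ∈ (P : Subgroup G) := by
  have hzp := h.orderOf_of_isPGroup_p P.2 hz hz1
  refine h.mem_of_index_two (h.sylow_index_two hzp (fun T hT hTC => h.card_two_le hK hzp T hT hTC) P.2
    (fun q hq => mem_centralizer_singleton_iff.2 (h.sylow_p_comm hK P hq hz))
    (fun Q hQ hle _ => P.3 hQ hle)) (mem_centralizer_singleton_iff.2 ha.eq) hap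

/-- A Sylow `p`-subgroup containing the core centralises the involution. -/
theorem commute_of_sylow {t : G} (ht : orderOf t = 2) (htS : t ∈ (S : Subgroup G)) (P : Sylow p G)
    (hP : Kc p t ≤ P) {x : G} (hx : x ∈ (P : Subgroup G)) : Commute t x := by
  classical
  have : Fact p.Prime := ⟨h.hp⟩
  have : Fact (Nat.Prime 2) := ⟨Nat.prime_two⟩
  by_contra hxt
  have hx1 : x ≠ 1 := fun e => hxt (e ▸ Commute.one_right t)
  obtain ⟨k, hk, hk1⟩ := ((Kc p t).bot_or_exists_ne_one).resolve_left (hK t ht)
  obtain ⟨s, hs, hns⟩ := h.exists_inverter hK S ht htS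
  have hs1 : s ≠ 1 := fun e => hns k hk hk1 (e ▸ Commute.one_left k)
  have hst : s ≠ t := fun e => hns k hk hk1 (e ▸ (mem_centralizer_singleton_iff.1 (Kc_le p t hk)).symm)
  -- the Sylow `2`-subgroup normalises `P`
  have hSN : (S : Subgroup G) ≤ normalizer ((P : Subgroup G) : Set G) := by
    have key : ∀ v ∈ (S : Subgroup G), ∀ q ∈ (P : Subgroup G), v * q * v⁻¹ ∈ (P : Subgroup G) := by
      intro v hv q hq
      have hvk := Kc_conj (h.mem_centralizer_of_mem hK S htS hv) hk
      refine h.mem_sylow_of_commute hK P (hP hvk) (fun e => hk1 (conj_eq_one_iff.1 e)) ?_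
        (by rw [conj_pow, h.pow_p_eq_one P.2 hq, mul_one, mul_inv_cancel])
      exact (show Commute q k from h.sylow_p_comm hK P hq (hP hk)).map (MulAut.conj v).toMonoidHom
    refine fun v hv => mem_normalizer_iff.2 fun q => ⟨key v hv q, fun hq => ?_⟩
    simpa [mul_assoc] using key v⁻¹ ((S : Subgroup G).inv_mem hv) _ hq
  set N := normalizer ((P : Subgroup G) : Set G) with hN
  have hPN : (P : Subgroup G) ≤ N := le_normalizer
  have : ((P : Subgroup G).subgroupOf N).Normal := normal_in_normalizer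
  let π : N →* N ⧸ (P : Subgroup G).subgroupOf N := QuotientGroup.mk' _
  have hπ : Function.Surjective π := QuotientGroup.mk'_surjective _
  have hnp : ¬ p ∣ Nat.card (N ⧸ (P : Subgroup G).subgroupOf N) := by
    have e : (P : Subgroup G).subgroupOf N = ((P.subtype hPN : Sylow p N) : Subgroup N) := rfl
    rw [← index_eq_card, e]
    exact (P.subtype hPN).not_dvd_index
  have hord : ∀ g : N ⧸ (P : Subgroup G).subgroupOf N, orderOf g = 1 ∨ orderOf g = 2 ∨ orderOf g = r := by
    intro g
    obtain ⟨n, rfl⟩ := hπ g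
    have hd : orderOf (π n) ∣ orderOf (n : G) := by rw [orderOf_coe]; exact orderOf_map_dvd π n
    have hnd : ¬ p ∣ orderOf (π n) := fun e => hnp (e.trans (orderOf_dvd_natCard _))
    rcases h.orders (n : G) with e | e | e | e | e <;> rw [e] at hd
    · exact Or.inl (Nat.dvd_one.1 hd)
    · rcases (Nat.dvd_prime Nat.prime_two).1 hd with e' | e'
      · exact Or.inl e'
      · exact Or.inr (Or.inl e')
    · rcases (Nat.dvd_prime h.hp).1 hd with e' | e'
      · exact Or.inl e'
      · exact absurd e'.symm.dvd hnd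
    · rcases (Nat.dvd_prime h.hr).1 hd with e' | e'
      · exact Or.inl e'
      · exact Or.inr (Or.inr e')
    · have hc : Nat.Coprime (orderOf (π n)) p := ((h.hp.coprime_iff_not_dvd).2 hnd).symm
      rcases (Nat.dvd_prime Nat.prime_two).1 (hc.dvd_of_dvd_mul_right hd) with e' | e'
      · exact Or.inl e'
      · exact Or.inr (Or.inl e')
  let TS : Sylow 2 N := S.subtype hSN
  let T : Sylow 2 (N ⧸ (P : Subgroup G).subgroupOf N) := TS.mapSurjective hπ
  have hT : Nat.card (T : Subgroup (N ⧸ (P : Subgroup G).subgroupOf N)) = 4 := by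
    let f : (S : Subgroup G) →* N ⧸ (P : Subgroup G).subgroupOf N := π.comp (Subgroup.inclusion hSN)
    have hf : Function.Injective f := by
      rw [← MonoidHom.ker_eq_bot_iff, eq_bot_iff]
      intro v hv
      rw [mem_bot]
      by_contra hv1
      have hvP : (v : G) ∈ (P : Subgroup G) := (QuotientGroup.eq_one_iff (N := (P : Subgroup G).subgroupOf N) (Subgroup.inclusion hSN v)).1 hv
      have e1 := h.orderOf_of_isPGroup_p P.2 hvP (fun e => hv1 (Subtype.ext e))
      have := h.three_le
      rcases h.orderOf_of_isPGroup_two S.2 v.2 with e | e <;> omega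
    have hr : f.range = (T : Subgroup (N ⧸ (P : Subgroup G).subgroupOf N)) := by
      ext z
      constructor
      · rintro ⟨v, rfl⟩
        exact ⟨⟨v, hSN v.2⟩, v.2, rfl⟩
      · rintro ⟨v, hv, rfl⟩
        exact ⟨⟨(v : G), hv⟩, rfl⟩
    rw [← hr, ← Nat.card_congr (MonoidHom.ofInjective hf).toEquiv]
    exact h.card_sylow_two hK S ht htS hs hst hs1
  have hTn := normal_of_two_r h.hr h.hr2 hord T hT
  -- every non-trivial element of `P` is centralised by an involution of `S`
  have hfix : ∀ z ∈ (P : Subgroup G), z ≠ 1 → ∃ v ∈ (S : Subgroup G), v ≠ 1 ∧ Commute v z := by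
    intro z hz hz1
    obtain ⟨w, hw, hwz⟩ := h.exists_two_of_p (h.orderOf_of_isPGroup_p P.2 hz hz1)
    have hwN : w ∈ N := by
      have key : ∀ q ∈ (P : Subgroup G), w * q * w⁻¹ ∈ (P : Subgroup G) := by
        intro q hq
        refine h.mem_sylow_of_commute hK P hz hz1 ?_
          (by rw [conj_pow, h.pow_p_eq_one P.2 hq, mul_one, mul_inv_cancel])
        have h1 := (show Commute q z from h.sylow_p_comm hK P hq hz).map (MulAut.conj w).toMonoidHom
        simp only [MulEquiv.coe_toMonoidHom, MulAut.conj_apply] at h1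
        rwa [hwz.eq, mul_inv_cancel_right] at h1
      refine mem_normalizer_iff.2 fun q => ⟨key q, fun hq => ?_⟩
      have := key _ hq
      rw [Involutions.inv_eq_self hw] at this
      have hww := Involutions.mul_self_eq_one hw
      rwa [show w * (w * q * w) * w = (w * w) * q * (w * w) by group, hww, one_mul, mul_one] at this
    have hwT : π ⟨w, hwN⟩ ∈ (T : Subgroup (N ⧸ (P : Subgroup G).subgroupOf N)) := by
      have h2 : IsPGroup 2 (zpowers (π ⟨w, hwN⟩)) := by
        rw [← MonoidHom.map_zpowers]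
        refine IsPGroup.map (IsPGroup.of_card (n := 1) ?_) π
        rw [Nat.card_zpowers, orderOf_mk, hw, pow_one]
      have h3 : IsPGroup 2 ↥(zpowers (π ⟨w, hwN⟩) ⊔ (T : Subgroup (N ⧸ (P : Subgroup G).subgroupOf N))) :=
        h2.to_sup_of_normal_right T.2
      rw [← T.3 h3 le_sup_right]
      exact le_sup_left (b := (T : Subgroup (N ⧸ (P : Subgroup G).subgroupOf N))) (mem_zpowers _)
    obtain ⟨v, hv, hvw⟩ := (show π ⟨w, hwN⟩ ∈ ((S : Subgroup G).subgroupOf N).map π from hwT)
    have hq : (v : G)⁻¹ * w ∈ (P : Subgroup G) := by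
      have := (QuotientGroup.eq).1 hvw
      simpa [mem_subgroupOf] using this
    refine ⟨v, hv, fun e => ?_, ?_⟩
    · rw [e, inv_one, one_mul] at hq
      have := h.orderOf_of_isPGroup_p P.2 hq (Involutions.ne_one hw)
      exact h.hp2 (this.symm.trans hw)
    · have hqz : Commute ((v : G)⁻¹ * w) z := h.sylow_p_comm hK P hq hz
      have hc : Commute ((v : G)⁻¹ * w * w⁻¹) z := hqz.mul_left hwz.inv_left
      rw [mul_inv_cancel_right, Commute.inv_left_iff] at hc
      exact hc
  obtain ⟨v, hv, hv1, hvx⟩ := hfix x hx hx1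
  have hvt : v ≠ t := fun e => hxt (e ▸ hvx)
  have hvns : ¬ ∀ l ∈ Kc p t, Commute v l := fun hh =>
    (h.eq_of_centralizes hK S ht htS hv hh).elim hv1 hvt
  push Not at hvns
  obtain ⟨l0, hl0, hvl⟩ := hvns
  have hvk : ¬ Commute v k := fun hc =>
    hvl (h.inf_centralizer_eq hK S ht htS hk hk1 hl0 (fun e => hvl (e ▸ Commute.one_right v)) hv hc)
  have htk : Commute t k := (mem_centralizer_singleton_iff.1 (Kc_le p t hk)).symm
  have hkx1 : k * x ≠ 1 := fun e => hxt (by
    rw [eq_inv_of_mul_eq_one_right e]; exact htk.inv_right)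
  obtain ⟨w, hw, hw1, hwx⟩ := hfix (k * x) ((P : Subgroup G).mul_mem (hP hk) hx) hkx1
  rcases h.mem_cases hK S ht htS hv hvt hv1 hw with e | e | e | e
  · exact hw1 e
  · subst e
    apply hxt
    have := htk.inv_right.mul_right hwx
    rwa [inv_mul_cancel_left] at this
  · subst e
    apply hvk
    have := hwx.mul_right hvx.inv_right
    rwa [mul_inv_cancel_right] at this
  · subst e
    have htt := Involutions.inv_eq_self ht
    have hvv : v⁻¹ = v := inv_eq_of_mul_eq_one_right (h.sq_eq_one_of_two S.2 hv)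
    have hvinv := h.inverts hK S ht htS hv hl0 hvl hk
    have e1 : (t * v) * (k * x) * (t * v)⁻¹ = k * x := mul_inv_eq_iff_eq_mul.2 hwx.eq
    have e2 : (t * v) * (k * x) * (t * v)⁻¹ = k⁻¹ * (t * x * t⁻¹) := by
      calc (t * v) * (k * x) * (t * v)⁻¹ = t * (v * k * v⁻¹) * t⁻¹ * (t * (v * x * v⁻¹) * t⁻¹) := by group
        _ = k⁻¹ * (t * x * t⁻¹) := by
          rw [hvinv, mul_inv_eq_iff_eq_mul.2 hvx.eq, mul_inv_eq_iff_eq_mul.2 htk.inv_right.eq]
    have e3 : t * x * t⁻¹ = k * (k * x) := by
      rw [e2] at e1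
      calc t * x * t⁻¹ = k * (k⁻¹ * (t * x * t⁻¹)) := by group
        _ = _ := by rw [e1]
    have e4 : t * (t * x * t⁻¹) * t⁻¹ = k * (k * (t * x * t⁻¹)) := by
      rw [e3]
      calc t * (k * (k * x)) * t⁻¹ = (t * k * t⁻¹) * ((t * k * t⁻¹) * (t * x * t⁻¹)) := by group
        _ = _ := by rw [mul_inv_eq_iff_eq_mul.2 htk.eq, e3]
    have htt2 := Involutions.mul_self_eq_one ht
    have e5 : x = k ^ 4 * x := by
      calc x = (t * t) * x * (t * t)⁻¹ := by rw [htt2, inv_one, one_mul, mul_one]
        _ = t * (t * x * t⁻¹) * t⁻¹ := by group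
        _ = k * (k * (k * (k * x))) := by rw [e4, e3]
        _ = k ^ 4 * x := by simp [pow_succ, mul_assoc]
    have h4 : k ^ 4 = 1 := by
      have : 1 * x = k ^ 4 * x := by rw [one_mul]; exact e5
      exact (mul_right_cancel this).symm
    have hd := orderOf_dvd_of_pow_eq_one h4
    rw [h.orderOf_of_isPGroup_p (Kc_isPGroup p t) hk hk1] at hd
    exact h.hp2 ((Nat.prime_dvd_prime_iff_eq h.hp Nat.prime_two).1 (h.hp.dvd_of_dvd_pow (n := 2) (by norm_num; exact hd)))

end TwoP

end CfsgLib.FewAutOrbits
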