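import Cfsg.Agent.Lib.FewAutOrbits.CentK
import Cfsg.Agent.Lib.FewAutOrbits.InvCentral
import Cfsg.Agent.Lib.FewAutOrbits.PSylow

/-!
A non-trivial `p`-core in the centraliser of an involution forces Sylow `2`-subgroups of order four.
-/

set_option autoImplicit false
set_option linter.unusedSectionVars false

open Subgroup Cfsg

namespace CfsgLib.FewAutOrbits.TwoP

universe u

variable {G : Type u} [Group G] [Finite G] {p r : ℕ} (h : TwoP G p r)
  (hK : ∀ t : G, orderOf t = 2 → Kc p t ≠ ⊥) (S : Sylow 2 G)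
include h hK

/-- Some element of the Sylow `2`-subgroup inverts the core. -/
theorem exists_inverter {t : G} (ht : orderOf t = 2) (htS : t ∈ (S : Subgroup G)) :
    ∃ s ∈ (S : Subgroup G), ∀ k ∈ Kc p t, k ≠ 1 → ¬ Commute s k := by
  classical
  by_contra! hall
  have := h.simple
  have hP : ∀ s ∈ (S : Subgroup G), ∀ k ∈ Kc p t, Commute s k := by
    intro s hs k hk
    obtain ⟨k₀, hk₀, hk₀1, hc⟩ := hall s hs
    rcases eq_or_ne k 1 with rfl | hk1
    · exact Commute.one_right s
    · exact h.inf_centralizer_eq hK S ht htS hk₀ hk₀1 hk hk1 hs hc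
  have hab : ∀ a b : G, a * t = t * a → b * t = t * b → a * b = b * a := by
    intro a b ha hb
    obtain ⟨k, hk, v, hv, rfl⟩ := h.exists_decomp hK S ht htS (mem_centralizer_singleton_iff.2 ha)
    obtain ⟨l, hl, w, hw, rfl⟩ := h.exists_decomp hK S ht htS (mem_centralizer_singleton_iff.2 hb)
    have c1 : Commute k l := h.Kc_comm hK ht hk hl
    have c2 : Commute v w := h.commute_of_two S.2 hv hw
    exact ((c1.mul_right (hP w hw k hk).symm).mul_left ((hP v hv l hl).mul_right c2)).eq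
  have habel : ∀ t' : G, orderOf t' = 2 → ∀ a b : G, a * t' = t' * a → b * t' = t' * b → a * b = b * a := by
    intro t' ht' a b ha hb
    obtain ⟨φ, rfl⟩ := h.trans t t' (ht.trans ht'.symm)
    obtain ⟨a, rfl⟩ := φ.surjective a
    obtain ⟨b, rfl⟩ := φ.surjective b
    rw [← map_mul, ← map_mul] at ha hb
    rw [← map_mul, ← map_mul, hab a b (φ.injective ha) (φ.injective hb)]
  obtain ⟨F, _, _, _, ⟨e⟩⟩ := iso_sl2_of_abelian h.nonab h.not_four_dvd habel
  obtain ⟨y, hy, hc⟩ := h.exists_p_of_two ht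
  have hy1 : e y = 1 := sl2_eq_one_of_commute (t := e t)
    (by rw [← map_pow, pow_two, Involutions.mul_self_eq_one ht, map_one])
    (fun e' => Involutions.ne_one ht (e.injective (e'.trans (map_one e).symm)))
    (hc.map e.toMonoidHom) (by rw [MulEquiv.orderOf_eq, hy]; exact h.hp.odd_of_ne_two h.hp2)
  rw [e.map_eq_one_iff.1 hy1, orderOf_one] at hy
  exact h.hp.one_lt.ne hy

/-- An element of the Sylow subgroup centralising the core is `1` or `t`. -/
theorem eq_of_centralizes {t v : G} (ht : orderOf t = 2) (htS : t ∈ (S : Subgroup G))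
    (hv : v ∈ (S : Subgroup G)) (hP : ∀ k ∈ Kc p t, Commute v k) : v = 1 ∨ v = t := by
  classical
  by_contra! hne
  obtain ⟨s, hs, hns⟩ := h.exists_inverter hK S ht htS
  obtain ⟨k₀, hk₀, hk₀1⟩ := ((Kc p t).bot_or_exists_ne_one).resolve_left (hK t ht)
  have hs1 : s ≠ 1 := fun e => hns k₀ hk₀ hk₀1 (e ▸ Commute.one_left k₀)
  have hs2 : orderOf s = 2 := (h.orderOf_of_isPGroup_two S.2 hs).resolve_left fun e => hs1 (orderOf_eq_one_iff.1 e)
  have htK : ∀ k ∈ Kc p t, Commute t k := fun k hk => (mem_centralizer_singleton_iff.1 (Kc_le p t hk)).symm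
  have hsK : ∀ k ∈ Kc p s, Commute s k := fun k hk => (mem_centralizer_singleton_iff.1 (Kc_le p s hk)).symm
  obtain ⟨w, hwS, hw1, hwt, hws⟩ : ∃ w ∈ (S : Subgroup G), w ≠ 1 ∧ (∀ k ∈ Kc p t, Commute w k) ∧
      (∀ k ∈ Kc p s, Commute w k) := by
    by_cases h1 : ∀ k ∈ Kc p s, Commute t k
    · exact ⟨t, htS, Involutions.ne_one ht, htK, h1⟩
    by_cases h2 : ∀ k ∈ Kc p s, Commute v k
    · exact ⟨v, hv, hne.1, hP, h2⟩
    push Not at h1 h2
    obtain ⟨k1, hk1, hc1⟩ := h1
    obtain ⟨k2, hk2, hc2⟩ := h2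
    refine ⟨t * v, (S : Subgroup G).mul_mem htS hv, fun e => hne.2 ?_, fun k hk => (htK k hk).mul_left (hP k hk),
      fun k hk => ?_⟩
    · rw [← inv_eq_of_mul_eq_one_right e, Involutions.inv_eq_self ht]
    · have e1 := h.inverts hK S hs2 hs hv hk2 hc2 hk
      have e2 := h.inverts hK S hs2 hs htS hk1 hc1 ((Kc p s).inv_mem hk)
      rw [inv_inv] at e2
      refine (mul_inv_eq_iff_eq_mul.1 ?_)
      calc t * v * k * (t * v)⁻¹ = t * (v * k * v⁻¹) * t⁻¹ := by group
        _ = k := by rw [e1, e2]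
  have hw2 : orderOf w = 2 := (h.orderOf_of_isPGroup_two S.2 hwS).resolve_left fun e => hw1 (orderOf_eq_one_iff.1 e)
  have hceq : ∀ t : G, orderOf t = 2 → t ∈ (S : Subgroup G) → (∀ k ∈ Kc p t, Commute w k) →
      centralizer ({t} : Set G) = centralizer ({w} : Set G) := by
    intro t ht htS hwt
    refine eq_of_le_of_card_ge ?_ (h.card_centralizer_eq (hw2.trans ht.symm)).le
    rw [← h.sup_eq hK S ht htS]
    exact sup_le (fun k hk => mem_centralizer_singleton_iff.2 (hwt k hk).eq.symm)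
      fun u hu => h.mem_centralizer_of_mem hK S hwS hu
  have hKeq : Kc p t = Kc p s := by
    have key : ∀ C D : Subgroup G, C = D → (pCore p C).map C.subtype = (pCore p D).map D.subtype := by
      rintro C _ rfl; rfl
    exact key _ _ ((hceq t ht htS hwt).trans (hceq s hs2 hs hws).symm)
  exact hns k₀ hk₀ hk₀1 (hsK k₀ (hKeq ▸ hk₀))

/-- The Sylow subgroup consists of four elements. -/
theorem mem_cases {t s v : G} (ht : orderOf t = 2) (htS : t ∈ (S : Subgroup G)) (hs : s ∈ (S : Subgroup G))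
    (hst : s ≠ t) (hs1 : s ≠ 1) (hv : v ∈ (S : Subgroup G)) : v = 1 ∨ v = t ∨ v = s ∨ v = t * s := by
  rcases eq_or_ne v 1 with e | hv1
  · exact Or.inl e
  rcases eq_or_ne v t with e | hvt
  · exact Or.inr (Or.inl e)
  have hns : ¬ ∀ k ∈ Kc p t, Commute s k := fun hh => (h.eq_of_centralizes hK S ht htS hs hh).elim hs1 hst
  have hnv : ¬ ∀ k ∈ Kc p t, Commute v k := fun hh => (h.eq_of_centralizes hK S ht htS hv hh).elim hv1 hvt
  push Not at hns hnv
  obtain ⟨k1, hk1, hc1⟩ := hns
  obtain ⟨k2, hk2, hc2⟩ := hnv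
  have hss : s * s = 1 := h.sq_eq_one_of_two S.2 hs
  have hmul : ∀ k ∈ Kc p t, Commute (v * s) k := fun k hk => by
    have e1 := h.inverts hK S ht htS hs hk1 hc1 hk
    have e2 := h.inverts hK S ht htS hv hk2 hc2 ((Kc p t).inv_mem hk)
    rw [inv_inv] at e2
    refine (mul_inv_eq_iff_eq_mul.1 ?_)
    calc v * s * k * (v * s)⁻¹ = v * (s * k * s⁻¹) * v⁻¹ := by group
      _ = k := by rw [e1, e2]
  rcases h.eq_of_centralizes hK S ht htS ((S : Subgroup G).mul_mem hv hs) hmul with e | e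
  · exact Or.inr (Or.inr (Or.inl ((eq_inv_of_mul_eq_one_left e).trans (inv_eq_of_mul_eq_one_right hss))))
  · refine Or.inr (Or.inr (Or.inr ?_))
    calc v = v * (s * s) := by rw [hss, mul_one]
      _ = t * s := by rw [← mul_assoc, e]

/-- The Sylow `2`-subgroup is self-centralising. -/
theorem mem_of_commute {t v g : G} (ht : orderOf t = 2) (htS : t ∈ (S : Subgroup G))
    (hv : v ∈ (S : Subgroup G)) (hv1 : v ≠ 1) (hvt : v ≠ t) (hgt : Commute t g) (hgv : Commute v g) :
    g ∈ (S : Subgroup G) := by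
  obtain ⟨k, hk, w, hw, rfl⟩ := h.exists_decomp hK S ht htS (mem_centralizer_singleton_iff.2 hgt.eq.symm)
  rcases eq_or_ne k 1 with rfl | hk1
  · simpa using hw
  exfalso
  have hvw : Commute v w := h.commute_of_two S.2 hv hw
  have hvk : Commute v k := by simpa using hgv.mul_right hvw.inv_right
  rcases h.eq_of_centralizes hK S ht htS hv
    (fun l hl => by
      rcases eq_or_ne l 1 with rfl | hl1
      · exact Commute.one_right v
      · exact h.inf_centralizer_eq hK S ht htS hk hk1 hl hl1 hv hvk) with e | e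
  · exact hv1 e
  · exact hvt e

omit S in
/-- Centralisers of elements of order `p` have Sylow `2`-subgroups of order two. -/
theorem card_two_le {y : G} (hy : orderOf y = p) (T : Subgroup G) (hT : IsPGroup 2 T)
    (hTC : T ≤ centralizer ({y} : Set G)) : Nat.card T ≤ 2 := by
  classical
  by_contra hlt
  have := Fintype.ofFinite T
  rw [Nat.card_eq_fintype_card] at hlt
  obtain ⟨a, ha, b, hb, hab⟩ := Finset.one_lt_card.1 (show 1 < (Finset.univ.erase (1 : T)).card by
    rw [Finset.card_erase_of_mem (Finset.mem_univ _), Finset.card_univ]; omega)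
  have ha1 : (a : G) ≠ 1 := fun e => Finset.ne_of_mem_erase ha (Subtype.ext e)
  have hb1 : (b : G) ≠ 1 := fun e => Finset.ne_of_mem_erase hb (Subtype.ext e)
  have ha2 : orderOf (a : G) = 2 := (h.orderOf_of_isPGroup_two hT a.2).resolve_left fun e => ha1 (orderOf_eq_one_iff.1 e)
  obtain ⟨S', hS'⟩ := hT.exists_le_sylow
  have hyS := h.mem_of_commute hK S' ha2 (hS' a.2) (hS' b.2) hb1 (fun e => hab (Subtype.ext e.symm))
    (mem_centralizer_singleton_iff.1 (hTC a.2)) (mem_centralizer_singleton_iff.1 (hTC b.2))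
  rcases h.orderOf_of_isPGroup_two S'.2 hyS with e | e <;> rw [hy] at e
  · exact h.hp.one_lt.ne' e
  · exact h.hp2 e

end CfsgLib.FewAutOrbits.TwoP
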