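import Cfsg.Agent.Lib.FewAutOrbits.Basic

/-!
Centralisers in groups with element orders `1, 2, p, r, 2p`.
-/

set_option autoImplicit false
set_option linter.unusedSectionVars false

open Subgroup Cfsg

namespace CfsgLib.FewAutOrbits

variable {G : Type*} [Group G]

/-- The `p`-core of the centraliser of `t`, inside `G`. -/
def Kc (p : ℕ) (t : G) : Subgroup G :=
  (pCore p (centralizer ({t} : Set G))).map (centralizer ({t} : Set G)).subtype

theorem Kc_le (p : ℕ) (t : G) : Kc p t ≤ centralizer ({t} : Set G) := map_subtype_le _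

theorem Kc_isPGroup (p : ℕ) (t : G) : IsPGroup p (Kc p t) := (Cores.isPGroup_pCore p _).map _

theorem le_Kc {p : ℕ} {t : G} {N : Subgroup G} (hN : N ≤ centralizer ({t} : Set G)) (hp : IsPGroup p N)
    (hn : ∀ c ∈ centralizer ({t} : Set G), ∀ a ∈ N, c * a * c⁻¹ ∈ N) : N ≤ Kc p t := by
  intro a ha
  have : (N.subgroupOf (centralizer ({t} : Set G))).Normal := ⟨fun b hb c => hn c c.2 b hb⟩
  exact ⟨⟨a, hN ha⟩, Cores.le_pCore (N := N.subgroupOf (centralizer ({t} : Set G))) (hp.comap_of_injective _ (subtype_injective _)) ha, rfl⟩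

theorem Kc_conj {p : ℕ} {t c a : G} (hc : c ∈ centralizer ({t} : Set G)) (ha : a ∈ Kc p t) :
    c * a * c⁻¹ ∈ Kc p t := by
  obtain ⟨a, ha, rfl⟩ := ha
  exact ⟨⟨c, hc⟩ * a * ⟨c, hc⟩⁻¹, (inferInstance : (pCore p (centralizer ({t} : Set G))).Normal).conj_mem a ha _, rfl⟩

/-- Automorphisms permute these subgroups. -/
theorem map_Kc (p : ℕ) (φ : MulAut G) (t : G) : (Kc p t).map φ.toMonoidHom = Kc p (φ t) := by
  have key : ∀ (φ : MulAut G) (t : G), (Kc p t).map φ.toMonoidHom ≤ Kc p (φ t) := by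
    intro φ t
    refine le_Kc ?_ ((Kc_isPGroup p t).map _) ?_
    · rw [← map_centralizer_autApply φ t]
      exact map_mono (Kc_le p t)
    · rintro c hc _ ⟨a, ha, rfl⟩
      refine ⟨φ.symm c * a * (φ.symm c)⁻¹, Kc_conj ((mem_centralizer_autApply φ).1 ?_) ha, by simp⟩
      rwa [φ.apply_symm_apply]
  refine le_antisymm (key φ t) fun a ha => ?_
  have := key φ.symm (φ t) ⟨a, ha, rfl⟩
  rw [φ.symm_apply_apply] at this
  exact ⟨φ.symm a, this, φ.apply_symm_apply a⟩

namespace TwoP

variable [Finite G] {p r : ℕ} (h : TwoP G p r)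
include h

theorem cent_primes {x : G} (hx : orderOf x = 2 ∨ orderOf x = p) {H : Subgroup G}
    (hH : H ≤ centralizer ({x} : Set G)) {q : ℕ} (hq : q.Prime) (hdvd : q ∣ Nat.card H) : q = 2 ∨ q = p := by
  have : Fact q.Prime := ⟨hq⟩
  obtain ⟨g, hg⟩ := exists_prime_orderOf_dvd_card' (G := H) q hdvd
  rw [← orderOf_coe] at hg
  rcases h.orders_centralizer hx (mem_centralizer_singleton_iff.1 (hH g.2)).symm with e | e | e | e <;>
    rw [hg] at e
  · exact absurd e hq.one_lt.ne'
  · exact Or.inl e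
  · exact Or.inr e
  · exact absurd (e ▸ hq) (Nat.not_prime_mul (by norm_num) h.hp.one_lt.ne')

/-- A `p`-subgroup of index two in a centraliser contains all elements of `p`-power order. -/
theorem mem_of_index_two {C P : Subgroup G} (hi : (P.subgroupOf C).index = 2) {a : G} (ha : a ∈ C)
    (hap : a ^ p = 1) : a ∈ P := by
  obtain ⟨k, hk⟩ : Odd p := h.hp.odd_of_ne_two h.hp2
  have h2 : ((⟨a, ha⟩ : C) ^ (k + 1)) ^ 2 ∈ P.subgroupOf C := Subgroup.sq_mem_of_index_two hi _
  have e : ((⟨a, ha⟩ : C) ^ (k + 1)) ^ 2 = ⟨a, ha⟩ := Subtype.ext (by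
    push_cast
    rw [← pow_mul, show (k + 1) * 2 = p + 1 by omega, pow_succ, hap, one_mul])
  rwa [e] at h2

theorem isPGroup_of_p_elements {H : Subgroup G} (hp : ∀ a ∈ H, a ^ p = 1) : IsPGroup p H :=
  fun a => ⟨1, Subtype.ext (by rw [pow_one]; exact hp a a.2)⟩

theorem pow_p_eq_one {P : Subgroup G} (hP : IsPGroup p P) {a : G} (ha : a ∈ P) : a ^ p = 1 := by
  rcases eq_or_ne a 1 with rfl | ha1
  · simp
  · exact h.orderOf_of_isPGroup_p hP ha ha1 ▸ pow_orderOf_eq_one a

/-- If the Sylow `2`-subgroups of the centraliser of `y` have order two, its Sylow `p`-subgroup has index two. -/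
theorem sylow_index_two {y : G} (hy : orderOf y = p)
    (h2 : ∀ T : Subgroup G, IsPGroup 2 T → T ≤ centralizer ({y} : Set G) → Nat.card T ≤ 2)
    {P : Subgroup G} (hP : IsPGroup p P) (hPC : P ≤ centralizer ({y} : Set G))
    (hmax : ∀ Q : Subgroup G, IsPGroup p Q → P ≤ Q → Q ≤ centralizer ({y} : Set G) → Q = P) :
    (P.subgroupOf (centralizer ({y} : Set G))).index = 2 := by
  classical
  have : Fact p.Prime := ⟨h.hp⟩
  have : Fact (Nat.Prime 2) := ⟨Nat.prime_two⟩
  set C := centralizer ({y} : Set G)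
  obtain ⟨Ps, hPs⟩ := (hP.comap_of_injective C.subtype C.subtype_injective).exists_le_sylow
  have hPsP : (Ps : Subgroup C) = P.subgroupOf C := by
    have h1 := hmax ((Ps : Subgroup C).map C.subtype) (Ps.2.map _) (fun a ha => ⟨⟨a, hPC ha⟩, hPs ha, rfl⟩)
      (map_subtype_le _)
    refine le_antisymm (fun c hc => ?_) hPs
    have : (c : G) ∈ P := h1 ▸ ⟨c, hc, rfl⟩
    exact this
  rw [← hPsP]
  obtain ⟨T⟩ : Nonempty (Sylow 2 C) := inferInstance
  have hT : Nat.card (T : Subgroup C) ≤ 2 := by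
    have := h2 ((T : Subgroup C).map C.subtype) (T.2.map _) (map_subtype_le _)
    rwa [card_map_of_injective C.subtype_injective] at this
  have hcard : (Ps : Subgroup C).index ∣ Nat.card (T : Subgroup C) := by
    have hT2 := T.card_eq_multiplicity
    have hP2 := Ps.card_eq_multiplicity
    have hidx := (Ps : Subgroup C).index_mul_card
    rw [hT2]
    have hnp := Ps.not_dvd_index
    have hne : (Ps : Subgroup C).index ≠ 0 := index_ne_zero_of_finite
    refine (Nat.factorization_le_iff_dvd hne (pow_ne_zero _ two_ne_zero)).1 fun q => ?_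
    rw [Nat.prime_two.factorization_pow, Finsupp.single_apply]
    by_cases hq : q.Prime
    · rcases eq_or_ne ((Ps : Subgroup C).index.factorization q) 0 with e | e
      · rw [e]; exact Nat.zero_le _
      · have hqd : q ∣ (Ps : Subgroup C).index := Nat.dvd_of_factorization_pos e
        have hqC : q ∣ Nat.card C := hqd.trans (Ps : Subgroup C).index_dvd_card
        rcases h.cent_primes (Or.inr hy) le_rfl hq hqC with rfl | rfl
        · rw [if_pos rfl]
          exact (Nat.factorization_le_iff_dvd hne Nat.card_pos.ne').2 (Ps : Subgroup C).index_dvd_card _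
        · exact absurd hqd hnp
    · rw [Nat.factorization_eq_zero_of_not_prime _ hq]; exact Nat.zero_le _
  obtain ⟨t, ht, hc⟩ := h.exists_two_of_p hy
  have h2d : 2 ∣ (Ps : Subgroup C).index := by
    have hdC : 2 ∣ Nat.card C := ht ▸ (orderOf_mk t (mem_centralizer_singleton_iff.2 hc.eq) ▸
      orderOf_dvd_natCard (⟨t, mem_centralizer_singleton_iff.2 hc.eq⟩ : C))
    rw [← (Ps : Subgroup C).index_mul_card] at hdC
    refine (Nat.prime_two.dvd_mul.1 hdC).resolve_right fun h' => ?_
    rw [Ps.card_eq_multiplicity] at h'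
    exact h.hp2 ((Nat.prime_dvd_prime_iff_eq Nat.prime_two h.hp).1 (Nat.prime_two.dvd_of_dvd_pow h')).symm
  have := Nat.le_of_dvd Nat.card_pos hcard
  have := Nat.le_of_dvd (Nat.pos_of_ne_zero index_ne_zero_of_finite) h2d
  omega

/-- Sylow `2`-subgroups of order two in centralisers make the centralisers `p`-closed. -/
theorem closed_of_cent
    (h2 : ∀ y : G, orderOf y = p → ∀ T : Subgroup G, IsPGroup 2 T → T ≤ centralizer ({y} : Set G) → Nat.card T ≤ 2)
    (y a b : G) (hy : orderOf y = p) (ha : Commute a y) (hb : Commute b y) (hap : a ^ p = 1) (hbp : b ^ p = 1) :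
    (a * b) ^ p = 1 := by
  have : Fact p.Prime := ⟨h.hp⟩
  set C := centralizer ({y} : Set G)
  obtain ⟨Ps⟩ : Nonempty (Sylow p C) := inferInstance
  set P := (Ps : Subgroup C).map C.subtype
  have hi := h.sylow_index_two hy (h2 y hy) (P := P) (Ps.2.map _) (map_subtype_le _) (fun Q hQ hle hQC => by
    refine le_antisymm (fun q hq => ⟨⟨q, hQC hq⟩, ?_, rfl⟩) hle
    rw [← Ps.3 (hQ.comap_of_injective C.subtype C.subtype_injective) (fun c hc => hle ⟨c, hc, rfl⟩)]
    exact hq)
  have haP := h.mem_of_index_two hi (mem_centralizer_singleton_iff.2 ha.eq) hap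
  have hbP := h.mem_of_index_two hi (mem_centralizer_singleton_iff.2 hb.eq) hbp
  exact h.pow_p_eq_one (Ps.2.map _) (P.mul_mem haP hbP)

end TwoP

end CfsgLib.FewAutOrbits
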