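import Cfsg.Agent.Lib.FewAutOrbits.CaseK
import Cfsg.Agent.Lib.FewAutOrbits.CaseTI
import Cfsg.Agent.Lib.FewAutOrbits.CaseCIT
import Cfsg.Agent.Lib.SmallSpectrum.Main

/-!
Simple groups with at most five orbits of automorphisms on elements.
-/

set_option autoImplicit false
set_option linter.unusedSectionVars false

open Subgroup Cfsg

namespace CfsgLib.FewAutOrbits

universe u

theorem classify {G : Type u} [Group G] [Finite G] [IsSimpleGroup G] (hna : ∃ a b : G, a * b ≠ b * a)
    (h5 : Nat.card (MulAction.orbitRel.Quotient (MulAut G) G) ≤ 5) : Small G := by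
  classical
  obtain ⟨hO, htrans⟩ := card_orders_le h5
  have hns : ¬ Group.IsSolvable G := fun hs => by
    obtain ⟨a, b, hab⟩ := hna
    exact hab (IsSimpleGroup.comm_iff_isSolvable.2 hs a b)
  by_cases hspec : ∀ g : G, orderOf g ≤ 5
  · rcases SmallSpectrum.Spec.good hspec hns with e | ⟨N, hN, hel, ⟨e⟩⟩
    · exact Or.inr (Or.inl e)
    · rcases hN.eq_bot_or_eq_top with rfl | rfl
      · exact Or.inl ⟨QuotientGroup.quotientBot.symm.trans e⟩
      · obtain ⟨a, b, hab⟩ := hna
        exact absurd (congrArg Subtype.val (hel.1.is_comm.comm ⟨a, mem_top a⟩ ⟨b, mem_top b⟩)) hab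
  by_cases hcit : CIT.IsCIT G
  · exact small_of_cit hna hcit hO
  -- an involution commuting with an element of odd prime order
  obtain ⟨t, q, y, ht, hq, hq2, hy, hty⟩ : ∃ (t : G) (q : ℕ) (y : G), orderOf t = 2 ∧ q.Prime ∧ q ≠ 2 ∧
      orderOf y = q ∧ Commute t y := by
    unfold CIT.IsCIT at hcit
    push Not at hcit
    obtain ⟨t, ht, hC⟩ := hcit
    by_contra hne
    push Not at hne
    refine hC (IsPGroup.of_card (n := (Nat.card (centralizer ({t} : Set G))).primeFactorsList.length)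
      (Nat.eq_prime_pow_of_unique_prime_dvd Nat.card_pos.ne' fun {d} hd hdd => ?_))
    by_contra hd2
    have : Fact d.Prime := ⟨hd⟩
    obtain ⟨y, hy⟩ := exists_prime_orderOf_dvd_card' (G := centralizer ({t} : Set G)) d hdd
    rw [← orderOf_coe] at hy
    exact hne t d y ht hd hd2 hy (mem_centralizer_singleton_iff.1 y.2).symm
  obtain ⟨p, r, hp, hr, hp2, hr2, hpr, hpd, hrd⟩ := two_odd_primes hna
  obtain ⟨s, hs, hs2, hsq, hsd⟩ : ∃ s : ℕ, s.Prime ∧ s ≠ 2 ∧ s ≠ q ∧ s ∣ Nat.card G := by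
    rcases eq_or_ne p q with e | e
    · exact ⟨r, hr, hr2, fun e' => hpr (e.trans e'.symm), hrd⟩
    · exact ⟨p, hp, hp2, e, hpd⟩
  have hmul : orderOf (t * y) = 2 * q := by
    rw [hty.orderOf_mul_eq_mul_orderOf_of_coprime (by
      rw [ht, hy]; exact (Nat.coprime_primes Nat.prime_two hq).2 (Ne.symm hq2)), ht, hy]
  have hq1 := hq.one_lt
  have hs1 := hs.one_lt
  have hs2q : s ≠ 2 * q := fun e => Nat.not_prime_mul (by norm_num) hq.one_lt.ne' (e ▸ hs)
  obtain ⟨-, hall⟩ := orders_of_five hO (s := {1, 2, q, s, 2 * q}) (fun d hd => by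
    simp only [Finset.mem_insert, Finset.mem_singleton] at hd
    rcases hd with rfl | rfl | rfl | rfl | rfl
    · exact ⟨1, orderOf_one⟩
    · exact ⟨t, ht⟩
    · exact ⟨y, hy⟩
    · exact exists_orderOf_prime hs hsd
    · exact ⟨_, hmul⟩)
  obtain ⟨hord, hfive⟩ := hall (card_five (by omega) (by omega) (by omega) hs2q)
  have h : TwoP G q s :=
    { simple := inferInstance
      nonab := hna
      hp := hq, hp2 := hq2, hr := hs, hr2 := hs2, hrp := hsq
      orders := fun g => by simpa using hord g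
      has2p := ⟨_, hmul⟩
      trans := htrans hfive }
  by_cases hK : ∀ u : G, orderOf u = 2 → Kc q u ≠ ⊥
  · exact Or.inl (Cfsg.Agent.S0494.result (h.card_eq_sixty hK))
  · push Not at hK
    obtain ⟨u₀, hu₀, hbot⟩ := hK
    refine (h.false_of_ti fun u hu => ?_).elim
    by_contra hne
    exact h.Kc_ne_bot hu hu₀ hne hbot

end CfsgLib.FewAutOrbits
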