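import Cfsg.Agent.Lib.FewAutOrbits.Basic
import Cfsg.Agent.Lib.SectRank.PSLTwoMain
import Cfsg.Agent.Lib.ClassicalLinear.Card
import Cfsg.Agent.Lib.CharTheory.Burnside
import Cfsg.Agent.S0205
import Cfsg.Agent.S0494
import Cfsg.Agent.S0497

/-!
At most five element orders: counting, and the groups `PSL₂(q)` with this property.
-/

set_option autoImplicit false
set_option linter.unusedSectionVars false

open Cfsg

namespace CfsgLib.FewAutOrbits

universe u

variable {G : Type u} [Group G] [Finite G]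

/-- The conclusion. -/
def Small (G : Type u) [Group G] : Prop :=
  Nonempty (G ≃* ↥(alternatingGroup (Fin 5))) ∨ Nonempty (G ≃* ↥(alternatingGroup (Fin 6))) ∨
    (∃ (F : Type) (_ : Field F) (_ : Fintype F), (Fintype.card F = 7 ∨ Fintype.card F = 8) ∧
      Nonempty (G ≃* Matrix.ProjectiveSpecialLinearGroup (Fin 2) F))

theorem orders_of_five (hO : (Set.range (orderOf : G → ℕ)).ncard ≤ 5) {s : Finset ℕ}
    (hs : ∀ n ∈ s, ∃ g : G, orderOf g = n) : s.card ≤ 5 ∧
    (s.card = 5 → (∀ g : G, orderOf g ∈ s) ∧ (Set.range (orderOf : G → ℕ)).ncard = 5) := by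
  have hsub : (s : Set ℕ) ⊆ Set.range (orderOf : G → ℕ) := fun n hn => hs n hn
  have hle : s.card ≤ (Set.range (orderOf : G → ℕ)).ncard := by
    rw [← Set.ncard_coe_finset]
    exact Set.ncard_le_ncard hsub (Set.finite_range _)
  refine ⟨hle.trans hO, fun h5 => ?_⟩
  have he : (s : Set ℕ) = Set.range (orderOf : G → ℕ) :=
    Set.eq_of_subset_of_ncard_le hsub (by rw [Set.ncard_coe_finset]; omega) (Set.finite_range _)
  refine ⟨fun g => Finset.mem_coe.1 (he ▸ ⟨g, rfl⟩), by omega⟩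

theorem exists_orderOf_dvd {g : G} {d : ℕ} (hd : d ∣ orderOf g) : ∃ x : G, orderOf x = d :=
  ⟨_, orderOf_pow_orderOf_div (orderOf_pos g).ne' hd⟩

theorem exists_orderOf_prime {p : ℕ} (hp : p.Prime) (hd : p ∣ Nat.card G) : ∃ x : G, orderOf x = p :=
  have : Fact p.Prime := ⟨hp⟩
  exists_prime_orderOf_dvd_card' p hd

/-- A non-abelian simple group has two odd prime divisors. -/
theorem two_odd_primes [IsSimpleGroup G] (hna : ∃ a b : G, a * b ≠ b * a) : ∃ p r : ℕ, p.Prime ∧ r.Prime ∧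
    p ≠ 2 ∧ r ≠ 2 ∧ p ≠ r ∧ p ∣ Nat.card G ∧ r ∣ Nat.card G := by
  obtain ⟨a, b, hab⟩ := hna
  have key : ∀ q : ℕ, q.Prime → ∃ p : ℕ, p.Prime ∧ p ≠ 2 ∧ p ≠ q ∧ p ∣ Nat.card G := by
    intro q hq
    by_contra hne
    push Not at hne
    refine hab (IsSimpleGroup.comm_iff_isSolvable.2 (CharTheory.isSolvable_of_card_dvd_pow_mul_pow 2 q
      ((Nat.card G).factorization 2) ((Nat.card G).factorization q) Nat.prime_two hq ?_) a b)
    refine (Nat.factorization_le_iff_dvd Nat.card_pos.ne' (mul_ne_zero (pow_ne_zero _ two_ne_zero)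
      (pow_ne_zero _ hq.ne_zero))).1 fun l => ?_
    rw [Nat.factorization_mul (pow_ne_zero _ two_ne_zero) (pow_ne_zero _ hq.ne_zero), Finsupp.add_apply,
      Nat.prime_two.factorization_pow, hq.factorization_pow, Finsupp.single_apply, Finsupp.single_apply]
    rcases eq_or_ne ((Nat.card G).factorization l) 0 with e | e
    · rw [e]; exact Nat.zero_le _
    · have hl : l.Prime := by
        by_contra hnp
        exact e (Nat.factorization_eq_zero_of_not_prime _ hnp)
      rcases eq_or_ne l 2 with rfl | hl2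
      · simp
      rcases eq_or_ne l q with rfl | hlq
      · simp
      exact absurd (Nat.dvd_of_factorization_pos e) (hne l hl hl2 hlq)
  obtain ⟨p, hp, hp2, -, hpd⟩ := key 2 Nat.prime_two
  obtain ⟨r, hr, hr2, hrp, hrd⟩ := key p hp
  exact ⟨p, r, hp, hr, hp2, hr2, hrp.symm, hpd, hrd⟩

theorem card_six {a b c d e f : ℕ} (hab : a < b) (hbc : b < c) (h1 : d ≠ a ∧ d ≠ b ∧ d ≠ c)
    (h2 : e ≠ a ∧ e ≠ b ∧ e ≠ c ∧ e ≠ d) (h3 : f ≠ a ∧ f ≠ b ∧ f ≠ c ∧ f ≠ d ∧ f ≠ e) :
    ({a, b, c, d, e, f} : Finset ℕ).card = 6 := by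
  repeat rw [Finset.card_insert_of_notMem (by simp only [Finset.mem_insert, Finset.mem_singleton]; omega)]
  rw [Finset.card_singleton]

theorem card_five {a b c d e : ℕ} (h1 : a ≠ b ∧ a ≠ c ∧ a ≠ d ∧ a ≠ e) (h2 : b ≠ c ∧ b ≠ d ∧ b ≠ e)
    (h3 : c ≠ d ∧ c ≠ e) (h4 : d ≠ e) : ({a, b, c, d, e} : Finset ℕ).card = 5 := by
  repeat rw [Finset.card_insert_of_notMem (by simp only [Finset.mem_insert, Finset.mem_singleton]; omega)]
  rw [Finset.card_singleton]

/-- `PSL₂(q)` with at most five element orders. -/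
theorem small_of_psl [IsSimpleGroup G] (hna : ∃ a b : G, a * b ≠ b * a)
    (hO : (Set.range (orderOf : G → ℕ)).ncard ≤ 5) {F : Type} [Field F] [Fintype F]
    (e : G ≃* Matrix.ProjectiveSpecialLinearGroup (Fin 2) F) : Small G := by
  classical
  set q := Fintype.card F with hq
  obtain ⟨p₀, _⟩ := CharP.exists F
  obtain ⟨⟨n, hn0⟩, hp₀, hqn⟩ := FiniteField.card F p₀
  change q = p₀ ^ n at hqn
  have hq2 : 2 ≤ q := Fintype.one_lt_card
  have hcard : Nat.gcd 2 (q - 1) * Nat.card G = q * (q ^ 2 - 1) := by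
    rw [Nat.card_congr e.toEquiv]; exact ClassicalLinear.card_PSL_two hq.symm
  obtain ⟨p, r, hp, hr, hp2, hr2, hpr, hpd, hrd⟩ := two_odd_primes hna
  have hmem : ∀ d m : ℕ, (m = q - 1 ∨ m = q + 1) → 3 ≤ m → d ∣ m / Nat.gcd 2 (q - 1) →
      ∃ g : G, orderOf g = d := by
    intro d m hm hm3 hd
    obtain ⟨g, hg⟩ := SectRank.PSLTwoRec.psl_exists_order (F := F) m (by rwa [Nat.card_eq_fintype_card]) hm3
    rw [Nat.card_eq_fintype_card] at hg
    exact exists_orderOf_dvd (g := e.symm g) ((e.symm.orderOf_eq g).symm ▸ hd.trans hg)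
  have h1mem : ∃ g : G, orderOf g = 1 := ⟨1, orderOf_one⟩
  have h2mem : ∃ g : G, orderOf g = 2 := by
    refine exists_orderOf_prime Nat.prime_two ?_
    by_contra hn2
    have hsol : Group.IsSolvable G := Cfsg.Agent.S0205.result (Nat.odd_iff.2 (by omega))
    obtain ⟨a, b, hab⟩ := hna
    exact hab (IsSimpleGroup.comm_iff_isSolvable.2 hsol a b)
  have hns : q ≠ 2 ∧ q ≠ 3 := by
    have key : ∀ c, Nat.card G = 2 ^ c * 3 → False := by
      intro c hc
      have h3 : ∀ l : ℕ, l.Prime → l ≠ 2 → l ∣ Nat.card G → l = 3 := by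
        intro l hl hl2 hd
        rw [hc] at hd
        rcases hl.dvd_mul.1 hd with h' | h'
        · exact absurd ((Nat.prime_dvd_prime_iff_eq hl Nat.prime_two).1 (hl.dvd_of_dvd_pow h')) hl2
        · exact (Nat.prime_dvd_prime_iff_eq hl Nat.prime_three).1 h'
      exact hpr ((h3 p hp hp2 hpd).trans (h3 r hr hr2 hrd).symm)
    constructor <;> intro e' <;> rw [e'] at hcard <;> norm_num at hcard
    · exact key 1 (by omega)
    · exact key 2 (by omega)
  have hsix : ∀ s : Finset ℕ, (∀ d ∈ s, ∃ g : G, orderOf g = d) → s.card = 6 → False := fun s hs h6 => by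
    have := (orders_of_five hO hs).1
    omega
  have hsixty : Nat.card G = 60 → Small G := fun h => Or.inl (Cfsg.Agent.S0494.result h)
  rcases eq_or_ne p₀ 2 with hp02 | hp02
  · -- even characteristic
    have hev : 2 ∣ q := by rw [hqn, hp02]; exact dvd_pow_self 2 (by omega)
    have hg : Nat.gcd 2 (q - 1) = 1 := by
      rw [← Nat.coprime_iff_gcd_eq_one, Nat.coprime_two_left, Nat.odd_iff]; omega
    rw [hg, one_mul] at hcard
    have h3q : ¬ 3 ∣ q := fun h3 => by
      rw [hqn, hp02] at h3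
      exact absurd (Nat.prime_three.dvd_of_dvd_pow h3) (by decide)
    have key : ∀ m m' : ℕ, (m = q - 1 ∧ m' = q + 1 ∨ m = q + 1 ∧ m' = q - 1) → 3 ∣ m → m = 3 ∨ m = 9 := by
      intro m m' hmm h3
      obtain ⟨k, rfl⟩ := h3
      by_contra hk
      push Not at hk
      have hm : 3 * k = q - 1 ∨ 3 * k = q + 1 := hmm.imp And.left And.left
      have hm' : m' = q - 1 ∨ m' = q + 1 := hmm.symm.imp And.right And.right
      have hk2 : 2 ≤ k ∧ ¬ 2 ∣ k ∧ 3 ≤ m' ∧ ¬ 3 ∣ m' := by omega
      refine hsix {1, 2, 3, k, 3 * k, m'} (fun d hd => ?_) (card_six (by norm_num) (by norm_num)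
        (by omega) (by omega) ⟨by omega, by omega, by omega, fun e' => ?_, by omega⟩)
      · simp only [Finset.mem_insert, Finset.mem_singleton] at hd
        rcases hd with rfl | rfl | rfl | rfl | rfl | rfl
        · exact h1mem
        · exact h2mem
        · exact hmem 3 _ hm (by omega) (by rw [hg, Nat.div_one]; exact dvd_mul_right 3 k)
        · exact hmem _ _ hm (by omega) (by rw [hg, Nat.div_one]; exact dvd_mul_left _ 3)
        · exact hmem _ _ hm (by omega) (by rw [hg, Nat.div_one])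
        · exact hmem _ _ hm' hk2.2.2.1 (by rw [hg, Nat.div_one])
      · -- a common divisor divides two
        have hd1 : m' ∣ q - 1 ∧ m' ∣ q + 1 := by
          rcases hmm with ⟨a, b⟩ | ⟨a, b⟩
          · exact ⟨e' ▸ a ▸ dvd_mul_left k 3, b ▸ dvd_rfl⟩
          · exact ⟨b ▸ dvd_rfl, e' ▸ a ▸ dvd_mul_left k 3⟩
        have := Nat.dvd_sub hd1.2 hd1.1
        rw [show q + 1 - (q - 1) = 2 by omega] at this
        have := Nat.le_of_dvd two_pos this
        omega
    have h49 : q = 4 ∨ q = 8 := by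
      by_cases h3 : 3 ∣ q - 1
      · rcases key _ _ (Or.inl ⟨rfl, rfl⟩) h3 with e' | e'
        · omega
        · exfalso
          have h5 : 5 ∣ q := by omega
          rw [hqn, hp02] at h5
          exact absurd ((by norm_num : Nat.Prime 5).dvd_of_dvd_pow h5) (by decide)
      · have h3' : 3 ∣ q + 1 := by
          rw [Nat.dvd_iff_mod_eq_zero] at h3 h3q ⊢
          clear * - h3 h3q hq2
          omega
        rcases key _ _ (Or.inr ⟨rfl, rfl⟩) h3' with e' | e' <;> omega
    rcases h49 with h' | h'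
    · exact hsixty (by rw [hcard, h']; norm_num)
    · exact Or.inr (Or.inr ⟨F, inferInstance, inferInstance, Or.inr h', ⟨e⟩⟩)
  · -- odd characteristic
    have hodd : q % 2 = 1 := by
      rw [hqn, ← Nat.odd_iff]; exact (hp₀.odd_of_ne_two hp02).pow
    have hg : Nat.gcd 2 (q - 1) = 2 := Nat.gcd_eq_left (by omega)
    rw [hg] at hcard
    rcases eq_or_ne q 5 with h5 | h5
    · exact hsixty (by rw [h5] at hcard; omega)
    have hp0q : p₀ ∣ q := hqn ▸ dvd_pow_self p₀ (by omega)
    have hp0mem : ∃ g : G, orderOf g = p₀ := by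
      refine exists_orderOf_prime hp₀ ?_
      have h' : p₀ ∣ 2 * Nat.card G := hcard ▸ hp0q.mul_right _
      exact (hp₀.dvd_mul.1 h').resolve_left fun h'' => hp02 ((Nat.prime_dvd_prime_iff_eq hp₀ Nat.prime_two).1 h'')
    have hp3 : 3 ≤ p₀ := lt_of_le_of_ne hp₀.two_le (Ne.symm hp02)
    have hnd : ∀ d : ℕ, p₀ ∣ d → d ∣ q - 1 ∨ d ∣ q + 1 → False := by
      intro d hd hdd
      have h1 : p₀ ∣ 1 := by
        rcases hdd with h' | h'
        · have := Nat.dvd_sub hp0q (hd.trans h')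
          rwa [show q - (q - 1) = 1 by omega] at this
        · have := Nat.dvd_sub (hd.trans h') hp0q
          rwa [show q + 1 - q = 1 by omega] at this
      exact hp₀.not_dvd_one h1
    have key : ∀ k o : ℕ, (2 * (2 * k) = q - 1 ∧ 2 * o = q + 1) ∨ (2 * (2 * k) = q + 1 ∧ 2 * o = q - 1) →
        k = 2 := by
      intro k o hko
      by_contra hk
      have hk' : 2 ≤ k ∧ 3 ≤ o ∧ o % 2 = 1 := by omega
      have hE : 2 * (2 * k) = q - 1 ∨ 2 * (2 * k) = q + 1 := hko.imp And.left And.left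
      have hOo : 2 * o = q - 1 ∨ 2 * o = q + 1 := hko.symm.imp And.right And.right
      have h1 : p₀ ≠ k ∧ p₀ ≠ 2 * k ∧ p₀ ≠ o := by
        refine ⟨fun e' => ?_, fun e' => ?_, fun e' => ?_⟩
        · exact hnd (2 * (2 * k)) (by rw [e']; exact ⟨4, by ring⟩) (hE.imp (fun a => a ▸ dvd_rfl) (fun a => a ▸ dvd_rfl))
        · exact hnd (2 * (2 * k)) (by rw [e']; exact dvd_mul_left _ 2) (hE.imp (fun a => a ▸ dvd_rfl) (fun a => a ▸ dvd_rfl))
        · exact hnd (2 * o) (by rw [e']; exact dvd_mul_left _ 2) (hOo.imp (fun a => a ▸ dvd_rfl) (fun a => a ▸ dvd_rfl))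
      refine hsix {1, 2, p₀, o, 2 * k, k} (fun d hd => ?_) (card_six (by norm_num) (by omega)
        (by omega) (by omega) ⟨by omega, by omega, by omega, by omega, by omega⟩)
      simp only [Finset.mem_insert, Finset.mem_singleton] at hd
      rcases hd with rfl | rfl | rfl | rfl | rfl | rfl
      · exact h1mem
      · exact h2mem
      · exact hp0mem
      · exact hmem _ (2 * d) hOo (by omega) (by rw [hg, Nat.mul_div_cancel_left _ two_pos])
      · exact hmem _ (2 * (2 * k)) hE (by omega) (by rw [hg, Nat.mul_div_cancel_left _ two_pos])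
      · exact hmem _ (2 * (2 * d)) hE (by omega)
          (by rw [hg, Nat.mul_div_cancel_left _ two_pos]; exact dvd_mul_left d 2)
    have h79 : q = 7 ∨ q = 9 := by
      by_cases h4 : 4 ∣ q - 1
      · obtain ⟨k, hk⟩ := h4
        have := key k (2 * k + 1) (Or.inl ⟨by omega, by omega⟩)
        omega
      · obtain ⟨k, hk⟩ : ∃ k, q + 1 = 4 * k := ⟨(q + 1) / 4, by omega⟩
        have := key k (2 * k - 1) (Or.inr ⟨by omega, by omega⟩)
        omega
    rcases h79 with h' | h'
    · exact Or.inr (Or.inr ⟨F, inferInstance, inferInstance, Or.inl h', ⟨e⟩⟩)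
    · exact Or.inr (Or.inl (Cfsg.Agent.S0497.result (by rw [h'] at hcard; omega)))

end CfsgLib.FewAutOrbits
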