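import Cfsg.Agent.Lib.FewAutOrbits.Basic
import Cfsg.Agent.Lib.Cores.Fitting
import Cfsg.Agent.Lib.CharTheory.Burnside

/-!
Auxiliary facts for the trivial intersection case.
-/

set_option autoImplicit false
set_option linter.unusedSectionVars false

open Subgroup Cfsg

namespace CfsgLib.FewAutOrbits

universe u v

/-- An involution without fixed points on a finite subgroup it normalises inverts it. -/
theorem inverts_of_fpf {G : Type u} [Group G] [Finite G] {u : G} (hu : u * u = 1) (R : Subgroup G)
    (hn : ∀ x ∈ R, u * x * u⁻¹ ∈ R) (hf : ∀ x ∈ R, u * x * u⁻¹ = x → x = 1) {y : G} (hy : y ∈ R) :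
    u * y * u⁻¹ = y⁻¹ := by
  have hinj : Function.Injective (fun x : R => (⟨(x : G)⁻¹ * (u * x * u⁻¹),
      R.mul_mem (R.inv_mem x.2) (hn x x.2)⟩ : R)) := by
    intro a b hab
    have h' : (a : G)⁻¹ * (u * a * u⁻¹) = (b : G)⁻¹ * (u * b * u⁻¹) := congrArg Subtype.val hab
    refine Subtype.ext (mul_inv_eq_one.1 (hf _ (R.mul_mem b.2 (R.inv_mem a.2)) ?_)).symm
    calc u * ((b : G) * (a : G)⁻¹) * u⁻¹
        = (b : G) * ((b : G)⁻¹ * (u * b * u⁻¹)) * ((a : G)⁻¹ * (u * a * u⁻¹))⁻¹ * (a : G)⁻¹ := by group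
      _ = (b : G) * (a : G)⁻¹ := by rw [← h']; group
  obtain ⟨x, hx⟩ := (Finite.injective_iff_surjective.1 hinj) ⟨y, hy⟩
  have hx' : (x : G)⁻¹ * (u * x * u⁻¹) = y := congrArg Subtype.val hx
  rw [← hx']
  calc u * ((x : G)⁻¹ * (u * x * u⁻¹)) * u⁻¹ = u * (x : G)⁻¹ * u⁻¹ * ((u * u) * x * (u * u)⁻¹) := by group
    _ = ((x : G)⁻¹ * (u * x * u⁻¹))⁻¹ := by rw [hu]; group

/-- `2 ^ a - 1` is a prime power only with exponent at most one. -/
theorem exponent_le_one {r a j : ℕ} (ha : 2 ≤ a) (hr : Odd r) (h : r ^ j + 1 = 2 ^ a) : j ≤ 1 := by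
  by_contra hj
  rcases Nat.even_or_odd j with ⟨i, rfl⟩ | ⟨i, rfl⟩
  · obtain ⟨l, hl⟩ := hr.pow (n := i)
    obtain ⟨b, rfl⟩ : ∃ b, a = b + 2 := ⟨a - 2, by omega⟩
    rw [pow_add r i i, hl, pow_add] at h
    generalize 2 ^ b = B at h
    ring_nf at h
    omega
  · -- an odd exponent
    have key : ∀ i : ℕ, ∀ x : ℤ, ∃ c : ℤ, (x - 1) ^ (2 * i + 1) + 1 = (2 * i + 1) * x + c * x ^ 2 := by
      intro i x
      induction i with
      | zero => exact ⟨0, by ring⟩
      | succ i ih =>
        obtain ⟨c, hc⟩ := ih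
        refine ⟨c * (x - 1) ^ 2 + (2 * i + 1) * (x - 2) - 1, ?_⟩
        have e : (x - 1) ^ (2 * (i + 1) + 1) = (x - 1) ^ (2 * i + 1) * (x - 1) ^ 2 := by
          rw [← pow_add]; ring_nf
        rw [e, eq_sub_of_add_eq hc]
        push_cast
        ring
    obtain ⟨b, hb, hb'⟩ : ∃ b, b ≤ a ∧ r + 1 = 2 ^ b := by
      refine (Nat.dvd_prime_pow Nat.prime_two).1 (h ▸ ?_)
      simpa using (show Odd (2 * i + 1) from ⟨i, rfl⟩).nat_add_dvd_pow_add_pow r 1
    obtain ⟨c, hc⟩ := key i ((2 : ℤ) ^ b)
    have h' : ((r : ℤ)) ^ (2 * i + 1) + 1 = 2 ^ a := by exact_mod_cast h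
    have hr' : (r : ℤ) = 2 ^ b - 1 := by
      have : ((r : ℤ)) + 1 = 2 ^ b := by exact_mod_cast hb'
      linarith
    rw [← hr', h'] at hc
    rcases eq_or_lt_of_le hb with e | e
    · have hlt : r ^ 1 < r ^ (2 * i + 1) := by
        refine Nat.pow_lt_pow_right ?_ (by omega)
        by_contra hr1
        interval_cases r
        · exact absurd hr (by decide)
        · rw [one_pow] at h
          have : 2 ^ 2 ≤ 2 ^ a := Nat.pow_le_pow_right two_pos ha
          omega
      rw [pow_one] at hlt
      rw [← e] at h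
      omega
    · obtain ⟨d, rfl⟩ : ∃ d, a = b + (d + 1) := ⟨a - b - 1, by omega⟩
      have h2 : (2 : ℤ) ^ (d + 1) = (2 * i + 1) + c * 2 ^ b := by
        refine mul_left_cancel₀ (pow_ne_zero b (two_ne_zero (α := ℤ))) ?_
        rw [← pow_add]
        linear_combination hc
      have hb1 : 1 ≤ b := by
        by_contra hb0
        rw [show b = 0 by omega] at hb'
        obtain ⟨l, hl⟩ := hr
        omega
      obtain ⟨b', rfl⟩ : ∃ b', b = b' + 1 := ⟨b - 1, by omega⟩
      rw [pow_succ, pow_succ] at h2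
      generalize (2 : ℤ) ^ d = A, c * 2 ^ b' = B at h2
      have : (2 : ℤ) * (A - i - c * 2 ^ b') = 1 := by linear_combination h2
      omega

/-- A group of order prime to `2` with element orders `1, p, r` acting faithfully and transitively on `r`
points: non-trivial elements fix at most one point and point stabilisers have order dividing `p`. -/
theorem prime_degree {L : Type u} [Group L] [Finite L] {X : Type v} [MulAction L X] [FaithfulSMul L X]
    [Finite X] [MulAction.IsPretransitive L X] {p r : ℕ} (hp : p.Prime) (hr : r.Prime) (hpr : r ≠ p)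
    (hX : Nat.card X = r) (hord : ∀ g : L, orderOf g = 1 ∨ orderOf g = p ∨ orderOf g = r) :
    (∀ (g : L) (x y : X), x ≠ y → g • x = x → g • y = y → g = 1) ∧
      (∀ x : X, Nat.card (MulAction.stabilizer L x) ∣ p) := by
  classical
  have : Fact p.Prime := ⟨hp⟩
  have : Fact r.Prime := ⟨hr⟩
  have hsol : Group.IsSolvable L := CharTheory.isSolvable_of_card_dvd_pow_mul_pow p r
    ((Nat.card L).factorization p) ((Nat.card L).factorization r) hp hr (by
    refine (Nat.factorization_le_iff_dvd Nat.card_pos.ne' (mul_ne_zero (pow_ne_zero _ hp.ne_zero)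
      (pow_ne_zero _ hr.ne_zero))).1 fun q => ?_
    rw [Nat.factorization_mul (pow_ne_zero _ hp.ne_zero) (pow_ne_zero _ hr.ne_zero), Finsupp.add_apply,
      hp.factorization_pow, hr.factorization_pow, Finsupp.single_apply, Finsupp.single_apply]
    rcases eq_or_ne ((Nat.card L).factorization q) 0 with e | e
    · rw [e]; exact Nat.zero_le _
    · have hq : q.Prime := by
        by_contra hnp
        exact e (Nat.factorization_eq_zero_of_not_prime _ hnp)
      have : Fact q.Prime := ⟨hq⟩
      obtain ⟨g, hg⟩ := exists_prime_orderOf_dvd_card' (G := L) q (Nat.dvd_of_factorization_pos e)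
      rcases hord g with e' | e' | e' <;> rw [hg] at e'
      · exact absurd e' hq.one_lt.ne'
      · subst e'; simp
      · subst e'; simp)
  have hXne : Nonempty X := by
    by_contra hne
    rw [not_nonempty_iff] at hne
    rw [Nat.card_of_isEmpty] at hX
    exact hr.ne_zero hX.symm
  obtain ⟨x₀⟩ := hXne
  have hfix : ∀ (Q : Subgroup L), Q.Normal → (∃ x : X, ∀ g ∈ Q, g • x = x) → Q = ⊥ := by
    rintro Q hQn ⟨x, hx⟩
    refine eq_bot_iff.2 fun g hg => mem_bot.2 (eq_of_smul_eq_smul (α := X) fun y => ?_)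
    obtain ⟨l, rfl⟩ := MulAction.exists_smul_eq L x y
    rw [one_smul, smul_smul, show g * l = l * (l⁻¹ * g * l) by group, mul_smul]
    have := hQn.conj_mem g hg l⁻¹
    rw [inv_inv] at this
    rw [hx _ this]
  have hP0 : pCore p L = ⊥ := by
    refine hfix _ inferInstance ?_
    obtain ⟨x, hx⟩ := (Cores.isPGroup_pCore p L).nonempty_fixed_point_of_prime_not_dvd_card X (by
      rw [hX]
      exact fun hd => hpr ((Nat.prime_dvd_prime_iff_eq hp hr).1 hd).symm)
    exact ⟨x, fun g hg => hx ⟨g, hg⟩⟩
  set N := pCore r L with hNdef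
  have hNne : N ≠ ⊥ := by
    intro hN
    have : Nontrivial L := by
      by_contra hn
      rw [not_nontrivial_iff_subsingleton] at hn
      have hall : ∀ y : X, y = x₀ := fun y => by
        obtain ⟨l, rfl⟩ := MulAction.exists_smul_eq L x₀ y
        rw [Subsingleton.elim l 1, one_smul]
      have h1 : Nat.card X = 1 := Nat.card_eq_one_iff_unique.2 ⟨⟨fun a b => (hall a).trans (hall b).symm⟩, ⟨x₀⟩⟩
      rw [hX] at h1
      exact hr.one_lt.ne' h1
    apply Cores.fittingSubgroup_ne_bot (G := L)
    rw [Cores.fittingSubgroup_eq_iSup_pCore, iSup_eq_bot]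
    intro q
    have hq := Nat.prime_of_mem_primeFactors q.2
    have : Fact (q : ℕ).Prime := ⟨hq⟩
    obtain ⟨g, hg⟩ := exists_prime_orderOf_dvd_card' (G := L) (q : ℕ) (Nat.dvd_of_mem_primeFactors q.2)
    rcases hord g with e | e | e <;> rw [hg] at e
    · exact absurd e hq.one_lt.ne'
    · rw [e]; exact hP0
    · rw [e]; exact hN
  have hNp : IsPGroup r N := Cores.isPGroup_pCore r L
  have hcardN : Nat.card N = r := by
    obtain ⟨k, hk⟩ := IsPGroup.iff_card.1 hNp
    have hdvd : Nat.card N ∣ r.factorial := by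
      let f : N →* Equiv.Perm X := MulAction.toPermHom N X
      have hf : Function.Injective f := fun a b hab =>
        eq_of_smul_eq_smul (α := X) fun y => Equiv.congr_fun hab y
      have := card_dvd_of_injective f hf
      rwa [Nat.card_perm, hX] at this
    rw [hk] at hdvd ⊢
    rcases k with _ | _ | k
    · exact absurd (card_eq_one.1 (by simpa using hk)) hNne
    · simp
    · exfalso
      have h2 : r * r ∣ r * (r - 1).factorial := by
        rw [Nat.mul_factorial_pred hr.ne_zero, ← pow_two]
        exact (pow_dvd_pow r (show 2 ≤ k + 2 by omega)).trans hdvd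
      have := (hr.dvd_factorial).1 (Nat.dvd_of_mul_dvd_mul_left hr.pos h2)
      have := hr.two_le
      omega
  have hNtrans : ∀ x y : X, ∃ n ∈ N, n • x = y := by
    intro x y
    have hfree : ∀ n : N, n • x = x → n = 1 := by
      intro n hn
      by_contra hn1
      have htop : zpowers n = ⊤ := (zpowers n).eq_top_of_card_eq (by
        rw [Nat.card_zpowers, hcardN]
        rcases (Nat.dvd_prime hr).1 (hcardN ▸ orderOf_dvd_natCard n) with e | e
        · exact absurd (orderOf_eq_one_iff.1 e) hn1
        · exact e)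
      refine hNne (hfix N inferInstance ⟨x, fun g hg => ?_⟩)
      have hmem : (⟨g, hg⟩ : N) ∈ zpowers n := htop ▸ mem_top _
      exact (MulAction.stabilizer N x).zpowers_le.2 (MulAction.mem_stabilizer_iff.2 hn) hmem
    have hinj : Function.Injective (fun n : N => n • x) := by
      intro a b hab
      have h1 : (b⁻¹ * a) • x = x := by rw [mul_smul, show a • x = b • x from hab, inv_smul_smul]
      exact (inv_mul_eq_one.1 (hfree _ h1)).symm
    obtain ⟨n, hn⟩ := (hinj.bijective_of_nat_card_le (by rw [hX, hcardN])).2 y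
    exact ⟨n, n.2, hn⟩
  have hNfree : ∀ (n : L) (x : X), n ∈ N → n • x = x → n = 1 := by
    intro n x hn hx
    have hinj : Function.Bijective (fun m : N => m • x) :=
      (show Function.Surjective (fun m : N => m • x) from fun y => by
        obtain ⟨m, hm, e⟩ := hNtrans x y
        exact ⟨⟨m, hm⟩, e⟩).bijective_of_nat_card_le (by rw [hX, hcardN])
    exact congrArg Subtype.val (hinj.1 (show (⟨n, hn⟩ : N) • x = (1 : N) • x by rw [one_smul]; exact hx))
  have hcomm : ∀ (g : L) (x : X), g • x = x → ∀ n ∈ N, g * n * g⁻¹ = n → n ≠ 1 → g = 1 := by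
    intro g x hx n hn hgn hn1
    refine eq_of_smul_eq_smul (α := X) fun y => ?_
    obtain ⟨m, hm, rfl⟩ := hNtrans x y
    have hgen : m ∈ zpowers n := by
      have htop : zpowers (⟨n, hn⟩ : N) = ⊤ := (zpowers _).eq_top_of_card_eq (by
        rw [Nat.card_zpowers, hcardN]
        rcases (Nat.dvd_prime hr).1 (hcardN ▸ orderOf_dvd_natCard (⟨n, hn⟩ : N)) with e | e
        · exact absurd (congrArg Subtype.val (orderOf_eq_one_iff.1 e)) hn1
        · exact e)
      obtain ⟨z, hz⟩ := mem_zpowers_iff.1 (htop ▸ mem_top (⟨m, hm⟩ : N) : (⟨m, hm⟩ : N) ∈ zpowers (⟨n, hn⟩ : N))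
      exact ⟨z, by simpa using congrArg Subtype.val hz⟩
    obtain ⟨z, rfl⟩ := hgen
    have hc : Commute g n := mul_inv_eq_iff_eq_mul.1 hgn
    rw [one_smul, smul_smul, (hc.zpow_right z).eq, mul_smul, hx]
  refine ⟨fun g x y hxy hgx hgy => ?_, fun x => ?_⟩
  · obtain ⟨n, hn, rfl⟩ := hNtrans x y
    have hn1 : n ≠ 1 := fun e => hxy (by rw [e, one_smul])
    have hgn : g * n * g⁻¹ ∈ N := (inferInstance : N.Normal).conj_mem n hn g
    have hgx' : g⁻¹ • x = x := inv_smul_eq_iff.2 hgx.symm
    have h1 : (n⁻¹ * (g * n * g⁻¹)) • x = x := by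
      rw [mul_smul, mul_smul, mul_smul, hgx', hgy, inv_smul_smul]
    have h2 := hNfree _ x (N.mul_mem (N.inv_mem hn) hgn) h1
    exact hcomm g x hgx n hn (inv_mul_eq_one.1 h2).symm hn1
  · obtain ⟨n, hn, hn1⟩ := (N.bot_or_exists_ne_one).resolve_left hNne
    let f : MulAction.stabilizer L x →* MulAut N :=
      (MulAut.conjNormal (H := N)).comp (MulAction.stabilizer L x).subtype
    have hf : Function.Injective f := by
      rw [← MonoidHom.ker_eq_bot_iff, eq_bot_iff]
      intro g hg
      have e : f g ⟨n, hn⟩ = ⟨n, hn⟩ := by rw [MonoidHom.mem_ker.1 hg]; rfl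
      exact mem_bot.2 (Subtype.ext (hcomm g x g.2 n hn (congrArg Subtype.val e) hn1))
    have : IsCyclic N := isCyclic_of_prime_card hcardN
    have : IsCyclic (MulAut N) := by
      have e := (IsCyclic.mulAutMulEquiv N)
      rw [hcardN] at e
      have := ZMod.isCyclic_units_prime hr
      exact isCyclic_of_surjective e.symm.toMonoidHom e.symm.surjective
    have hcyc : IsCyclic (MulAction.stabilizer L x) := isCyclic_of_injective f hf
    obtain ⟨g, hg⟩ := hcyc.exists_generator
    rw [← orderOf_eq_card_of_forall_mem_zpowers hg, ← orderOf_coe]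
    rcases hord (g : L) with e | e | e
    · rw [e]; exact one_dvd _
    · rw [e]
    · exfalso
      -- an element of order `r` commutes with the regular normal subgroup
      have hgN : (g : L) ∈ N := by
        have h3 : IsPGroup r ↥(zpowers (g : L) ⊔ N) :=
          (IsPGroup.of_card (n := 1) (by rw [Nat.card_zpowers, e, pow_one])).to_sup_of_normal_right hNp
        have h4 : zpowers (g : L) ⊔ N = N := by
          refine (eq_of_le_of_card_ge le_sup_right ?_).symm
          obtain ⟨k, hk⟩ := IsPGroup.iff_card.1 h3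
          have hdvd : Nat.card ↥(zpowers (g : L) ⊔ N) ∣ r.factorial := by
            let f2 : ↥(zpowers (g : L) ⊔ N) →* Equiv.Perm X := MulAction.toPermHom _ X
            have hf2 : Function.Injective f2 := fun a b hab =>
              eq_of_smul_eq_smul (α := X) fun y => Equiv.congr_fun hab y
            have := card_dvd_of_injective f2 hf2
            rwa [Nat.card_perm, hX] at this
          rw [hk] at hdvd ⊢
          rw [hcardN]
          rcases k with _ | _ | k
          · simpa using hr.one_lt.le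
          · simp
          · exfalso
            have h2 : r * r ∣ r * (r - 1).factorial := by
              rw [Nat.mul_factorial_pred hr.ne_zero, ← pow_two]
              exact (pow_dvd_pow r (show 2 ≤ k + 2 by omega)).trans hdvd
            have := (hr.dvd_factorial).1 (Nat.dvd_of_mul_dvd_mul_left hr.pos h2)
            have := hr.two_le
            omega
        exact h4 ▸ mem_sup_left (mem_zpowers (g : L))
      have h5 := hNfree _ x hgN g.2
      rw [h5, orderOf_one] at e
      exact hr.one_lt.ne e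

end CfsgLib.FewAutOrbits
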