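import Cfsg.Agent.Lib.FewAutOrbits.Local
import Cfsg.Agent.Lib.FewAutOrbits.InvCentral
import Cfsg.Agent.Lib.FewAutOrbits.TIBase

/-!
Trivial `p`-cores in all involution centralisers: the Sylow `2`-subgroups are trivial intersection sets
and elements of order `p` are not real.
-/

set_option autoImplicit false
set_option linter.unusedSectionVars false

open Subgroup Cfsg

namespace CfsgLib.FewAutOrbits.TwoP

universe u

variable {G : Type u} [Group G] [Finite G] {p r : ℕ} (h : TwoP G p r)
  (hK : ∀ t : G, orderOf t = 2 → Kc p t = ⊥)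
include h hK

theorem fitting_le (S : Sylow 2 G) {t : G} (ht : orderOf t = 2) (htS : t ∈ (S : Subgroup G)) :
    (S : Subgroup G) ≤ centralizer ({t} : Set G) ∧
    ((S : Subgroup G).subgroupOf (centralizer ({t} : Set G))).Normal ∧
    ∀ c ∈ centralizer ({t} : Set G), (∀ v ∈ (S : Subgroup G), c * v = v * c) → c ∈ (S : Subgroup G) := by
  classical
  have : Fact (Nat.Prime 2) := ⟨Nat.prime_two⟩
  set C := centralizer ({t} : Set G) with hC
  have hSC : (S : Subgroup G) ≤ C := fun v hv => mem_centralizer_singleton_iff.2 (h.commute_of_two S.2 hv htS)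
  have hsol : Group.IsSolvable C := CharTheory.isSolvable_of_card_dvd_pow_mul_pow 2 p
    ((Nat.card C).factorization 2) ((Nat.card C).factorization p) Nat.prime_two h.hp (by
    refine (Nat.factorization_le_iff_dvd Nat.card_pos.ne' (mul_ne_zero (pow_ne_zero _ two_ne_zero)
      (pow_ne_zero _ h.hp.ne_zero))).1 fun q => ?_
    rw [Nat.factorization_mul (pow_ne_zero _ two_ne_zero) (pow_ne_zero _ h.hp.ne_zero), Finsupp.add_apply,
      Nat.prime_two.factorization_pow, h.hp.factorization_pow, Finsupp.single_apply, Finsupp.single_apply]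
    rcases eq_or_ne ((Nat.card C).factorization q) 0 with e | e
    · rw [e]; exact Nat.zero_le _
    · have hq : q.Prime := by
        by_contra hnp
        exact e (Nat.factorization_eq_zero_of_not_prime _ hnp)
      rcases h.cent_primes (Or.inl ht) le_rfl hq (Nat.dvd_of_factorization_pos e) with e' | e'
      · subst e'; simp
      · subst e'; simp)
  set T : Sylow 2 C := S.subtype hSC with hT
  have hFT : fittingSubgroup C ≤ T := by
    rw [Cores.fittingSubgroup_eq_iSup_pCore]
    refine iSup_le fun q => ?_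
    have hq := Nat.prime_of_mem_primeFactors q.2
    rcases h.cent_primes (Or.inl ht) le_rfl hq (Nat.dvd_of_mem_primeFactors q.2) with e | e
    · rw [e]; exact Cores.pCore_le_sylow T
    · rw [e]
      have h0 := hK t ht
      rw [Kc, map_eq_bot_iff_of_injective _ C.subtype_injective] at h0
      rw [h0]; exact bot_le
  have hTF : (T : Subgroup C) = fittingSubgroup C := by
    refine le_antisymm (fun c hc => Cores.centralizer_fittingSubgroup_le (mem_centralizer_iff.2 fun a ha => ?_)) hFT
    exact Subtype.ext (h.commute_of_two S.2 (hFT ha) hc)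
  refine ⟨hSC, ?_, fun c hc hcv => ?_⟩
  · show (T : Subgroup C).Normal
    rw [hTF]; infer_instance
  · have hcF : (⟨c, hc⟩ : C) ∈ fittingSubgroup C :=
      Cores.centralizer_fittingSubgroup_le (mem_centralizer_iff.2 fun a ha => Subtype.ext (hcv a (hFT ha)).symm)
    exact hFT hcF

theorem centralizer_le_normalizer (S : Sylow 2 G) {t : G} (ht : orderOf t = 2) (htS : t ∈ (S : Subgroup G)) :
    centralizer ({t} : Set G) ≤ normalizer ((S : Subgroup G) : Set G) := by
  obtain ⟨hle, hn, -⟩ := h.fitting_le hK S ht htS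
  intro c hc
  refine mem_normalizer_iff.2 fun v => ⟨fun hv => ?_, fun hv => ?_⟩
  · exact hn.conj_mem ⟨v, hle hv⟩ hv ⟨c, hc⟩
  · have := hn.conj_mem ⟨_, hle hv⟩ hv (⟨c, hc⟩ : centralizer ({t} : Set G))⁻¹
    simpa [mem_subgroupOf, mul_assoc] using this

theorem centralizer_sylow (S : Sylow 2 G) {c : G} (hc : ∀ v ∈ (S : Subgroup G), c * v = v * c) :
    c ∈ (S : Subgroup G) := by
  have : Fact (Nat.Prime 2) := ⟨Nat.prime_two⟩
  have := h.simple
  obtain ⟨t, ht⟩ := exists_prime_orderOf_dvd_card' (G := (S : Subgroup G)) 2 (by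
    obtain ⟨k, hk⟩ := IsPGroup.iff_card.1 S.2
    rw [hk]
    refine dvd_pow_self 2 fun e => ?_
    have := four_le_card_sylow h.nonab S
    rw [hk, e] at this
    omega)
  rw [← orderOf_coe] at ht
  exact (h.fitting_le hK S ht t.2).2.2 c (mem_centralizer_singleton_iff.2 (hc t t.2)) hc

/-- An involution lies in one Sylow `2`-subgroup. -/
theorem sylow_unique (S T : Sylow 2 G) {t : G} (ht : orderOf t = 2) (htS : t ∈ (S : Subgroup G))
    (htT : t ∈ (T : Subgroup G)) : S = T := by
  have hle : (T : Subgroup G) ≤ normalizer ((S : Subgroup G) : Set G) :=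
    le_trans (show (T : Subgroup G) ≤ centralizer ({t} : Set G) from
      fun v hv => mem_centralizer_singleton_iff.2 (h.commute_of_two T.2 hv htT))
      (h.centralizer_le_normalizer hK S ht htS)
  have h1 : IsPGroup 2 ↥((T : Subgroup G) ⊔ (S : Subgroup G)) := T.2.to_sup_of_normal_right' S.2 hle
  exact Sylow.ext ((S.3 h1 le_sup_right).symm.trans (T.3 h1 le_sup_left))

/-- An involution of the normaliser of a Sylow `2`-subgroup lies in it. -/
theorem mem_of_mem_normalizer (S : Sylow 2 G) {t : G} (ht : orderOf t = 2)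
    (htN : t ∈ normalizer ((S : Subgroup G) : Set G)) : t ∈ (S : Subgroup G) :=
  CIT.mem_sylow_of_mem_normalizer S htN (CIT.isPGroup_zpowers_of_orderOf ht)

/-- No involution inverts an element of order `p`. -/
theorem not_inverted {u x : G} (hu : orderOf u = 2) (hx : orderOf x = p) : u * x * u⁻¹ ≠ x⁻¹ := by
  classical
  intro he
  have : Fact (Nat.Prime 2) := ⟨Nat.prime_two⟩
  let H : Subgroup G :=
    { carrier := {g | g * x * g⁻¹ = x ∨ g * x * g⁻¹ = x⁻¹}
      one_mem' := Or.inl (by group)
      mul_mem' := by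
        intro a b ha hb
        have e : a * b * x * (a * b)⁻¹ = a * (b * x * b⁻¹) * a⁻¹ := by group
        rcases hb with hb | hb <;> rcases ha with ha | ha
        · exact Or.inl (by rw [e, hb, ha])
        · exact Or.inr (by rw [e, hb, ha])
        · exact Or.inr (by rw [e, hb, ← conj_inv, ha])
        · exact Or.inl (by rw [e, hb, ← conj_inv, ha, inv_inv])
      inv_mem' := by
        intro a ha
        rcases ha with ha | ha
        · refine Or.inl ?_
          conv_lhs => rw [← ha]
          group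
        · refine Or.inr ?_
          have : a * x⁻¹ * a⁻¹ = x := by rw [← conj_inv, ha, inv_inv]
          conv_lhs => rw [← this]
          group }
  have huH : u ∈ H := Or.inr he
  obtain ⟨R, hR⟩ := (IsPGroup.of_card (p := 2) (n := 1)
    (show Nat.card (zpowers (⟨u, huH⟩ : H)) = 2 ^ 1 by rw [Nat.card_zpowers, orderOf_mk, hu, pow_one])).exists_le_sylow
  obtain ⟨t, ht, htx⟩ := h.exists_two_of_p hx
  have htH : t ∈ H := Or.inl (mul_inv_eq_iff_eq_mul.2 htx.eq)
  obtain ⟨T, hT⟩ := (IsPGroup.of_card (p := 2) (n := 1)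
    (show Nat.card (zpowers (⟨t, htH⟩ : H)) = 2 ^ 1 by rw [Nat.card_zpowers, orderOf_mk, ht, pow_one])).exists_le_sylow
  obtain ⟨g, hg⟩ := MulAction.exists_smul_eq H T R
  have hw : g * ⟨t, htH⟩ * g⁻¹ ∈ (R : Subgroup H) := by
    rw [← hg, Sylow.coe_subgroup_smul]
    exact ⟨_, hT (mem_zpowers _), rfl⟩
  set w : G := (g : G) * t * (g : G)⁻¹ with hwdef
  have hwR : w ∈ (R : Subgroup H).map H.subtype := ⟨_, hw, rfl⟩
  have huR : u ∈ (R : Subgroup H).map H.subtype := ⟨_, hR (mem_zpowers _), rfl⟩
  have hwu : Commute w u := h.commute_of_two (R.2.map _) hwR huR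
  have hw2 : orderOf w = 2 := (Involutions.orderOf_conj _ t).trans ht
  have hwx : Commute w x := by
    have hc := htx.map (MulAut.conj (g : G)).toMonoidHom
    simp only [MulEquiv.coe_toMonoidHom, MulAut.conj_apply] at hc
    rcases g.2 with e | e
    · rwa [e] at hc
    · rw [e] at hc; exact Commute.inv_right_iff.1 hc
  obtain ⟨S, hS⟩ := (CIT.isPGroup_zpowers_of_orderOf hw2).exists_le_sylow
  have hwS := hS (mem_zpowers w)
  have hN := h.centralizer_le_normalizer hK S hw2 hwS
  have huS : u ∈ (S : Subgroup G) :=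
    h.mem_of_mem_normalizer hK S hu (hN (mem_centralizer_singleton_iff.2 hwu.eq.symm))
  have hxuS : x * u * x⁻¹ ∈ (S : Subgroup G) :=
    (mem_normalizer_iff.1 (hN (mem_centralizer_singleton_iff.2 hwx.eq.symm)) u).1 huS
  have hmem := (S : Subgroup G).mul_mem huS hxuS
  rw [show u * (x * u * x⁻¹) = u * x * u⁻¹ * ((u * u) * x⁻¹) by group, Involutions.mul_self_eq_one hu, one_mul,
    he] at hmem
  have h1 := h.orderOf_of_isPGroup_two S.2 hmem
  have hx2 : x⁻¹ * x⁻¹ ≠ 1 := fun e => by
    have hd := orderOf_dvd_of_pow_eq_one (x := x⁻¹) (n := 2) (by rw [pow_two, e])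
    rw [orderOf_inv, hx] at hd
    exact h.hp2 ((Nat.prime_dvd_prime_iff_eq h.hp Nat.prime_two).1 hd)
  rcases h1 with e | e
  · exact hx2 (orderOf_eq_one_iff.1 e)
  · have hd : orderOf (x⁻¹ * x⁻¹) ∣ p := orderOf_dvd_of_pow_eq_one (by
      rw [← pow_two, ← pow_mul, mul_comm, pow_mul, inv_pow, ← hx, pow_orderOf_eq_one, inv_one, one_pow])
    rw [e] at hd
    exact h.hp2 ((Nat.prime_dvd_prime_iff_eq Nat.prime_two h.hp).1 hd).symm

end CfsgLib.FewAutOrbits.TwoP
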