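import Cfsg.Agent.Lib.FewAutOrbits.TICount

/-!
The action of the normaliser of a Sylow `2`-subgroup on its involutions.
-/

set_option autoImplicit false
set_option linter.unusedSectionVars false

open Subgroup Cfsg

namespace CfsgLib.FewAutOrbits.TwoP

universe u

variable {G : Type u} [Group G] [Finite G] {p r : ℕ} (h : TwoP G p r)
  (hK : ∀ t : G, orderOf t = 2 → Kc p t = ⊥)
include h hK

theorem normalizer_action (S : Sylow 2 G) {t : G} (htS : t ∈ (S : Subgroup G)) (ht : orderOf t = 2) :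
    (∀ v y : G, v ∈ (S : Subgroup G) → orderOf v = 2 → orderOf y = p → Commute t y → Commute v y → v = t) ∧
      (∀ Q : Subgroup G, IsPGroup p Q → Q ≤ centralizer ({t} : Set G) → Nat.card Q ∣ p) := by
  classical
  have : Fact (Nat.Prime 2) := ⟨Nat.prime_two⟩
  have : Fact p.Prime := ⟨h.hp⟩
  set M := normalizer ((S : Subgroup G) : Set G) with hM
  let X := {x : (S : Subgroup G) // x ≠ 1}
  have hmem : ∀ (g : M) (x : X), (g : G) * ((x : (S : Subgroup G)) : G) * (g : G)⁻¹ ∈ (S : Subgroup G) :=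
    fun g x => (mem_normalizer_iff.1 g.2 _).1 (x : (S : Subgroup G)).2
  let act : M → X → X := fun g x => ⟨⟨_, hmem g x⟩, fun e => x.2 (Subtype.ext (by
    simpa using congrArg Subtype.val e))⟩
  have act_one : ∀ x, act 1 x = x := fun x => Subtype.ext (Subtype.ext (by simp [act]))
  have act_mul : ∀ g g' x, act (g * g') x = act g (act g' x) := fun g g' x =>
    Subtype.ext (Subtype.ext (by simp [act, mul_assoc]))
  let f : M →* Equiv.Perm X :=
    { toFun := fun g => ⟨act g, act g⁻¹, fun x => by rw [← act_mul, inv_mul_cancel, act_one],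
        fun x => by rw [← act_mul, mul_inv_cancel, act_one]⟩
      map_one' := Equiv.ext act_one
      map_mul' := fun g g' => Equiv.ext (act_mul g g') }
  have hfix : ∀ (g : M) (x : X), f g x = x ↔ Commute (g : G) ((x : (S : Subgroup G)) : G) := by
    intro g x
    show act g x = x ↔ _
    rw [Subtype.ext_iff, Subtype.ext_iff]
    exact mul_inv_eq_iff_eq_mul
  have hker : f.ker = (S : Subgroup G).subgroupOf M := by
    ext g
    rw [MonoidHom.mem_ker, mem_subgroupOf]
    constructor
    · intro hg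
      refine h.centralizer_sylow hK S fun v hv => ?_
      rcases eq_or_ne v 1 with rfl | hv1
      · simp
      · exact ((hfix g ⟨⟨v, hv⟩, fun e => hv1 (congrArg Subtype.val e)⟩).1 (by rw [hg]; rfl)).eq
    · intro hg
      exact Equiv.ext fun x => (hfix g x).2 (h.commute_of_two S.2 hg (x : (S : Subgroup G)).2)
  have hLodd : Odd (Nat.card f.range) := by
    rw [← index_ker, hker, ← Nat.not_even_iff_odd, even_iff_two_dvd]
    intro h2
    exact S.not_dvd_index (h2.trans (relIndex_dvd_index_of_le le_normalizer))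
  have hord : ∀ g : f.range, orderOf g = 1 ∨ orderOf g = p ∨ orderOf g = r := by
    intro g
    have hodd : Odd (orderOf g) := hLodd.of_dvd_nat (orderOf_dvd_natCard g)
    obtain ⟨m, hm⟩ := g.2
    have hd : orderOf g ∣ orderOf (m : G) := by
      rw [← orderOf_coe g, orderOf_coe m, ← hm]
      exact orderOf_map_dvd f m
    rcases h.orders m with e | e | e | e | e <;> rw [e] at hd
    · exact Or.inl (Nat.dvd_one.1 hd)
    · rcases (Nat.dvd_prime Nat.prime_two).1 hd with e' | e'
      · exact Or.inl e'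
      · rw [e'] at hodd; exact absurd hodd (by decide)
    · exact ((Nat.dvd_prime h.hp).1 hd).imp id Or.inl
    · exact ((Nat.dvd_prime h.hr).1 hd).imp id Or.inr
    · exact ((Nat.dvd_prime h.hp).1 (((Nat.coprime_two_right.2 hodd)).dvd_of_dvd_mul_left hd)).imp id Or.inl
  obtain ⟨hcS, htr⟩ := h.card_sylow_eq hK S
  have hX : Nat.card X = r := by
    have := Fintype.ofFinite (S : Subgroup G)
    have hpos : 1 ≤ Nat.card (S : Subgroup G) := Nat.card_pos
    simp only [X, Nat.card_eq_fintype_card, Fintype.card_subtype_compl, Fintype.card_subtype_eq] at hpos hcS ⊢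
    omega
  have hX2 : ∀ x : X, orderOf ((x : (S : Subgroup G)) : G) = 2 := fun x =>
    (h.orderOf_of_isPGroup_two S.2 (x : (S : Subgroup G)).2).resolve_left
      fun e => x.2 (Subtype.ext (orderOf_eq_one_iff.1 e))
  have : MulAction.IsPretransitive f.range X := ⟨fun x y => by
    obtain ⟨g, hg, e⟩ := htr _ _ (x : (S : Subgroup G)).2 (y : (S : Subgroup G)).2 (hX2 x) (hX2 y)
    exact ⟨⟨f ⟨g, hg⟩, ⟨g, hg⟩, rfl⟩, Subtype.ext (Subtype.ext e)⟩⟩
  obtain ⟨hfree, hst⟩ := prime_degree (L := f.range) (X := X) h.hp h.hr h.hrp hX hord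
  let x₀ : X := ⟨⟨t, htS⟩, fun e => by
    have := congrArg (fun z : (S : Subgroup G) => orderOf (z : G)) e
    simp [ht] at this⟩
  have hCM := h.centralizer_le_normalizer hK S ht htS
  refine ⟨fun v y hvS hv hy hty hvy => ?_, fun Q hQ hQC => ?_⟩
  · by_contra hvt
    let x₁ : X := ⟨⟨v, hvS⟩, fun e => by
      have := congrArg (fun z : (S : Subgroup G) => orderOf (z : G)) e
      simp [hv] at this⟩
    have hyM : y ∈ M := hCM (mem_centralizer_singleton_iff.2 hty.symm.eq)
    have h1 := hfree ⟨f ⟨y, hyM⟩, _, rfl⟩ x₀ x₁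
      (fun e => hvt (congrArg (fun z : X => ((z : (S : Subgroup G)) : G)) e).symm)
      ((hfix ⟨y, hyM⟩ x₀).2 hty.symm) ((hfix ⟨y, hyM⟩ x₁).2 hvy.symm)
    have h2 : (⟨y, hyM⟩ : M) ∈ f.ker := MonoidHom.mem_ker.2 (congrArg Subtype.val h1)
    rw [hker] at h2
    have h3 : orderOf y = 1 ∨ orderOf y = 2 := h.orderOf_of_isPGroup_two S.2 h2
    rw [hy] at h3
    exact h3.elim h.hp.one_lt.ne' h.hp2
  · have hQM : Q ≤ M := hQC.trans hCM
    let g : Q →* MulAction.stabilizer f.range x₀ :=
      { toFun := fun q => ⟨⟨f ⟨q, hQM q.2⟩, _, rfl⟩, (hfix ⟨q, hQM q.2⟩ x₀).2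
          (mem_centralizer_singleton_iff.1 (hQC q.2))⟩
        map_one' := Subtype.ext (Subtype.ext (map_one f))
        map_mul' := fun a b => Subtype.ext (Subtype.ext (map_mul f (⟨a, hQM a.2⟩ : M) ⟨b, hQM b.2⟩)) }
    refine (card_dvd_of_injective g ?_).trans (hst x₀)
    rw [← MonoidHom.ker_eq_bot_iff, eq_bot_iff]
    intro q hq
    have h2 : (⟨q, hQM q.2⟩ : M) ∈ f.ker :=
      MonoidHom.mem_ker.2 (congrArg (fun z : MulAction.stabilizer f.range x₀ => ((z : f.range) : Equiv.Perm X)) hq)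
    rw [hker] at h2
    refine mem_bot.2 (Subtype.ext ?_)
    by_contra hq1
    have h3 : orderOf (q : G) = 1 ∨ orderOf (q : G) = 2 := h.orderOf_of_isPGroup_two S.2 h2
    rw [h.orderOf_of_isPGroup_p hQ q.2 hq1] at h3
    exact h3.elim h.hp.one_lt.ne' h.hp2

/-- A Sylow `2`-subgroup of the centraliser of an element of order `p` has order at most two. -/
theorem card_two_le_of_ti {y : G} (hy : orderOf y = p) (T : Subgroup G) (hT : IsPGroup 2 T)
    (hTC : T ≤ centralizer ({y} : Set G)) : Nat.card T ≤ 2 := by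
  classical
  obtain ⟨S, hS⟩ := hT.exists_le_sylow
  by_contra hlt
  have := Fintype.ofFinite T
  rw [Nat.card_eq_fintype_card] at hlt
  obtain ⟨a, ha, b, hb, hab⟩ := Finset.one_lt_card.1
    (show 1 < (Finset.univ.erase (1 : T)).card by
      rw [Finset.card_erase_of_mem (Finset.mem_univ _), Finset.card_univ]; omega)
  have h2 : ∀ c : T, c ≠ 1 → orderOf (c : G) = 2 := fun c hc =>
    (h.orderOf_of_isPGroup_two hT c.2).resolve_left fun e => hc (Subtype.ext (orderOf_eq_one_iff.1 e))
  exact hab (Subtype.ext ((h.normalizer_action hK S (hS a.2) (h2 a (Finset.ne_of_mem_erase ha))).1 b y (hS b.2)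
    (h2 b (Finset.ne_of_mem_erase hb)) hy (mem_centralizer_singleton_iff.1 (hTC a.2))
    (mem_centralizer_singleton_iff.1 (hTC b.2))).symm)

theorem card_dvd_of_centralizes {w : G} (hw : orderOf w = 2) (Q : Subgroup G) (hQ : IsPGroup p Q)
    (hQC : Q ≤ centralizer ({w} : Set G)) : Nat.card Q ∣ p := by
  obtain ⟨S, hS⟩ := (CIT.isPGroup_zpowers_of_orderOf hw).exists_le_sylow
  exact (h.normalizer_action hK S (hS (mem_zpowers w)) hw).2 Q hQ hQC

end CfsgLib.FewAutOrbits.TwoP
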