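import Cfsg.Agent.Lib.FewAutOrbits.TI
import Mathlib.Combinatorics.Pigeonhole
import Mathlib.GroupTheory.Perm.Cycle.Type

/-!
The normaliser of a Sylow `2`-subgroup in the trivial intersection case.
-/

set_option autoImplicit false
set_option linter.unusedSectionVars false

open Subgroup Cfsg
open scoped Pointwise

namespace CfsgLib.FewAutOrbits

/-- An automorphism of order dividing two of a group of odd order fixes a Sylow subgroup. -/
theorem exists_sylow_fixed {D : Type*} [Group D] [Finite D] (hD : Odd (Nat.card D)) (q : ℕ) [Fact q.Prime]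
    (φ : MulAut D) (hφ : φ ^ 2 = 1) : ∃ P : Sylow q D, ∀ x ∈ (P : Subgroup D), φ x ∈ (P : Subgroup D) := by
  classical
  have := Fintype.ofFinite (Sylow q D)
  have : Fact (Nat.Prime 2) := ⟨Nat.prime_two⟩
  obtain ⟨P₀⟩ : Nonempty (Sylow q D) := inferInstance
  have hd : Nat.card (Sylow q D) ∣ Nat.card D :=
    P₀.card_dvd_index.trans (P₀ : Subgroup D).index_dvd_card
  obtain ⟨P, hP⟩ := Equiv.Perm.exists_fixed_point_of_prime (p := 2) (n := 1) (α := Sylow q D) (by
      intro h2
      rw [← Nat.card_eq_fintype_card] at h2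
      exact (Nat.not_even_iff_odd.2 hD) (even_iff_two_dvd.2 (h2.trans hd)))
    (σ := MulAction.toPermHom (MulAut D) (Sylow q D) φ) (by rw [pow_one, ← map_pow, hφ, map_one])
  refine ⟨P, fun x hx => ?_⟩
  have h1 : φ • x ∈ φ • (P : Subgroup D) := smul_mem_pointwise_smul x φ _ hx
  rw [← Sylow.pointwise_smul_def, show φ • P = P from hP] at h1
  exact h1

namespace TwoP

universe u

variable {G : Type u} [Group G] [Finite G] {p r : ℕ} (h : TwoP G p r)
  (hK : ∀ t : G, orderOf t = 2 → Kc p t = ⊥)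
include h

theorem eq_one_of_r {Q : Subgroup G} (hQ : IsPGroup r Q) {g t : G} (hg : g ∈ Q) (ht : orderOf t = 2)
    (hc : Commute t g) : g = 1 := by
  have : Fact r.Prime := ⟨h.hr⟩
  obtain ⟨k, hk⟩ := IsPGroup.iff_orderOf.1 hQ ⟨g, hg⟩
  rw [orderOf_mk] at hk
  rcases h.orders_centralizer (Or.inl ht) hc with e | e | e | e
  · exact orderOf_eq_one_iff.1 e
  · rw [hk] at e
    rcases k with _ | k
    · simp at e
    · exact absurd ((Nat.prime_dvd_prime_iff_eq h.hr Nat.prime_two).1 (e ▸ dvd_pow_self r k.succ_ne_zero)) h.hr2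
  · rw [hk] at e
    rcases k with _ | k
    · exact absurd e.symm (by simpa using h.hp.one_lt.ne')
    · exact absurd ((Nat.prime_dvd_prime_iff_eq h.hr h.hp).1 (e ▸ dvd_pow_self r k.succ_ne_zero)) h.hrp
  · rw [hk] at e
    have h2 : 2 ∣ r := Nat.prime_two.dvd_of_dvd_pow (e ▸ dvd_mul_right 2 p : 2 ∣ r ^ k)
    exact absurd ((Nat.prime_dvd_prime_iff_eq Nat.prime_two h.hr).1 h2).symm h.hr2

theorem odd_orderOf {g : G} (hg : Odd (orderOf g)) : orderOf g = 1 ∨ orderOf g = p ∨ orderOf g = r := by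
  rcases h.orders g with e | e | e | e | e
  · exact Or.inl e
  · rw [e] at hg; exact absurd hg (by decide)
  · exact Or.inr (Or.inl e)
  · exact Or.inr (Or.inr e)
  · rw [e] at hg; exact absurd (Nat.odd_mul.1 hg).1 (by decide)

include hK

/-- Some coset of the normaliser contains many involutions. -/
theorem exists_coset (S : Sylow 2 G) :
    ∃ (u : G) (J : Finset G), orderOf u = 2 ∧ u ∉ normalizer ((S : Subgroup G) : Set G) ∧
      Nat.card (S : Subgroup G) ≤ J.card + 1 ∧
      ∀ x ∈ J, x ∈ normalizer ((S : Subgroup G) : Set G) ∧ u * x * u⁻¹ = x⁻¹ := by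
  classical
  have : Fact (Nat.Prime 2) := ⟨Nat.prime_two⟩
  have := Fintype.ofFinite G
  have := Fintype.ofFinite (Sylow 2 G)
  have := h.simple
  set M := normalizer ((S : Subgroup G) : Set G) with hM
  have := Fintype.ofFinite (G ⧸ M)
  have hS4 := four_le_card_sylow h.nonab S
  set m := Nat.card (S : Subgroup G) - 1 with hm
  let I : Finset G := Finset.univ.filter fun g => orderOf g = 2
  have hin : ∀ T : Sylow 2 G, (I.filter fun g => g ∈ (T : Subgroup G)).card = m := by
    intro T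
    have he : (I.filter fun g => g ∈ (T : Subgroup G)) = ((T : Subgroup G) : Set G).toFinset.erase 1 := by
      ext g
      simp only [I, Finset.mem_filter, Finset.mem_univ, true_and, Finset.mem_erase, Set.mem_toFinset, SetLike.mem_coe]
      exact ⟨fun ⟨h1, h2⟩ => ⟨fun e => by simp [e] at h1, h2⟩, fun ⟨h1, h2⟩ =>
        ⟨(h.orderOf_of_isPGroup_two T.2 h2).resolve_left fun e => h1 (orderOf_eq_one_iff.1 e), h2⟩⟩
    rw [he, Finset.card_erase_of_mem (by simp), Set.toFinset_card, hm]
    simp only [SetLike.coe_sort_coe, ← Nat.card_eq_fintype_card, T.card_eq_multiplicity, S.card_eq_multiplicity]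
  have hI : I.card = M.index * m := by
    have hf : ∀ g : G, ∃ T : Sylow 2 G, orderOf g = 2 → g ∈ (T : Subgroup G) := by
      intro g
      by_cases hg : orderOf g = 2
      · obtain ⟨T, hT⟩ := (CIT.isPGroup_zpowers_of_orderOf hg).exists_le_sylow
        exact ⟨T, fun _ => hT (mem_zpowers g)⟩
      · exact ⟨S, fun e => absurd e hg⟩
    choose f hf using hf
    have hfib : ∀ T ∈ (Finset.univ : Finset (Sylow 2 G)), (I.filter fun g => f g = T).card = m := by
      intro T _
      rw [← hin T]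
      congr 1
      refine Finset.filter_congr fun g hg => ?_
      have hg2 : orderOf g = 2 := (Finset.mem_filter.1 hg).2
      exact ⟨fun e => e ▸ hf g hg2, fun hgT => h.sylow_unique hK _ T hg2 (hf g hg2) hgT⟩
    rw [Finset.card_eq_sum_card_fiberwise (f := f) (t := Finset.univ) (fun g _ => Finset.mem_univ _),
      Finset.sum_congr rfl hfib, Finset.sum_const, Finset.card_univ, smul_eq_mul,
      ← Nat.card_eq_fintype_card, Sylow.card_eq_index_normalizer S]
    rfl
  have hout : (M.index - 1) * m ≤ (I.filter fun g => g ∉ M).card := by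
    have h1 := Finset.card_filter_add_card_filter_not (s := I) (fun g => g ∈ M)
    have h2 : (I.filter fun g => g ∈ M) = I.filter fun g => g ∈ (S : Subgroup G) :=
      Finset.filter_congr fun g hg =>
        ⟨fun hgM => h.mem_of_mem_normalizer hK S (Finset.mem_filter.1 hg).2 hgM, fun hgS => le_normalizer hgS⟩
    rw [h2, hin S, hI] at h1
    rw [Nat.sub_mul, one_mul]
    omega
  have hMtop : M ≠ ⊤ := by
    intro e
    rcases (normalizer_eq_top_iff.1 e).eq_bot_or_eq_top with e' | e'
    · rw [e', card_bot] at hS4; omega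
    · obtain ⟨a, b, hab⟩ := h.nonab
      exact hab (h.commute_of_two S.2 (e' ▸ mem_top a) (e' ▸ mem_top b))
  have hidx : 2 ≤ M.index := one_lt_index_of_ne_top hMtop
  obtain ⟨c, hc, hcard⟩ := Finset.exists_le_card_fiber_of_mul_le_card_of_maps_to (n := m)
    (f := fun g : G => (g : G ⧸ M)) (s := I.filter fun g => g ∉ M)
    (t := Finset.univ.erase ((1 : G) : G ⧸ M)) (fun g hg => Finset.mem_erase.2
      ⟨fun e => (Finset.mem_filter.1 hg).2 (by
        have := QuotientGroup.eq.1 e.symm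
        simpa using this), Finset.mem_univ _⟩)
    (by rw [← Finset.card_pos, Finset.card_erase_of_mem (Finset.mem_univ _), Finset.card_univ,
        ← Nat.card_eq_fintype_card, ← index_eq_card]; omega)
    (by
      rw [Finset.card_erase_of_mem (Finset.mem_univ _), Finset.card_univ,
        ← Nat.card_eq_fintype_card, ← index_eq_card]
      exact hout)
  obtain ⟨u, hu⟩ := Finset.card_pos.1 (show 0 < _ from lt_of_lt_of_le (by omega : 0 < m) hcard)
  simp only [Finset.mem_filter, I, Finset.mem_univ, true_and] at hu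
  obtain ⟨⟨hu2, huM⟩, huc⟩ := hu
  refine ⟨u, Finset.image (fun v => u * v) ((I.filter fun g => g ∉ M).filter fun x => ((x : G) : G ⧸ M) = c),
    hu2, huM, ?_, ?_⟩
  · rw [Finset.card_image_of_injective _ (mul_right_injective u)]
    omega
  · intro x hx
    simp only [Finset.mem_image, Finset.mem_filter, I, Finset.mem_univ, true_and] at hx
    obtain ⟨v, ⟨⟨hv2, -⟩, hvc⟩, rfl⟩ := hx
    refine ⟨?_, ?_⟩
    · have := QuotientGroup.eq.1 (huc.trans hvc.symm)
      rwa [inv_eq_of_mul_eq_one_right (Involutions.mul_self_eq_one hu2)] at this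
    · rw [mul_inv_rev, inv_eq_of_mul_eq_one_right (Involutions.mul_self_eq_one hu2),
        inv_eq_of_mul_eq_one_right (Involutions.mul_self_eq_one hv2), ← mul_assoc,
        Involutions.mul_self_eq_one hu2, one_mul]

/-- The normaliser permutes the involutions of a Sylow `2`-subgroup transitively and there are `r` of them. -/
theorem card_sylow_eq (S : Sylow 2 G) : Nat.card (S : Subgroup G) = r + 1 ∧
    ∀ t t' : G, t ∈ (S : Subgroup G) → t' ∈ (S : Subgroup G) → orderOf t = 2 → orderOf t' = 2 →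
      ∃ g ∈ normalizer ((S : Subgroup G) : Set G), g * t * g⁻¹ = t' := by
  classical
  have : Fact (Nat.Prime 2) := ⟨Nat.prime_two⟩
  have : Fact p.Prime := ⟨h.hp⟩
  have : Fact r.Prime := ⟨h.hr⟩
  have := h.simple
  obtain ⟨u, J, hu, huM, hJc, hJ⟩ := h.exists_coset hK S
  set M := normalizer ((S : Subgroup G) : Set G) with hM
  have huu := Involutions.mul_self_eq_one hu
  have hui : u⁻¹ = u := inv_eq_of_mul_eq_one_right huu
  have hcc : ∀ y : G, u * (u * y * u⁻¹) * u⁻¹ = y := fun y => by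
    rw [hui, ← mul_assoc, ← mul_assoc, huu, one_mul, mul_assoc, huu, mul_one]
  set D := M ⊓ M.map (MulAut.conj u).toMonoidHom with hD
  have hDu : ∀ x ∈ D, u * x * u⁻¹ ∈ D := by
    rintro x ⟨hx1, y, hy, rfl⟩
    refine ⟨?_, _, hx1, rfl⟩
    show u * (u * y * u⁻¹) * u⁻¹ ∈ M
    rw [hcc]
    exact hy
  have hodd : Odd (Nat.card D) := by
    rw [← Nat.not_even_iff_odd, even_iff_two_dvd]
    intro h2
    obtain ⟨d, hd⟩ := exists_prime_orderOf_dvd_card' (G := D) 2 h2
    rw [← orderOf_coe] at hd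
    obtain ⟨hdM, y, hy, hdy⟩ := d.2
    have hy2 : orderOf y = 2 := by rw [← hdy] at hd; exact (Involutions.orderOf_conj u y).symm.trans hd
    have hyS := h.mem_of_mem_normalizer hK S hy2 hy
    have hdS := h.mem_of_mem_normalizer hK S hd hdM
    have hT : (d : G) ∈ ((u • S : Sylow 2 G) : Subgroup G) := by
      rw [Sylow.coe_subgroup_smul]
      exact ⟨y, hyS, hdy⟩
    exact huM (Sylow.smul_eq_iff_mem_normalizer.1 (h.sylow_unique hK S _ hd hdS hT).symm)
  let f : D → D := fun x => ⟨u * x * u⁻¹, hDu x x.2⟩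
  have hff : ∀ x, f (f x) = x := fun x => Subtype.ext (hcc x)
  let φ : MulAut D :=
    { toFun := f, invFun := f, left_inv := hff, right_inv := hff
      map_mul' := fun a b => Subtype.ext (show u * ((a : G) * b) * u⁻¹ = u * a * u⁻¹ * (u * b * u⁻¹) by group) }
  have hφ : φ ^ 2 = 1 := MulEquiv.ext fun x => by rw [pow_two]; exact hff x
  obtain ⟨R, hR⟩ := exists_sylow_fixed hodd r φ hφ
  obtain ⟨P, hP⟩ := exists_sylow_fixed hodd p φ hφ
  set R' := (R : Subgroup D).map D.subtype with hR'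
  set P' := (P : Subgroup D).map D.subtype with hP'
  have hRu : ∀ x ∈ R', u * x * u⁻¹ ∈ R' := by
    rintro _ ⟨x, hx, rfl⟩; exact ⟨φ x, hR x hx, rfl⟩
  have hPu : ∀ x ∈ P', u * x * u⁻¹ ∈ P' := by
    rintro _ ⟨x, hx, rfl⟩; exact ⟨φ x, hP x hx, rfl⟩
  have hRinv : ∀ x ∈ R', u * x * u⁻¹ = x⁻¹ := fun x hx =>
    inverts_of_fpf huu R' hRu (fun a ha e => h.eq_one_of_r (R.2.map _) ha hu
      (mul_inv_eq_iff_eq_mul.1 e)) hx
  have hPfix : ∀ y ∈ P', Commute u y := by
    intro y hy
    have hz : y⁻¹ * (u * y * u⁻¹) ∈ P' := P'.mul_mem (P'.inv_mem hy) (hPu y hy)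
    rcases eq_or_ne (y⁻¹ * (u * y * u⁻¹)) 1 with e | e
    · exact mul_inv_eq_iff_eq_mul.1 (inv_mul_eq_one.1 e).symm
    · refine absurd ?_ (h.not_inverted hK hu (h.orderOf_of_isPGroup_p (P.2.map _) hz e))
      calc u * (y⁻¹ * (u * y * u⁻¹)) * u⁻¹ = u * y⁻¹ * u⁻¹ * (u * (u * y * u⁻¹) * u⁻¹) := by group
        _ = (y⁻¹ * (u * y * u⁻¹))⁻¹ := by rw [hcc]; group
  have hcompl : Subgroup.IsComplement' (R : Subgroup D) (P : Subgroup D) := by
    have hRc := R.card_eq_multiplicity
    have hPc := P.card_eq_multiplicity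
    refine isComplement'_of_coprime ?_ ?_
    · rw [hRc, hPc]
      refine Nat.eq_of_factorization_eq (mul_ne_zero (pow_ne_zero _ h.hr.ne_zero) (pow_ne_zero _ h.hp.ne_zero))
        Nat.card_pos.ne' fun q => ?_
      rw [Nat.factorization_mul (pow_ne_zero _ h.hr.ne_zero) (pow_ne_zero _ h.hp.ne_zero), Finsupp.add_apply,
        h.hr.factorization_pow, h.hp.factorization_pow, Finsupp.single_apply, Finsupp.single_apply]
      rcases eq_or_ne r q with rfl | hr'
      · simp [Ne.symm h.hrp]
      rcases eq_or_ne p q with rfl | hp'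
      · simp [h.hrp]
      rw [if_neg hr', if_neg hp']
      refine (Nat.factorization_eq_zero_iff _ _).2 ?_ |>.symm
      by_cases hq : q.Prime
      swap
      · exact Or.inl hq
      refine Or.inr (Or.inl fun hqd => ?_)
      have : Fact q.Prime := ⟨hq⟩
      obtain ⟨d, hd⟩ := exists_prime_orderOf_dvd_card' (G := D) q hqd
      have hdo : Odd (orderOf (d : G)) := by rw [orderOf_coe]; exact hodd.of_dvd_nat (orderOf_dvd_natCard d)
      rcases h.odd_orderOf hdo with e | e | e <;> rw [orderOf_coe, hd] at e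
      · exact hq.one_lt.ne' e
      · exact hp' e.symm
      · exact hr' e.symm
    · rw [hRc, hPc]
      exact Nat.Coprime.pow _ _ ((Nat.coprime_primes h.hr h.hp).2 h.hrp)
  have hJR : ∀ x ∈ J, x ∈ R' := by
    intro x hx
    obtain ⟨hxM, hxinv⟩ := hJ x hx
    have hxD : x ∈ D := ⟨hxM, x⁻¹, M.inv_mem hxM, by
      show u * x⁻¹ * u⁻¹ = x
      rw [← hxinv, hcc]⟩
    obtain ⟨⟨a, b⟩, hab⟩ := hcompl.2 ⟨x, hxD⟩
    have hx' : ((a : D) : G) * ((b : D) : G) = x := congrArg Subtype.val hab
    set a' : G := ((a : D) : G) with ha'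
    set b' : G := ((b : D) : G) with hb'
    have haR : a' ∈ R' := ⟨a, a.2, rfl⟩
    have hbP : b' ∈ P' := ⟨b, b.2, rfl⟩
    have e1 : a'⁻¹ * b' = b'⁻¹ * a'⁻¹ := by
      rw [← hx', mul_inv_rev] at hxinv
      rw [← hxinv]
      calc a'⁻¹ * b' = (u * a' * u⁻¹) * (u * b' * u⁻¹) := by
            rw [hRinv a' haR, show u * b' * u⁻¹ = b' from mul_inv_eq_iff_eq_mul.2 (hPfix b' hbP).eq]
        _ = u * (a' * b') * u⁻¹ := by group
    have e2 : a' * b' * a'⁻¹ = b'⁻¹ := by
      calc a' * b' * a'⁻¹ = a' * (b' * (a'⁻¹ * b')) * b'⁻¹ := by group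
        _ = b'⁻¹ := by rw [e1]; group
    have hc2 : Commute (a' ^ 2) b' := by
      refine mul_inv_eq_iff_eq_mul.1 ?_
      calc a' ^ 2 * b' * (a' ^ 2)⁻¹ = a' * (a' * b' * a'⁻¹) * a'⁻¹ := by
            simp only [pow_two, mul_inv_rev, mul_assoc]
        _ = b' := by rw [e2, ← conj_inv, e2, inv_inv]
    have hc : Commute a' b' := by
      have hao : Odd (orderOf a') := by
        rw [ha', orderOf_coe]
        exact hodd.of_dvd_nat (orderOf_dvd_natCard _)
      obtain ⟨k, hk⟩ := hao
      have : (a' ^ 2) ^ (k + 1) = a' := by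
        rw [← pow_mul, show 2 * (k + 1) = orderOf a' + 1 by omega, pow_succ, pow_orderOf_eq_one, one_mul]
      exact this ▸ hc2.pow_left _
    rw [hc.eq, mul_inv_cancel_right] at e2
    have hb1 : b' = 1 := by
      have hbo : Odd (orderOf b') := by rw [hb', orderOf_coe]; exact hodd.of_dvd_nat (orderOf_dvd_natCard _)
      have hd : orderOf b' ∣ 2 := orderOf_dvd_of_pow_eq_one (by rw [pow_two]; exact mul_eq_one_iff_eq_inv.2 e2)
      rcases (Nat.dvd_prime Nat.prime_two).1 hd with e | e
      · exact orderOf_eq_one_iff.1 e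
      · rw [e] at hbo; exact absurd hbo (by decide)
    rw [← hx', hb1, mul_one]
    exact haR
  have hRM : R' ≤ M := (map_subtype_le _).trans inf_le_left
  have hS4 := four_le_card_sylow h.nonab S
  have hcardJ : Nat.card (S : Subgroup G) ≤ Nat.card R' + 1 := by
    have := Finset.card_le_card (t := (R' : Set G).toFinite.toFinset) (fun x hx => by simpa using hJR x hx)
    rw [← Set.ncard_eq_toFinset_card, ← Nat.card_coe_set_eq] at this
    exact hJc.trans (Nat.add_le_add_right this 1)
  let X := {x : (S : Subgroup G) // x ≠ 1}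
  have hX : Nat.card X + 1 = Nat.card (S : Subgroup G) := by
    have := Fintype.ofFinite (S : Subgroup G)
    simp only [X, Nat.card_eq_fintype_card, Fintype.card_subtype_compl, Fintype.card_subtype_eq]
    exact Nat.sub_add_cancel Fintype.card_pos
  have key : ∀ t : G, t ∈ (S : Subgroup G) → orderOf t = 2 →
      ∃ F : R' → X, Function.Injective F ∧ ∀ a, ((F a : (S : Subgroup G)) : G) = a * t * (a : G)⁻¹ := by
    intro t htS ht
    refine ⟨fun a => ⟨⟨a * t * (a : G)⁻¹, (mem_normalizer_iff.1 (hRM a.2) t).1 htS⟩, fun e => ?_⟩, ?_, fun a => rfl⟩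
    · have := congrArg (fun z : (S : Subgroup G) => orderOf (z : G)) e
      simp [Involutions.orderOf_conj, ht] at this
    · intro a b hab
      have e : (a : G) * t * (a : G)⁻¹ = b * t * (b : G)⁻¹ :=
        congrArg (fun z : X => ((z : (S : Subgroup G)) : G)) hab
      have hc : Commute t ((b : G)⁻¹ * a) := by
        calc t * ((b : G)⁻¹ * a) = (b : G)⁻¹ * (b * t * (b : G)⁻¹) * a := by group
          _ = (b : G)⁻¹ * a * t := by rw [← e]; group
      exact Subtype.ext (inv_mul_eq_one.1 (h.eq_one_of_r (R.2.map _) (R'.mul_mem (R'.inv_mem b.2) a.2) ht hc)).symm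
  obtain ⟨t₀, ht₀⟩ := exists_prime_orderOf_dvd_card' (G := (S : Subgroup G)) 2 (by
    obtain ⟨k, hk⟩ := IsPGroup.iff_card.1 S.2
    rw [hk]
    refine dvd_pow_self 2 fun e => ?_
    rw [hk, e] at hS4
    omega)
  rw [← orderOf_coe] at ht₀
  obtain ⟨F, hF, -⟩ := key t₀ t₀.2 ht₀
  have hRX := Nat.card_le_card_of_injective F hF
  refine ⟨?_, fun t t' htS ht'S ht ht' => ?_⟩
  · obtain ⟨a, ha⟩ := IsPGroup.iff_card.1 S.2
    obtain ⟨j, hj⟩ : ∃ j, Nat.card R' = r ^ j := IsPGroup.iff_card.1 (R.2.map D.subtype)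
    change Nat.card (S : Subgroup G) = 2 ^ a at ha
    have heq : r ^ j + 1 = 2 ^ a := by omega
    have ha2 : 2 ≤ a := by
      by_contra hlt
      have : 2 ^ a ≤ 2 ^ 1 := Nat.pow_le_pow_right two_pos (by omega)
      omega
    have hj1 := exponent_le_one ha2 (h.hr.odd_of_ne_two h.hr2) heq
    interval_cases j
    · simp at heq; omega
    · rw [pow_one] at heq; omega
  · obtain ⟨F, hF, hFv⟩ := key t htS ht
    obtain ⟨a, ha⟩ := (hF.bijective_of_nat_card_le (by omega)).2
      ⟨⟨t', ht'S⟩, fun e => by rw [show t' = 1 from congrArg Subtype.val e] at ht'; simp at ht'⟩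
    exact ⟨a, hRM a.2, by rw [← hFv, ha]⟩

end TwoP

end CfsgLib.FewAutOrbits
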